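import Cfsg.Agent.ThreeBlock.Irred
import Cfsg.Prelude.Def_CaseTheorems

/-!
A solvable group over three elements with a cubic block: the commutator of the 3'-core.
-/

set_option autoImplicit false

open Cfsg Module
open scoped commutatorElement

namespace Cfsg.Agent.ThreeBlock

local instance : Fact (Nat.Prime 3) := ⟨Nat.prime_three⟩

section

variable {G : Type*} [Group G] [Finite G]
variable {V : Type*} [AddCommGroup V] [Module (ZMod 3) V] [Finite V]
variable {ρ : G →* Module.End (ZMod 3) V} {b : G} {Q R : Subgroup G}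

/-- The two possibilities. -/
theorem Setup.classify [Group.IsSolvable G] (h : Setup ρ b Q R) :
    (IsElementaryAbelian 2 R ∧ Nat.card R = 4) ∨
      (IsExtraspecial 2 R ∧ Nat.card R = 32 ∧
        ∃ A : Subgroup G, A ≤ R ∧ IsElementaryAbelian 2 A ∧ Nat.card A = 8) := by
  by_cases hel : ∀ N : Subgroup G, N.Normal → N ≤ R → IsElementaryAbelian 2 N →
      ∀ x ∈ N, b * x = x * b
  · exact Or.inr (h.extra hel)
  push Not at hel
  obtain ⟨N, hNn, hNR, hN, x, hx, hne⟩ := hel
  haveI := hNn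
  exact h.monomial hNR hN ⟨x, hx, hne⟩

end

variable {S : Type*} [Group S] [Finite S] [Group.IsSolvable S]
variable {E : Type*} [AddCommGroup E] [Module (ZMod 3) E] [Finite E]
variable {ρ : S →* Module.End (ZMod 3) E} {b : S} {Q R : Subgroup S}

theorem Amb.classify (h : Amb ρ b Q R) :
    (IsElementaryAbelian 2 R ∧ Nat.card R = 4) ∨
      (IsExtraspecial 2 R ∧ Nat.card R = 32 ∧
        ∃ A : Subgroup S, A ≤ R ∧ IsElementaryAbelian 2 A ∧ Nat.card A = 8) := by
  set M := R ⊔ Subgroup.zpowers b with hM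
  set F := moving ρ R with hF
  let ρ' : M →* Module.End (ZMod 3) F :=
    { toFun := fun g => (ρ (g : S)).restrict fun v hv => h.moving_inv g.2 hv
      map_one' := LinearMap.ext fun v => Subtype.ext (by
        show ρ (1 : S) (v : E) = v
        rw [map_one]; rfl)
      map_mul' := fun g g' => LinearMap.ext fun v => Subtype.ext (by
        show ρ ((g : S) * g') (v : E) = ρ (g : S) (ρ (g' : S) v)
        rw [rho_mul_apply]) }
  have hρ' : ∀ (g : M) (v : F), ((ρ' g v : F) : E) = ρ (g : S) (v : E) := fun _ _ => rfl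
  have hinj : Function.Injective ρ' := by
    rw [injective_iff_map_eq_one]
    intro g hg
    refine Subtype.ext (h.faithful g.2 fun v hv => ?_)
    have := hρ' g ⟨v, hv⟩
    rw [hg] at this
    exact this.symm
  let b' : M := ⟨b, Subgroup.mem_sup_right (Subgroup.mem_zpowers b)⟩
  have hQM : Q ≤ M := h.le.trans le_sup_left
  have hRM : R ≤ M := le_sup_left
  haveI hRn : (R.subgroupOf M).Normal := by
    rw [Subgroup.normal_subgroupOf_iff_le_normalizer hRM]
    exact h.le_normalizer
  have hmapR : (R.subgroupOf M).map M.subtype = R := Subgroup.map_subgroupOf_eq_of_le hRM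
  have hmapB : (Subgroup.zpowers b').map M.subtype = Subgroup.zpowers b := MonoidHom.map_zpowers _ _
  have hcfg : Config ρ' b' (Q.subgroupOf M) :=
    { inj := hinj
      cube := Subtype.ext (by simpa using h.cfg.cube)
      sq := fun q hq => Subtype.ext (h.cfg.sq _ hq)
      card := (Nat.card_congr (Subgroup.subgroupOfEquivOfLe hQM).toEquiv).trans h.cfg.card
      norm := by
        rw [Subgroup.mem_normalizer_iff]
        intro q
        exact Subgroup.mem_normalizer_iff.1 h.cfg.norm (q : S)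
      fpf := fun q hq e => Subtype.ext (h.cfg.fpf _ hq (congrArg Subtype.val e))
      rank := by
        have hle : (LinearMap.range (ρ' b' - 1)).map F.subtype ≤ LinearMap.range (ρ b - 1) := by
          rintro _ ⟨_, ⟨v, rfl⟩, rfl⟩
          exact ⟨(v : E), rfl⟩
        have := Submodule.finrank_mono hle
        rw [← (Submodule.equivMapOfInjective _ F.injective_subtype _).finrank_eq] at this
        exact this.trans h.cfg.rank }
  have hsetup : Setup ρ' b' (Q.subgroupOf M) (R.subgroupOf M) :=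
    { cfg := hcfg
      normal := hRn
      le := fun q hq => h.le hq
      coprime := by
        rw [Nat.card_congr (Subgroup.subgroupOfEquivOfLe hRM).toEquiv]
        exact h.coprime
      comm := Subgroup.map_injective M.subtype_injective (by
        rw [Subgroup.map_commutator, hmapR, hmapB, h.comm])
      gen := Subgroup.map_injective M.subtype_injective (by
        rw [Subgroup.map_sup, hmapR, hmapB, ← MonoidHom.range_eq_map, Subgroup.range_subtype])
      irr := fun W hW hne => by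
        rcases h.irreducible (N := W.map F.subtype)
          (by rintro _ ⟨v, -, rfl⟩; exact v.2)
          (by
            rintro g hg _ ⟨v, hv, rfl⟩
            exact ⟨ρ' ⟨g, hg⟩ v, hW ⟨g, hg⟩ v hv, rfl⟩) with e | e
        · exact absurd (Submodule.map_injective_of_injective F.injective_subtype
            (e.trans (Submodule.map_bot _).symm)) hne
        · refine Submodule.map_injective_of_injective F.injective_subtype (e.trans ?_)
          rw [Submodule.map_top, Submodule.range_subtype] }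
  have helem : ∀ A : Subgroup M, IsElementaryAbelian 2 A →
      IsElementaryAbelian 2 (A.map M.subtype) := by
    intro A hA
    refine ⟨⟨⟨?_⟩⟩, ?_⟩
    · rintro ⟨_, x, hx, rfl⟩ ⟨_, y, hy, rfl⟩
      exact Subtype.ext (show M.subtype x * M.subtype y = M.subtype y * M.subtype x by
        rw [← map_mul, ← map_mul, TwoSmall.comm_apply hA.1 hx hy])
    · rintro _ ⟨x, hx, rfl⟩
      rw [← map_pow, hA.2 x hx, map_one]
  rcases hsetup.classify with ⟨h1, h2⟩ | ⟨h1, h2, A, hA, hAel, hA8⟩
  · left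
    refine ⟨?_, ?_⟩
    · rw [← hmapR]; exact helem _ h1
    · rw [← hmapR, Subgroup.card_map_of_injective M.subtype_injective]; exact h2
  · right
    refine ⟨LargeExtra.isExtraspecial_map_equiv h1 (Subgroup.subgroupOfEquivOfLe hRM), ?_,
      A.map M.subtype, ?_, helem _ hAel, ?_⟩
    · rw [← hmapR, Subgroup.card_map_of_injective M.subtype_injective]; exact h2
    · exact (Subgroup.map_mono hA).trans hmapR.le
    · rw [Subgroup.card_map_of_injective M.subtype_injective]; exact hA8

/-- The rank of `b - 1` from the block decomposition. -/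
theorem rank_le_two (hb : b ^ 3 = 1) (E₀ E₁ : Submodule (ZMod 3) E) (htop : E₀ ⊔ E₁ = ⊤)
    (hE1 : ∀ v ∈ E₁, ρ b v = v) (hE0inv : ∀ v ∈ E₀, ρ b v ∈ E₀) (hE0 : Nat.card E₀ = 27) :
    finrank (ZMod 3) (LinearMap.range (ρ b - 1)) ≤ 2 := by
  have h3 : finrank (ZMod 3) E₀ = 3 := by
    have := Module.natCard_eq_pow_finrank (K := ZMod 3) (V := E₀)
    rw [hE0, Nat.card_zmod] at this
    exact (Nat.pow_right_injective (by norm_num : 2 ≤ 3)
      (show (3 : ℕ) ^ 3 = 3 ^ finrank (ZMod 3) E₀ by rw [← this])).symm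
  let g : E₀ →ₗ[ZMod 3] E := (ρ b - 1).domRestrict E₀
  have hrange : LinearMap.range (ρ b - 1) ≤ LinearMap.range g := by
    rintro _ ⟨v, rfl⟩
    obtain ⟨x, hx, y, hy, rfl⟩ := Submodule.mem_sup.1 (htop.ge (Submodule.mem_top (x := v)))
    refine ⟨⟨x, hx⟩, ?_⟩
    simp [g, map_add, hE1 y hy]
  have hker : LinearMap.ker g ≠ ⊥ := by
    intro hbot
    have hi : ∀ v ∈ E₀, (ρ b - 1) v = 0 → v = 0 := fun v hv e => by
      have : (⟨v, hv⟩ : E₀) ∈ LinearMap.ker g := e
      rw [hbot, Submodule.mem_bot] at this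
      exact congrArg Subtype.val this
    have hmem : ∀ v ∈ E₀, (ρ b - 1) v ∈ E₀ := fun v hv => E₀.sub_mem (hE0inv v hv) hv
    have hzero : ∀ v : E, (ρ b - 1) ((ρ b - 1) ((ρ b - 1) v)) = 0 := by
      intro v
      have e : ρ b (ρ b (ρ b v)) = v := by
        rw [← rho_mul_apply, ← rho_mul_apply, ← pow_two, ← pow_succ, hb, map_one]; rfl
      simp only [LinearMap.sub_apply, Module.End.one_apply, map_sub, e]
      have h1 := add_self_eq (ρ b v)
      have h2 := add_self_eq (ρ b (ρ b v))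
      calc v - ρ b (ρ b v) - (ρ b (ρ b v) - ρ b v) -
            (ρ b (ρ b v) - ρ b v - (ρ b v - v))
          = (ρ b v + ρ b v + ρ b v) - (ρ b (ρ b v) + ρ b (ρ b v) + ρ b (ρ b v)) := by abel
        _ = 0 := by rw [h1, h2, neg_add_cancel, neg_add_cancel, sub_zero]
    haveI : Nontrivial E₀ := Module.nontrivial_of_finrank_pos (R := ZMod 3) (by omega)
    obtain ⟨⟨v, hv⟩, hne⟩ := exists_ne (0 : E₀)
    refine hne (Subtype.ext (hi v hv (hi _ (hmem v hv) (hi _ (hmem _ (hmem v hv)) (hzero v)))))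
  have h4 := LinearMap.finrank_range_add_finrank_ker g
  have h5 := Submodule.one_le_finrank_iff.2 hker
  have h6 := Submodule.finrank_mono hrange
  omega

/-- The configuration in a solvable group. -/
theorem reduction (hfaith : Function.Injective ρ)
    (B : Subgroup S) (hB : Nat.card B = 3) (hb : Subgroup.zpowers b = B)
    (hrank : finrank (ZMod 3) (LinearMap.range (ρ b - 1)) ≤ 2)
    (hQ : IsElementaryAbelian 2 Q) (hQ4 : Nat.card Q = 4)
    (hBQ : B ≤ Subgroup.normalizer (Q : Set S)) (hBQ' : ¬ B ≤ Subgroup.centralizer (Q : Set S))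
    (P : Sylow 3 S) (hBZ : (Subgroup.center ↥(P : Subgroup S)).map (P : Subgroup S).subtype = B) :
    Amb ρ b Q ⁅pPrimeCore 3 S, B⁆ := by
  have hbB : b ∈ B := hb ▸ Subgroup.mem_zpowers b
  have hb3 : b ^ 3 = 1 := by
    have := pow_card_eq_one' (x := (⟨b, hbB⟩ : B))
    rw [hB] at this
    exact congrArg Subtype.val this
  have hodd : Odd (orderOf b) := (show Odd 3 from ⟨1, rfl⟩).of_dvd_nat (orderOf_dvd_of_pow_eq_one hb3)
  have hnorm : b ∈ Subgroup.normalizer (Q : Set S) := hBQ hbB
  have hsq : ∀ q ∈ Q, q * q = 1 := fun q hq => by rw [← pow_two]; exact hQ.2 q hq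
  have hfpf : ∀ q ∈ Q, b * q * b⁻¹ = q → q = 1 := by
    intro q hq e
    by_contra hne
    refine hBQ' (hb ▸ Subgroup.zpowers_le.2 (Subgroup.mem_centralizer_iff.2 fun v hv => ?_))
    exact (TwoSmall.commute_of_fix_four hQ4 hnorm hodd hq hne
      (mul_inv_eq_iff_eq_mul.1 e) hv).eq.symm
  have hcfg : Config ρ b Q := ⟨hfaith, hb3, hsq, hQ4, hnorm, hfpf, hrank⟩
  set K := pPrimeCore 3 S with hK
  haveI : K.Normal := Cfsg.pPrimeCore_normal 3 S
  let κ := QuotientGroup.mk' K
  have hKn : B ≤ Subgroup.normalizer (K : Set S) := by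
    rw [Subgroup.normalizer_eq_top]; exact le_top
  have hcopK : (Nat.card K).Coprime 3 := PSolv.coprime_card_pPrimeCore 3 S
  have hC := PSolv.centralizer_pCore_le
    (PSolv.isPSolvable_of_isSolvable (p := 3) (inferInstance : Group.IsSolvable (S ⧸ K)))
    (PSolv.pPrimeCore_quotient_eq_bot 3 S)
  have hbP : ∀ p ∈ (P : Subgroup S), p * b = b * p := by
    intro p hp
    obtain ⟨z, hz, e⟩ := hBZ.ge hbB
    rw [← e]
    exact congrArg Subtype.val (Subgroup.mem_center_iff.1 hz ⟨p, hp⟩)
  have hbD : κ b ∈ pCore 3 (S ⧸ K) := hC (Subgroup.mem_centralizer_iff.2 fun d hd => by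
    obtain ⟨p, hp, rfl⟩ :=
      PSolv.pCore_le_sylow (P.mapSurjective (QuotientGroup.mk'_surjective K)) hd
    show κ p * κ b = κ b * κ p
    rw [← map_mul, ← map_mul, hbP p hp])
  have hcommQ : ∀ q ∈ Q, ⁅q, b⁆ ∈ Q := fun q hq => by
    rw [commutatorElement_def, show q * b * q⁻¹ * b⁻¹ = q * (b * q⁻¹ * b⁻¹) by group]
    exact Q.mul_mem hq ((Subgroup.mem_normalizer_iff.1 hnorm _).1 (Q.inv_mem hq))
  have hcommK : ∀ q ∈ Q, ⁅q, b⁆ ∈ K := by
    intro q hq
    have hd : κ ⁅q, b⁆ ∈ pCore 3 (S ⧸ K) := by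
      rw [map_commutatorElement, commutatorElement_def]
      exact mul_mem ((Cfsg.pCore_normal 3 _).conj_mem _ hbD _) (inv_mem hbD)
    obtain ⟨k, hk⟩ := PSolv.isPGroup_pCore 3 (S ⧸ K) ⟨_, hd⟩
    have h1 : orderOf (κ ⁅q, b⁆) ∣ 3 ^ k :=
      orderOf_dvd_of_pow_eq_one (congrArg Subtype.val hk)
    have h2 : orderOf (κ ⁅q, b⁆) ∣ 2 := orderOf_dvd_of_pow_eq_one (by
      rw [← map_pow, hQ.2 _ (hcommQ q hq), map_one])
    exact (QuotientGroup.eq_one_iff _).1 (orderOf_eq_one_iff.1
      (Nat.eq_one_of_dvd_coprimes ((by norm_num : Nat.Coprime 3 2).pow_left k) h1 h2))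
  haveI : Finite Q := inferInstance
  let f : Q → Q := fun q => ⟨⁅(q : S), b⁆, hcommQ q q.2⟩
  have hf : Function.Injective f := by
    intro q q' e
    have e' : ⁅(q : S), b⁆ = ⁅(q' : S), b⁆ := congrArg Subtype.val e
    rw [commutatorElement_def, commutatorElement_def, inv_eq_of_mul_eq_one_right (hsq _ q.2),
      inv_eq_of_mul_eq_one_right (hsq _ q'.2)] at e'
    have hu : (q' : S)⁻¹ * q = 1 := by
      refine hfpf _ (Q.mul_mem (Q.inv_mem q'.2) q.2) ?_
      have e1 := mul_right_cancel e'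
      rw [inv_eq_of_mul_eq_one_right (hsq _ q'.2)]
      calc b * ((q' : S) * q) * b⁻¹ = (q' : S)⁻¹ * (q' * b * q') * (q : S) * b⁻¹ := by group
        _ = (q' : S)⁻¹ * (q * b * q) * q * b⁻¹ := by rw [e1]
        _ = (q' : S)⁻¹ * q * b * (q * q) * b⁻¹ := by group
        _ = (q' : S)⁻¹ * q := by rw [hsq _ q.2]; group
        _ = _ := by rw [inv_eq_of_mul_eq_one_right (hsq _ q'.2)]
    exact Subtype.ext (inv_mul_eq_one.1 hu).symm
  have hQcomm : ∀ q ∈ Q, ∃ u ∈ Q, ⁅u, b⁆ = q := fun q hq => by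
    obtain ⟨⟨u, hu⟩, e⟩ := Finite.surjective_of_injective hf ⟨q, hq⟩
    exact ⟨u, hu, congrArg Subtype.val e⟩
  have hQK : Q ≤ K := fun q hq => by
    obtain ⟨u, hu, rfl⟩ := hQcomm q hq
    exact hcommK u hu
  refine ⟨hcfg, fun q hq => ?_, hcopK.coprime_dvd_left (Subgroup.card_dvd_of_le
    (Coprime.commutator_le_of_le_normalizer hKn)), ?_⟩
  · obtain ⟨u, hu, rfl⟩ := hQcomm q hq
    exact Subgroup.commutator_mem_commutator (hQK hu) hbB
  · rw [hb]
    exact Coprime.commutator_commutator_eq hKn (by rw [hB]; exact hcopK.symm)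

end Cfsg.Agent.ThreeBlock
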