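import Cfsg.Agent.ThreeBlock.Weights
import Cfsg.Agent.TwoSmall.Main
import Cfsg.Agent.PSolv.Cores
import Mathlib.LinearAlgebra.Determinant
import Mathlib.GroupTheory.Abelianization.Defs

/-!
An irreducible group generated by a subgroup `R = [R, b]` of order prime to three and an element
`b` of small displacement: scalars, determinants, and the absence of abelian normal subgroups of
odd order in `R`.
-/

set_option autoImplicit false

open Cfsg Module
open scoped commutatorElement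

namespace Cfsg.Agent.ThreeBlock

local instance : Fact (Nat.Prime 3) := ⟨Nat.prime_three⟩

variable {G : Type*} [Group G] [Finite G]
variable {V : Type*} [AddCommGroup V] [Module (ZMod 3) V] [Finite V]
variable {ρ : G →* Module.End (ZMod 3) V} {b : G} {Q R : Subgroup G}

/-- The reduced situation. -/
structure Setup (ρ : G →* Module.End (ZMod 3) V) (b : G) (Q R : Subgroup G) : Prop where
  cfg : Config ρ b Q
  normal : R.Normal
  le : Q ≤ R
  coprime : (Nat.card R).Coprime 3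
  comm : ⁅R, Subgroup.zpowers b⁆ = R
  gen : R ⊔ Subgroup.zpowers b = ⊤
  irr : ∀ W : Submodule (ZMod 3) V, (∀ g : G, ∀ v ∈ W, ρ g v ∈ W) → W ≠ ⊥ → W = ⊤

theorem zmod3_cases : ∀ c : ZMod 3, c = 0 ∨ c = 1 ∨ c = -1 := by decide

section Lines

variable {t₁ t₂ t₃ : G} {e₁ e₂ e₃ : V}

theorem Lines.ne2 (L : Lines ρ b Q t₁ t₂ t₃ e₁ e₂ e₃) : e₂ ≠ 0 := fun h =>
  L.e1ne (rho_injective_apply ρ b (by rw [L.b1, h, map_zero]))

theorem Lines.ne3 (L : Lines ρ b Q t₁ t₂ t₃ e₁ e₂ e₃) : e₃ ≠ 0 := fun h =>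
  L.ne2 (rho_injective_apply ρ b (by rw [L.b2, h, map_zero]))

theorem Lines.eq_t2 (L : Lines ρ b Q t₁ t₂ t₃ e₁ e₂ e₃) {q : G} (hq : q ∈ Q)
    (h2 : ρ q e₂ = e₂) (h3 : ρ q e₃ = -e₃) : q = t₂ := by
  rcases L.all q hq with e | e | e | e <;> subst e
  · rw [map_one, Module.End.one_apply] at h3
    exact absurd (eq_zero_of_neg_eq h3.symm) L.ne3
  · rw [L.s12] at h2
    exact absurd (eq_zero_of_neg_eq h2) L.ne2
  · rfl
  · rw [L.s32] at h2
    exact absurd (eq_zero_of_neg_eq h2) L.ne2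

theorem Lines.eq_t3 (L : Lines ρ b Q t₁ t₂ t₃ e₁ e₂ e₃) {q : G} (hq : q ∈ Q)
    (h3 : ρ q e₃ = e₃) (h1 : ρ q e₁ = -e₁) : q = t₃ := by
  rcases L.all q hq with e | e | e | e <;> subst e
  · rw [map_one, Module.End.one_apply] at h1
    exact absurd (eq_zero_of_neg_eq h1.symm) L.e1ne
  · rw [L.s13] at h3
    exact absurd (eq_zero_of_neg_eq h3) L.ne3
  · rw [L.s23] at h3
    exact absurd (eq_zero_of_neg_eq h3) L.ne3
  · rfl

theorem Lines.mul12 (L : Lines ρ b Q t₁ t₂ t₃ e₁ e₂ e₃) : t₁ * t₂ = t₃ :=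
  L.eq_t3 (Q.mul_mem L.m1 L.m2) (by rw [rho_mul_apply, L.s23, map_neg, L.s13, neg_neg])
    (by rw [rho_mul_apply, L.s21, map_neg, L.s11])

theorem Lines.conj12 (L : Lines ρ b Q t₁ t₂ t₃ e₁ e₂ e₃) (hb : b ∈ Subgroup.normalizer (Q : Set G)) :
    b * t₁ * b⁻¹ = t₂ := by
  refine L.eq_t2 ((Subgroup.mem_normalizer_iff.1 hb _).1 L.m1) ?_ ?_
  · rw [← L.b1, rho_mul_apply, rho_mul_apply, rho_inv_apply, L.s11]
  · rw [← L.b2, rho_mul_apply, rho_mul_apply, rho_inv_apply, L.s12, map_neg]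

theorem Lines.conj23 (L : Lines ρ b Q t₁ t₂ t₃ e₁ e₂ e₃) (hb : b ∈ Subgroup.normalizer (Q : Set G)) :
    b * t₂ * b⁻¹ = t₃ := by
  refine L.eq_t3 ((Subgroup.mem_normalizer_iff.1 hb _).1 L.m2) ?_ ?_
  · rw [← L.b2, rho_mul_apply, rho_mul_apply, rho_inv_apply, L.s22]
  · rw [← L.b3, rho_mul_apply, rho_mul_apply, rho_inv_apply, L.s23, map_neg]

theorem Lines.three_le (L : Lines ρ b Q t₁ t₂ t₃ e₁ e₂ e₃) : 3 ≤ finrank (ZMod 3) V := by
  let φ : (Fin 3 → ZMod 3) →ₗ[ZMod 3] V := Fintype.linearCombination (ZMod 3) ![e₁, e₂, e₃]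
  have hφ : Function.Injective φ := by
    rw [injective_iff_map_eq_zero]
    intro f hf
    have e : f 0 • e₁ + f 1 • e₂ + f 2 • e₃ = 0 := by
      simpa [φ, Fintype.linearCombination_apply, Fin.sum_univ_three] using hf
    have h1 := congrArg (ρ t₁) e
    have h2 := congrArg (ρ t₂) e
    simp only [map_add, map_smul, L.s11, L.s12, L.s13, map_zero, smul_neg] at h1
    simp only [map_add, map_smul, L.s21, L.s22, L.s23, map_zero, smul_neg] at h2
    have hdbl : ∀ x : V, x + x = 0 → x = 0 := fun x hx => by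
      rw [add_self_eq] at hx; exact neg_eq_zero.1 hx
    have a1 : f 0 • e₁ = 0 := hdbl _ (by
      calc f 0 • e₁ + f 0 • e₁
          = (f 0 • e₁ + f 1 • e₂ + f 2 • e₃) + (f 0 • e₁ + -(f 1 • e₂) + -(f 2 • e₃)) := by abel
        _ = 0 := by rw [e, h1, add_zero])
    have a2 : f 1 • e₂ = 0 := hdbl _ (by
      calc f 1 • e₂ + f 1 • e₂
          = (f 0 • e₁ + f 1 • e₂ + f 2 • e₃) + (-(f 0 • e₁) + f 1 • e₂ + -(f 2 • e₃)) := by abel
        _ = 0 := by rw [e, h2, add_zero])
    have a3 : f 2 • e₃ = 0 := by rwa [a1, a2, zero_add, zero_add] at e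
    funext i
    fin_cases i
    · exact (smul_eq_zero.1 a1).resolve_right L.e1ne
    · exact (smul_eq_zero.1 a2).resolve_right L.ne2
    · exact (smul_eq_zero.1 a3).resolve_right L.ne3
  have := LinearMap.finrank_le_finrank_of_injective hφ
  simpa using this

end Lines

/-- An endomorphism of order prime to six acts trivially on an invariant plane. -/
theorem trivial_of_small (ρ : G →* Module.End (ZMod 3) V) {g : G} (hg : (orderOf g).Coprime 6)
    (W : Submodule (ZMod 3) V) (hW : finrank (ZMod 3) W ≤ 2) (hinv : ∀ v ∈ W, ρ g v ∈ W) :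
    ∀ v ∈ W, ρ g v = v := by
  let f : Module.End (ZMod 3) W := (ρ g).restrict hinv
  have hf : ∀ k (w : W), ((f ^ k) w : V) = ρ (g ^ k) w := by
    intro k
    induction k with
    | zero => intro w; simp
    | succ k ih =>
      intro w
      rw [pow_succ', pow_succ', Module.End.mul_apply, rho_mul_apply, ← ih]
      rfl
  have hpow : f ^ orderOf g = 1 := LinearMap.ext fun w => Subtype.ext (by
    rw [hf, pow_orderOf_eq_one, map_one]; rfl)
  let u := Units.ofPowEqOne f (orderOf g) hpow (orderOf_pos g).ne'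
  have hu : orderOf u ∣ orderOf g := orderOf_dvd_of_pow_eq_one (Units.ext (by
    rw [Units.val_pow_eq_pow_val, Units.val_one]; exact hpow))
  have hcard : Nat.card (Module.End (ZMod 3) W)ˣ ∣ 6 ^ 4 := by
    rw [Nat.card_congr (Units.mapEquiv
      (LinearMap.toMatrixAlgEquiv (finBasis (ZMod 3) W)).toMulEquiv).toEquiv,
      Matrix.card_GL_field, ZMod.card]
    generalize finrank (ZMod 3) W = n at hW
    interval_cases n <;> simp [Fin.prod_univ_succ]
  have h1 : orderOf u = 1 := Nat.eq_one_of_dvd_coprimes (hg.pow_right 4) hu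
    ((orderOf_dvd_natCard u).trans hcard)
  intro v hv
  have h2 : f = 1 := congrArg Units.val (orderOf_eq_one_iff.1 h1)
  exact congrArg Subtype.val (LinearMap.congr_fun h2 ⟨v, hv⟩)

/-- The determinant kills `R`. -/
theorem Setup.det_one (h : Setup ρ b Q R) {r : G} (hr : r ∈ R) : LinearMap.det (ρ r) = 1 := by
  let f : G →* (ZMod 3)ˣ := MonoidHom.toHomUnits (LinearMap.det.comp ρ)
  have hle : ⁅R, Subgroup.zpowers b⁆ ≤ f.ker := Subgroup.commutator_le.2 fun x _ y _ => by
    rw [MonoidHom.mem_ker, map_commutatorElement]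
    exact commutatorElement_eq_one_iff_mul_comm.2 (mul_comm _ _)
  rw [h.comm] at hle
  exact congrArg Units.val (hle hr)

/-- Central elements act as `1` or `-1`. -/
theorem Setup.central_scalar (h : Setup ρ b Q R) {z : G} (hz : z ∈ Subgroup.center G) :
    ρ z = 1 ∨ ρ z = -1 := by
  obtain ⟨t₁, t₂, t₃, e₁, e₂, e₃, L⟩ := h.cfg.exists_lines
  have hcv : ∀ g v, ρ z (ρ g v) = ρ g (ρ z v) := fun g v => by
    rw [← rho_mul_apply, ← rho_mul_apply, Subgroup.mem_center_iff.1 hz g]
  obtain ⟨c, hce⟩ := L.line (ρ z e₁) (by rw [← hcv, L.s11]) (by rw [← hcv, L.s21, map_neg])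
  let W : Submodule (ZMod 3) V := LinearMap.ker (ρ z - c • 1)
  have hmem : ∀ v, v ∈ W ↔ ρ z v = c • v := fun v => by simp [W, sub_eq_zero]
  have htop : W = ⊤ := h.irr W (fun g v hv => by
    rw [hmem] at hv ⊢
    rw [hcv, hv, map_smul]) ((Submodule.ne_bot_iff W).2 ⟨e₁, (hmem e₁).2 hce, L.e1ne⟩)
  have hall : ∀ v, ρ z v = c • v := fun v => (hmem v).1 (htop ▸ Submodule.mem_top)
  rcases zmod3_cases c with rfl | rfl | rfl
  · exact absurd (rho_injective_apply ρ z (by rw [hce, zero_smul, map_zero])) L.e1ne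
  · exact Or.inl (LinearMap.ext fun v => by rw [hall v, one_smul]; rfl)
  · exact Or.inr (LinearMap.ext fun v => by rw [hall v, neg_one_smul]; rfl)

/-- A normal subgroup in `R` centralized by `b` is central. -/
theorem Setup.center_of_fixed (h : Setup ρ b Q R) {N : Subgroup G} [N.Normal]
    (hb : ∀ n ∈ N, b * n = n * b) : N ≤ Subgroup.center G := by
  have h1 : Subgroup.zpowers b ≤ Subgroup.centralizer (N : Set G) :=
    Subgroup.zpowers_le.2 (Subgroup.mem_centralizer_iff.2 fun n hn => (hb n hn).symm)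
  have h2 : R ≤ Subgroup.centralizer (N : Set G) := TwoSmall.le_centralizer_of_fixed h.comm
    (by rw [Subgroup.normalizer_eq_top]; exact le_top) h1
  have h3 : (⊤ : Subgroup G) ≤ Subgroup.centralizer (N : Set G) := h.gen ▸ sup_le h2 h1
  exact fun n hn => Subgroup.mem_center_iff.2 fun g =>
    (Subgroup.mem_centralizer_iff.1 (h3 (Subgroup.mem_top g)) n hn).symm

theorem Setup.scalar_of_fixed (h : Setup ρ b Q R) {N : Subgroup G} [N.Normal]
    (hb : ∀ n ∈ N, b * n = n * b) : ∀ n ∈ N, ρ n = 1 ∨ ρ n = -1 :=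
  fun _ hn => h.central_scalar (h.center_of_fixed hb hn)

/-- An abelian normal subgroup of odd order contained in `R` is trivial. -/
theorem Setup.odd_abelian_trivial (h : Setup ρ b Q R) (A : Subgroup G) [A.Normal] (hAR : A ≤ R)
    (hA : ∀ x ∈ A, ∀ y ∈ A, x * y = y * x) (hodd : Odd (Nat.card A)) : A = ⊥ := by
  obtain ⟨t₁, t₂, t₃, e₁, e₂, e₃, L⟩ := h.cfg.exists_lines
  have hord : ∀ a ∈ A, Odd (orderOf a) := fun a ha => hodd.of_dvd_nat (A.orderOf_dvd_natCard ha)
  have hcop : ∀ a ∈ A, (orderOf a).Coprime 6 := fun a ha => by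
    rw [show (6 : ℕ) = 2 * 3 by rfl]
    exact Nat.Coprime.mul_right (hord a ha).coprime_two_right
      (h.coprime.coprime_dvd_left (R.orderOf_dvd_natCard (hAR ha)))
  have hinv : ∀ q ∈ Q, q⁻¹ = q := fun q hq => inv_eq_of_mul_eq_one_right (h.cfg.sq q hq)
  have hQc : ∀ x ∈ Q, ∀ y ∈ Q, x * y = y * x := fun x hx y hy => by
    rw [← hinv _ (Q.mul_mem hx hy), mul_inv_rev, hinv x hx, hinv y hy]
  have hconj : ∀ t, ∀ a ∈ A, t * a * t⁻¹ ∈ A := fun t a ha =>
    Subgroup.Normal.conj_mem inferInstance a ha t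
  -- centralizers of `t₁`
  have key : ∀ a ∈ A, a * t₁ = t₁ * a → a * t₂ = t₂ * a := by
    let P₂ : Submodule (ZMod 3) V := LinearMap.ker (ρ t₁ + 1)
    have hP : ∀ v, v ∈ P₂ ↔ ρ t₁ v = -v := fun v => by simp [P₂, add_eq_zero_iff_eq_neg]
    have hsplit : ∀ v, ∃ x y, ρ t₁ x = x ∧ ρ t₁ y = -y ∧ (∃ α : ZMod 3, ρ t₂ x = x + α • e₁) ∧
        y ∈ Submodule.span (ZMod 3) (Set.range ![e₂, e₃]) ∧ v = x + y := by
      intro v
      obtain ⟨α, β, γ, c, hc, rfl⟩ := L.decomp v
      refine ⟨α • e₁ + c, β • e₂ + γ • e₃, ?_, ?_, ⟨α, ?_⟩, ?_, by abel⟩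
      · rw [map_add, map_smul, L.s11, hc _ L.m1]
      · rw [map_add, map_smul, map_smul, L.s12, L.s13, smul_neg, smul_neg, neg_add]
      · rw [map_add, map_smul, L.s21, hc _ L.m2, smul_neg, add_right_comm, add_self_eq]
      · exact add_mem (Submodule.smul_mem _ _ (Submodule.subset_span ⟨0, rfl⟩))
          (Submodule.smul_mem _ _ (Submodule.subset_span ⟨1, rfl⟩))
    have hP2 : finrank (ZMod 3) P₂ ≤ 2 := by
      refine (Submodule.finrank_mono (t := Submodule.span (ZMod 3) (Set.range ![e₂, e₃])) ?_).trans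
        (le_of_le_of_eq (finrank_range_le_card (![e₂, e₃])) (Fintype.card_fin 2))
      intro v hv
      rw [hP] at hv
      obtain ⟨x, y, hx, hy, -, hys, rfl⟩ := hsplit v
      rw [map_add, hx, hy, neg_add] at hv
      have : x = 0 := eq_zero_of_neg_eq (add_right_cancel hv).symm
      rw [this, zero_add]; exact hys
    have hplane : ∀ x ∈ A, x * t₁ = t₁ * x → ∀ v ∈ P₂, ρ x v = v := fun x hx hxt =>
      trivial_of_small ρ (hcop x hx) P₂ hP2 (fun v hv => by
        rw [hP] at hv ⊢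
        rw [← rho_mul_apply, ← hxt, rho_mul_apply, hv, map_neg])
    intro a ha hat
    set m := a⁻¹ * (t₂ * a * t₂⁻¹) with hm
    have hmA : m ∈ A := A.mul_mem (A.inv_mem ha) (hconj t₂ a ha)
    have c1 : Commute t₁ a := hat.symm
    have c2 : Commute t₁ t₂ := hQc _ L.m1 _ L.m2
    have hmt : m * t₁ = t₁ * m :=
      ((c1.inv_right).mul_right ((c2.mul_right c1).mul_right c2.inv_right)).eq.symm
    have hone : ∀ x, ρ t₁ x = x → ∃ α : ZMod 3, ρ t₂ x = x + α • e₁ := fun x hx => by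
      obtain ⟨x', y, hx', hy, hα, -, rfl⟩ := hsplit x
      rw [map_add, hx', hy] at hx
      have : y = 0 := eq_zero_of_neg_eq (add_left_cancel hx)
      rw [this, add_zero]; exact hα
    have hfixa : ∀ x, ρ t₁ x = x → ρ t₁ (ρ a x) = ρ a x := fun x hx => by
      rw [← rho_mul_apply, ← hat, rho_mul_apply, hx]
    let Z2 : Submodule (ZMod 3) V := Submodule.span (ZMod 3) (Set.range ![e₁, ρ a⁻¹ e₁])
    have hdiff : ∀ x, ρ t₁ x = x → ρ m x - x ∈ Z2 := by
      intro x hx
      obtain ⟨α, hα⟩ := hone x hx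
      obtain ⟨β, hβ⟩ := hone (ρ a (x + α • e₁))
        (hfixa _ (by rw [map_add, map_smul, hx, L.s11]))
      have hmx : ρ m x = x + α • e₁ + β • ρ a⁻¹ e₁ := by
        rw [hm, hinv _ L.m2, rho_mul_apply, rho_mul_apply, rho_mul_apply, hα, hβ, map_add,
          rho_inv_apply, map_smul]
      rw [hmx, add_assoc, add_sub_cancel_left]
      exact add_mem (Submodule.smul_mem _ _ (Submodule.subset_span ⟨0, rfl⟩))
        (Submodule.smul_mem _ _ (Submodule.subset_span ⟨1, rfl⟩))
    have hZ2L : Z2 ≤ LinearMap.ker (ρ t₁ - 1) := Submodule.span_le.2 (by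
      rintro _ ⟨i, rfl⟩
      fin_cases i
      · simp [sub_eq_zero, L.s11]
      · simp only [SetLike.mem_coe, LinearMap.mem_ker, LinearMap.sub_apply, Module.End.one_apply,
          sub_eq_zero]
        show ρ t₁ (ρ a⁻¹ e₁) = ρ a⁻¹ e₁
        rw [← rho_mul_apply, (c1.inv_right).eq, rho_mul_apply, L.s11])
    have hL : ∀ z ∈ Z2, ρ t₁ z = z := fun z hz => by
      simpa [sub_eq_zero] using hZ2L hz
    have hmZ : ∀ z ∈ Z2, ρ m z = z := trivial_of_small ρ (hcop m hmA) Z2
      (le_of_le_of_eq (finrank_range_le_card (![e₁, ρ a⁻¹ e₁])) (Fintype.card_fin 2))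
      (fun z hz => by
        have := add_mem (hdiff z (hL z hz)) hz
        rwa [sub_add_cancel] at this)
    have hm3 : m ^ 3 = 1 := h.cfg.inj (LinearMap.ext fun v => by
      obtain ⟨x, y, hx, hy, -, -, rfl⟩ := hsplit v
      have hd := hmZ _ (hdiff x hx)
      rw [map_sub] at hd
      set d := ρ m x - x with hd'
      have e1 : ρ m x = x + d := (add_sub_cancel x (ρ m x)).symm
      have e2 : ρ m y = y := hplane m hmA hmt y ((hP y).2 hy)
      have e3 : ρ m d = d := by rw [map_sub]; exact hd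
      rw [map_one, Module.End.one_apply, pow_succ, pow_two, rho_mul_apply, rho_mul_apply]
      simp only [map_add, e1, e2, e3]
      have := add_self_eq d
      calc x + d + d + d + y = x + (d + d + d) + y := by abel
        _ = x + y := by rw [this, neg_add_cancel, add_zero])
    have hm1 : m = 1 := orderOf_eq_one_iff.1 (Nat.eq_one_of_dvd_coprimes (hcop m hmA) dvd_rfl
      ((orderOf_dvd_of_pow_eq_one hm3).trans (by norm_num)))
    rw [hm, inv_mul_eq_one] at hm1
    exact (eq_mul_inv_iff_mul_eq.1 hm1)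
  -- centralizers of each involution centralize `Q`
  have hQall : ∀ a, a * t₁ = t₁ * a → a * t₂ = t₂ * a → ∀ q ∈ Q, a * q = q * a := by
    intro a h1 h2 q hq
    rcases L.all q hq with e | e | e | e <;> subst e
    · rw [mul_one, one_mul]
    · exact h1
    · exact h2
    · rw [← L.mul12]; exact (Commute.mul_right (show Commute a t₁ from h1) h2).eq
  have shift : ∀ t t', b * t * b⁻¹ = t' →
      (∀ a ∈ A, a * t = t * a → ∀ q ∈ Q, a * q = q * a) →
      ∀ a ∈ A, a * t' = t' * a → ∀ q ∈ Q, a * q = q * a := by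
    intro t t' ht ih a ha hat q hq
    have h1 : b⁻¹ * a * b ∈ A := by simpa using hconj b⁻¹ a ha
    have h2 : b⁻¹ * q * b ∈ Q := by
      simpa using (Subgroup.mem_normalizer_iff.1 (inv_mem h.cfg.norm) q).1 hq
    have h3 := ih _ h1 (by
      rw [show t = b⁻¹ * t' * b by rw [← ht]; group,
        show b⁻¹ * a * b * (b⁻¹ * t' * b) = b⁻¹ * (a * t') * b by group, hat]
      group) _ h2
    rw [show b⁻¹ * a * b * (b⁻¹ * q * b) = b⁻¹ * (a * q) * b by group,
      show b⁻¹ * q * b * (b⁻¹ * a * b) = b⁻¹ * (q * a) * b by group] at h3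
    exact mul_left_cancel (mul_right_cancel h3)
  have c₁ : ∀ a ∈ A, a * t₁ = t₁ * a → ∀ q ∈ Q, a * q = q * a := fun a ha hat =>
    hQall a hat (key a ha hat)
  have c₂ := shift t₁ t₂ (L.conj12 h.cfg.norm) c₁
  have c₃ := shift t₂ t₃ (L.conj23 h.cfg.norm) c₂
  have hCQ : ∀ a ∈ A, ∀ q ∈ Q, a * q = q * a := by
    intro a ha
    have hfix : ∀ t ∈ Q, (a * (t * a * t⁻¹)) * t = t * (a * (t * a * t⁻¹)) := fun t ht => by
      rw [hinv t ht, show a * (t * a * t) * t = a * (t * a * (t * t)) by group, h.cfg.sq t ht,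
        mul_one, hA a ha (t * a * t) (by simpa [hinv t ht] using hconj t a ha),
        show t * (t * a * t * a) = (t * t) * a * (t * a) by group, h.cfg.sq t ht, one_mul]
    have x1 := c₁ _ (A.mul_mem ha (hconj t₁ a ha)) (hfix _ L.m1)
    have x2 := c₂ _ (A.mul_mem ha (hconj t₂ a ha)) (hfix _ L.m2)
    set u := t₁ * a * t₁⁻¹ with hu
    set w := t₂ * a * t₂⁻¹ with hw
    have huA : u ∈ A := hconj t₁ a ha
    have hwA : w ∈ A := hconj t₂ a ha
    have huw : u * w * t₃ = t₃ * (u * w) := by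
      have e1 : t₃ * u = w * t₃ := by
        rw [hu, hw, ← L.mul12, hQc _ L.m1 _ L.m2, hinv _ L.m1, hinv _ L.m2]
        simp only [mul_assoc, ← mul_assoc t₁ t₁, ← mul_assoc t₂ t₂, h.cfg.sq _ L.m1,
          h.cfg.sq _ L.m2, one_mul]
      have e2 : t₃ * w = u * t₃ := by
        rw [hu, hw, ← L.mul12, hinv _ L.m1, hinv _ L.m2]
        simp only [mul_assoc, ← mul_assoc t₁ t₁, ← mul_assoc t₂ t₂, h.cfg.sq _ L.m1,
          h.cfg.sq _ L.m2, one_mul]
      calc u * w * t₃ = w * u * t₃ := by rw [hA u huA w hwA]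
        _ = w * (t₃ * w) := by rw [mul_assoc w u t₃, e2]
        _ = t₃ * u * w := by rw [e1, mul_assoc w t₃ w]
        _ = t₃ * (u * w) := mul_assoc _ _ _
    have x3 := c₃ _ (A.mul_mem huA hwA) huw
    have hsq : a ^ 2 = (a * u) * (a * w) * (u * w)⁻¹ := by
      have e : a * w = w * a := hA a ha w hwA
      rw [pow_two, mul_assoc a u (a * w), ← mul_assoc u a w, hA u huA a ha, mul_assoc a u w]
      group
    intro q hq
    obtain ⟨k, hk⟩ := hord a ha
    have hodd' : (a ^ 2) ^ (k + 1) = a := by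
      rw [← pow_mul, show 2 * (k + 1) = orderOf a + 1 by omega, pow_succ, pow_orderOf_eq_one,
        one_mul]
    rw [← hodd', hsq]
    exact ((((show Commute (a * u) q from x1 q hq).mul_left
      (show Commute (a * w) q from x2 q hq)).mul_left
        (show Commute (u * w) q from x3 q hq).inv_left).pow_left _).eq
  -- the weight lines are fixed
  have hcomm : ∀ a ∈ A, ∀ q ∈ Q, ∀ v, ρ q (ρ a v) = ρ a (ρ q v) := fun a ha q hq v => by
    rw [← rho_mul_apply, ← rho_mul_apply, hCQ a ha q hq]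
  have he1 : ∀ a ∈ A, ρ a e₁ = e₁ := by
    intro a ha
    obtain ⟨c, hc⟩ := L.line (ρ a e₁) (by rw [hcomm a ha _ L.m1, L.s11])
      (by rw [hcomm a ha _ L.m2, L.s21, map_neg])
    have hk : ∀ k : ℕ, ρ (a ^ k) e₁ = c ^ k • e₁ := by
      intro k
      induction k with
      | zero => simp
      | succ k ih => rw [pow_succ', rho_mul_apply, ih, map_smul, hc, smul_smul, pow_succ]
    have := hk (orderOf a)
    rw [pow_orderOf_eq_one, map_one, Module.End.one_apply] at this
    rcases zmod3_cases c with rfl | rfl | rfl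
    · exact absurd (rho_injective_apply ρ a (by rw [hc, zero_smul, map_zero])) L.e1ne
    · rw [hc, one_smul]
    · rw [(hord a ha).neg_one_pow, neg_one_smul] at this
      exact absurd (eq_zero_of_neg_eq this.symm) L.e1ne
  have hshift : ∀ v, (∀ a ∈ A, ρ a v = v) → ∀ a ∈ A, ρ a (ρ b v) = ρ b v := fun v hv a ha => by
    have h1 : b⁻¹ * a * b ∈ A := by simpa using hconj b⁻¹ a ha
    have := congrArg (ρ b) (hv _ h1)
    rwa [← rho_mul_apply, show b * (b⁻¹ * a * b) = a * b by group, rho_mul_apply] at this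
  have he2 : ∀ a ∈ A, ρ a e₂ = e₂ := fun a ha => L.b1 ▸ hshift e₁ he1 a ha
  have he3 : ∀ a ∈ A, ρ a e₃ = e₃ := fun a ha => L.b2 ▸ hshift e₂ he2 a ha
  have hbA : ∀ a ∈ A, b * a = a * b := fun a ha => h.cfg.inj (LinearMap.ext fun v => by
    obtain ⟨α, β, γ, c, hc, rfl⟩ := L.decomp v
    have hac : ∀ q ∈ Q, ρ q (ρ a c) = ρ a c := fun q hq => by rw [hcomm a ha q hq, hc q hq]
    simp only [rho_mul_apply, map_add, map_smul, L.b1, L.b2, L.b3, he1 a ha, he2 a ha, he3 a ha,
      L.fix c hc, L.fix _ hac])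
  rw [eq_bot_iff]
  intro a ha
  rw [Subgroup.mem_bot]
  rcases h.scalar_of_fixed hbA a ha with e | e
  · exact h.cfg.inj (e.trans (map_one ρ).symm)
  · exfalso
    have := he1 a ha
    rw [e] at this
    exact L.e1ne (eq_zero_of_neg_eq this)

/-- `R` has no nontrivial normal subgroup of odd order. -/
theorem Setup.pPrimeCore_eq_bot [Group.IsSolvable G] (h : Setup ρ b Q R) :
    pPrimeCore 2 R = ⊥ := by
  haveI := h.normal
  set O := (pPrimeCore 2 R).map R.subtype with hO
  haveI hOn : O.Normal := PSolv.map_subtype_normal (PSolv.pPrimeCore_characteristic 2 R)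
  have hOR : O ≤ R := Subgroup.map_subtype_le _
  have hOodd : Odd (Nat.card O) := Nat.coprime_two_right.1 (Nat.Coprime.coprime_dvd_left
    (Subgroup.card_map_dvd _ _) (PSolv.coprime_card_pPrimeCore 2 R))
  by_contra hne
  have hOne : O ≠ ⊥ := fun e =>
    hne ((Subgroup.map_eq_bot_iff_of_injective _ R.subtype_injective).1 e)
  obtain ⟨n, hn⟩ := (inferInstance : Group.IsSolvable O).solvable
  classical
  have hex : ∃ n, derivedSeries O n = ⊥ := ⟨n, hn⟩
  have h0 : Nat.find hex ≠ 0 := fun e => by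
    have hs := Nat.find_spec hex
    rw [e, derivedSeries_zero] at hs
    haveI := (Subgroup.nontrivial_iff_ne_bot O).2 hOne
    exact top_ne_bot hs
  obtain ⟨m, hm⟩ := Nat.exists_eq_succ_of_ne_zero h0
  haveI hc : (derivedSeries O m).Characteristic := derivedSeries_characteristic O m
  set A := (derivedSeries O m).map O.subtype with hA
  haveI : A.Normal := PSolv.map_subtype_normal hc
  refine Nat.find_min hex (m := m) (by omega)
    ((Subgroup.map_eq_bot_iff_of_injective _ O.subtype_injective).1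
      (h.odd_abelian_trivial A ((Subgroup.map_subtype_le _).trans hOR) ?_
        (hOodd.of_dvd_nat (Subgroup.card_dvd_of_le (Subgroup.map_subtype_le _)))))
  rintro _ ⟨x, hx, rfl⟩ _ ⟨y, hy, rfl⟩
  have hsucc : ⁅derivedSeries O m, derivedSeries O m⁆ = ⊥ := by
    rw [← derivedSeries_succ, ← Nat.succ_eq_add_one, ← hm]; exact Nat.find_spec hex
  have h1 : ⁅x, y⁆ = 1 :=
    (Subgroup.mem_bot).1 (hsucc ▸ Subgroup.commutator_mem_commutator hx hy)
  have h2 : x * y = y * x := commutatorElement_eq_one_iff_mul_comm.1 h1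
  exact congrArg (fun z : O => (z : G)) h2

end Cfsg.Agent.ThreeBlock
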