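import Cfsg.Agent.ThreeBlock.Core
import Cfsg.Agent.PSolv.HallHigman
import Cfsg.Agent.PGroup.Extraspecial
import Cfsg.Agent.PGroup.Basic
import Cfsg.Agent.LocalEven.ExtraspecialModule
import Cfsg.Agent.Reflect.Basic

/-!
The primitive case: every elementary abelian normal 2-subgroup in `R` is centralized by `b`.
-/

set_option autoImplicit false

open Cfsg Module
open scoped commutatorElement

namespace Cfsg.Agent.ThreeBlock

local instance : Fact (Nat.Prime 3) := ⟨Nat.prime_three⟩
local instance : Fact (Nat.Prime 2) := ⟨Nat.prime_two⟩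

variable {G : Type*} [Group G] [Finite G]
variable {V : Type*} [AddCommGroup V] [Module (ZMod 3) V] [Finite V]
variable {ρ : G →* Module.End (ZMod 3) V} {b : G} {Q R : Subgroup G}

/-- The elements acting as `1` or `-1`. -/
def scalarSub (ρ : G →* Module.End (ZMod 3) V) : Subgroup G where
  carrier := {x | ρ x = 1 ∨ ρ x = -1}
  mul_mem' := fun {x y} hx hy => by
    show ρ (x * y) = 1 ∨ ρ (x * y) = -1
    rw [map_mul]
    rcases hx with e | e <;> rcases hy with e' | e' <;> simp [e, e']
  one_mem' := Or.inl (map_one ρ)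
  inv_mem' := fun {x} hx => by
    have h1 : ρ x⁻¹ * ρ x = 1 := by rw [← map_mul, inv_mul_cancel, map_one]
    rcases hx with e | e
    · exact Or.inl (by rwa [e, mul_one] at h1)
    · refine Or.inr ?_
      rw [e, mul_neg, mul_one, neg_eq_iff_eq_neg] at h1
      exact h1

theorem scalarSub_le_center (hinj : Function.Injective ρ) :
    scalarSub ρ ≤ Subgroup.center G := fun x hx => Subgroup.mem_center_iff.2 fun g => hinj (by
  rw [map_mul, map_mul]
  rcases hx with e | e <;> simp [e])

theorem scalarSub_sq (hinj : Function.Injective ρ) {x : G} (hx : x ∈ scalarSub ρ) : x * x = 1 :=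
  hinj (by rw [map_mul, map_one]; rcases hx with e | e <;> simp [e])

theorem commute_of_sq_commute {a : G} (hb : b ^ 3 = 1) (h : Commute (b * b) a) : b * a = a * b := by
  have : b = (b * b) * (b * b) := by
    rw [show b * b * (b * b) = b ^ 3 * b by simp only [pow_succ, pow_zero, one_mul, mul_assoc], hb,
      one_mul]
  rw [this]
  exact (h.mul_left h).eq

/-- Abelian normal 2-subgroups in `R` consist of scalars. -/
theorem Setup.abelian_scalar (h : Setup ρ b Q R)
    (hel : ∀ N : Subgroup G, N.Normal → N ≤ R → IsElementaryAbelian 2 N → ∀ x ∈ N, b * x = x * b)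
    {A : Subgroup G} [A.Normal] (hAR : A ≤ R) (hA : ∀ x ∈ A, ∀ y ∈ A, x * y = y * x)
    (hA2 : IsPGroup 2 A) : A ≤ scalarSub ρ := by
  let Ω : Subgroup G :=
    { carrier := {x | x ∈ A ∧ x * x = 1}
      mul_mem' := fun {x y} hx hy => ⟨A.mul_mem hx.1 hy.1, by
        rw [show x * y * (x * y) = x * (y * x) * y by group, hA y hy.1 x hx.1,
          show x * (x * y) * y = (x * x) * (y * y) by group, hx.2, hy.2, one_mul]⟩
      one_mem' := ⟨A.one_mem, one_mul 1⟩
      inv_mem' := fun {x} hx => ⟨A.inv_mem hx.1, by rw [← mul_inv_rev, hx.2, inv_one]⟩ }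
  have hΩn : Ω.Normal := ⟨fun x hx g => ⟨Subgroup.Normal.conj_mem inferInstance x hx.1 g, by
    rw [show g * x * g⁻¹ * (g * x * g⁻¹) = g * (x * x) * g⁻¹ by group, hx.2, mul_one,
      mul_inv_cancel]⟩⟩
  have hΩel : IsElementaryAbelian 2 Ω :=
    ⟨⟨⟨fun x y => Subtype.ext (hA x x.2.1 y y.2.1)⟩⟩, fun x hx => by rw [pow_two]; exact hx.2⟩
  have hΩb := hel Ω hΩn (fun x hx => hAR hx.1) hΩel
  have key : ∀ k : ℕ, ∀ a ∈ A, a ^ 2 ^ k = 1 → b * a = a * b := by
    intro k
    induction k with
    | zero => intro a _ ha; rw [pow_zero, pow_one] at ha; rw [ha, mul_one, one_mul]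
    | succ k ih =>
      intro a ha hak
      have h2 := ih (a * a) (A.mul_mem ha ha) (by rwa [← pow_two, ← pow_mul, ← pow_succ'])
      have hx1 : b * a * b⁻¹ ∈ A := Subgroup.Normal.conj_mem inferInstance a ha b
      set x := b * a * b⁻¹ * a⁻¹ with hx
      have hxx : x * x = 1 := by
        have e : a⁻¹ * (b * a * b⁻¹) = (b * a * b⁻¹) * a⁻¹ := hA _ (A.inv_mem ha) _ hx1
        rw [hx, show b * a * b⁻¹ * a⁻¹ * (b * a * b⁻¹ * a⁻¹) =
          b * a * b⁻¹ * (a⁻¹ * (b * a * b⁻¹)) * a⁻¹ by group, e,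
          show b * a * b⁻¹ * (b * a * b⁻¹ * a⁻¹) * a⁻¹ = b * (a * a) * b⁻¹ * (a * a)⁻¹ by group, h2]
        group
      have hxb := hΩb x ⟨A.mul_mem hx1 (A.inv_mem ha), hxx⟩
      refine commute_of_sq_commute h.cfg.cube ?_
      show b * b * a = a * (b * b)
      have e1 : b * a = x * a * b := by rw [hx]; group
      calc b * b * a = b * (b * a) := mul_assoc b b a
        _ = (b * x) * (a * b) := by rw [e1]; group
        _ = x * (b * a) * b := by rw [hxb]; group
        _ = (x * x) * (a * (b * b)) := by rw [e1]; group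
        _ = a * (b * b) := by rw [hxx, one_mul]
  intro a ha
  refine h.scalar_of_fixed (fun y hy => ?_) a ha
  obtain ⟨k, hk⟩ := hA2 ⟨y, hy⟩
  exact key k y hy (by simpa using congrArg Subtype.val hk)

/-- The largest normal 2-subgroup of `R`. -/
def twoCore (R : Subgroup G) : Subgroup G := (pCore 2 R).map R.subtype

theorem twoCore_le : twoCore R ≤ R := Subgroup.map_subtype_le _

theorem twoCore_isPGroup : IsPGroup 2 (twoCore R) := (PSolv.isPGroup_pCore 2 R).map _

theorem twoCore_normal [R.Normal] : (twoCore R).Normal :=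
  PSolv.map_subtype_normal (PSolv.pCore_characteristic 2 R)

theorem le_twoCore {X : Subgroup G} (hX : X.Normal) (hXR : X ≤ R) (hp : IsPGroup 2 X) :
    X ≤ twoCore R := fun x hx =>
  ⟨⟨x, hXR hx⟩, PSolv.le_pCore (hX.subgroupOf R) hp.comap_subtype hx, rfl⟩

theorem Setup.centralizer_twoCore [Group.IsSolvable G] (h : Setup ρ b Q R) {x : G} (hx : x ∈ R)
    (hc : ∀ t ∈ twoCore R, x * t = t * x) : x ∈ twoCore R := by
  refine ⟨⟨x, hx⟩, PSolv.centralizer_pCore_le
    (PSolv.isPSolvable_of_isSolvable inferInstance) h.pPrimeCore_eq_bot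
    (Subgroup.mem_centralizer_iff.2 fun t ht => Subtype.ext ?_), rfl⟩
  exact (hc t ⟨t, ht, rfl⟩).symm

theorem Setup.eq_one_of_scalar (h : Setup ρ b Q R) {q : G} (hq : q ∈ Q) (hs : q ∈ scalarSub ρ) :
    q = 1 := h.cfg.fpf q hq (by
  rw [(Subgroup.mem_center_iff.1 (scalarSub_le_center h.cfg.inj hs) b), mul_inv_cancel_right])

theorem Setup.twoCore_not_comm [Group.IsSolvable G] (h : Setup ρ b Q R)
    (hel : ∀ N : Subgroup G, N.Normal → N ≤ R → IsElementaryAbelian 2 N → ∀ x ∈ N, b * x = x * b) :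
    ¬ ∀ x ∈ twoCore R, ∀ y ∈ twoCore R, x * y = y * x := by
  intro hcomm
  haveI := h.normal
  haveI := twoCore_normal (R := R)
  have hs := h.abelian_scalar hel twoCore_le hcomm twoCore_isPGroup
  haveI : Nontrivial Q := Finite.one_lt_card_iff_nontrivial.1 (by rw [h.cfg.card]; norm_num)
  obtain ⟨⟨q, hq⟩, hq1⟩ := exists_ne (1 : Q)
  refine hq1 (Subtype.ext (h.eq_one_of_scalar hq (hs (h.centralizer_twoCore (h.le hq) ?_))))
  exact fun t ht => (Subgroup.mem_center_iff.1 (scalarSub_le_center h.cfg.inj (hs ht)) q)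

theorem mem_scalar_comm (hinj : Function.Injective ρ) {z : G} (hz : z ∈ scalarSub ρ) (g : G) :
    g * z = z * g := Subgroup.mem_center_iff.1 (scalarSub_le_center hinj hz) g

/-- The core has class two with scalar commutators and squares. -/
theorem Setup.twoCore_class [Group.IsSolvable G] (h : Setup ρ b Q R)
    (hel : ∀ N : Subgroup G, N.Normal → N ≤ R → IsElementaryAbelian 2 N → ∀ x ∈ N, b * x = x * b) :
    (∀ t ∈ twoCore R, ∀ u ∈ twoCore R, ⁅t, u⁆ ∈ scalarSub ρ) ∧
    (∀ t ∈ twoCore R, (∀ u ∈ twoCore R, t * u = u * t) → t ∈ scalarSub ρ) ∧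
    (∀ t ∈ twoCore R, t * t ∈ scalarSub ρ) := by
  haveI := h.normal
  haveI hTn := twoCore_normal (R := R)
  set T := twoCore R with hT
  have hinj := h.cfg.inj
  haveI hZn : (scalarSub ρ).Normal := ⟨fun x hx g => by
    rw [mem_scalar_comm hinj hx g, mul_inv_cancel_right]; exact hx⟩
  have hcen : ∀ t ∈ T, (∀ u ∈ T, t * u = u * t) → t ∈ scalarSub ρ := by
    intro t ht hc
    haveI : (T ⊓ Subgroup.centralizer (T : Set G)).Normal :=
      Subgroup.normal_inf_normal _ _
    exact h.abelian_scalar hel (inf_le_left.trans twoCore_le)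
      (fun x hx y hy => ((Subgroup.mem_centralizer_iff.1 (Subgroup.mem_inf.1 hx).2) y
        (Subgroup.mem_inf.1 hy).1).symm)
      (twoCore_isPGroup.to_le inf_le_left)
      (Subgroup.mem_inf.2 ⟨ht, Subgroup.mem_centralizer_iff.2 fun u hu => (hc u hu).symm⟩)
  let π := QuotientGroup.mk' (scalarSub ρ)
  haveI : (T.map π).Normal := hTn.map π (QuotientGroup.mk'_surjective _)
  set A := ⁅T, T⁆ ⊓ (Subgroup.centralizer ((T.map π : Subgroup _) : Set (G ⧸ scalarSub ρ))).comap π
    with hA
  haveI : A.Normal := Subgroup.normal_inf_normal _ _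
  have hmemA : ∀ {x}, x ∈ A → ∀ t ∈ T, ⁅x, t⁆ ∈ scalarSub ρ := fun {x} hx t ht => by
    rw [← QuotientGroup.eq_one_iff, ← QuotientGroup.mk'_apply, map_commutatorElement]
    exact commutatorElement_eq_one_iff_mul_comm.2
      (Subgroup.mem_centralizer_iff.1 (Subgroup.mem_inf.1 hx).2 _ ⟨t, ht, rfl⟩).symm
  have hAcomm : ∀ x ∈ A, ∀ y ∈ A, x * y = y * x := by
    intro x hx y hy
    have hle : ⁅T, T⁆ ≤ Subgroup.centralizer {x} := Subgroup.commutator_le.2 fun t ht u hu => by
      rw [Subgroup.mem_centralizer_singleton_iff]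
      set z1 := ⁅x, t⁆ with hz1
      set z2 := ⁅x, u⁆ with hz2
      have c1 := mem_scalar_comm hinj (hmemA hx t ht)
      have c2 := mem_scalar_comm hinj (hmemA hx u hu)
      rw [← hz1] at c1
      rw [← hz2] at c2
      have e1 : x * t * x⁻¹ = z1 * t := by rw [hz1, commutatorElement_def]; group
      have e2 : x * u * x⁻¹ = z2 * u := by rw [hz2, commutatorElement_def]; group
      have e : x * ⁅t, u⁆ * x⁻¹ = ⁅t, u⁆ := by
        calc x * ⁅t, u⁆ * x⁻¹ = ⁅x * t * x⁻¹, x * u * x⁻¹⁆ := by
              simp only [commutatorElement_def]; group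
          _ = ⁅z1 * t, z2 * u⁆ := by rw [e1, e2]
          _ = z1 * (t * z2) * u * t⁻¹ * (z1⁻¹ * u⁻¹) * z2⁻¹ := by
              simp only [commutatorElement_def]; group
          _ = z1 * (z2 * t) * u * t⁻¹ * (u⁻¹ * z1⁻¹) * z2⁻¹ := by
              rw [c2 t, (show Commute u z1 from c1 u).inv_inv.eq]
          _ = (z1 * z2) * ⁅t, u⁆ * (z2 * z1)⁻¹ := by simp only [commutatorElement_def]; group
          _ = ⁅t, u⁆ := by
              have k : Commute (z1 * z2) ⁅t, u⁆ :=
                (show Commute z1 ⁅t, u⁆ from (c1 _).symm).mul_left (c2 _).symm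
              rw [k.eq, c1 z2, mul_inv_cancel_right]
      exact (mul_inv_eq_iff_eq_mul.1 e).symm
    exact ((Subgroup.mem_centralizer_singleton_iff.1 (hle (Subgroup.mem_inf.1 hy).1))).symm
  have hAT : A ≤ T := inf_le_left.trans (Subgroup.commutator_le_right T T)
  have hAs : A ≤ scalarSub ρ :=
    h.abelian_scalar hel (hAT.trans twoCore_le) hAcomm (twoCore_isPGroup.to_le hAT)
  have hder : ⁅T, T⁆ ≤ scalarSub ρ := by
    by_contra hne
    let X : Subgroup ↥(T.map π) := (⁅T, T⁆.map π).subgroupOf (T.map π)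
    haveI : X.Normal := ((inferInstance : (⁅T, T⁆).Normal).map π
      (QuotientGroup.mk'_surjective _)).subgroupOf _
    have hX : X ≠ ⊥ := fun e => hne fun x hx => by
      have hxT : π x ∈ T.map π := ⟨x, Subgroup.commutator_le_right T T hx, rfl⟩
      have h1 : (⟨π x, hxT⟩ : ↥(T.map π)) ∈ X :=
        (⟨x, hx, rfl⟩ : π x ∈ ⁅T, T⁆.map π)
      rw [e, Subgroup.mem_bot] at h1
      exact (QuotientGroup.eq_one_iff x).1 (congrArg Subtype.val h1)
    obtain ⟨⟨⟨y, hyT⟩, hyX⟩, hy1⟩ := Subgroup.ne_bot_iff_exists_ne_one.1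
      (show X ⊓ Subgroup.center _ ≠ ⊥ from
        PGroup.inf_center_ne_bot (twoCore_isPGroup.map π) X hX)
    obtain ⟨x, hx, rfl⟩ := (Subgroup.mem_inf.1 hyX).1
    refine hy1 (Subtype.ext (Subtype.ext ((QuotientGroup.eq_one_iff x).2 (hAs ?_))))
    refine Subgroup.mem_inf.2 ⟨hx, Subgroup.mem_centralizer_iff.2 fun w hw => ?_⟩
    exact congrArg Subtype.val (Subgroup.mem_center_iff.1 (Subgroup.mem_inf.1 hyX).2 ⟨w, hw⟩)
  refine ⟨fun t ht u hu => hder (Subgroup.commutator_mem_commutator ht hu), hcen, fun t ht => ?_⟩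
  refine hcen _ (T.mul_mem ht ht) fun u hu => ?_
  have hz := hder (Subgroup.commutator_mem_commutator ht hu)
  have c := mem_scalar_comm hinj hz
  have hz2 := scalarSub_sq hinj hz
  set z := ⁅t, u⁆ with hz'
  have e : t * u = z * (u * t) := by rw [hz', commutatorElement_def]; group
  calc t * t * u = t * (t * u) := mul_assoc _ _ _
    _ = t * z * (u * t) := by rw [e, mul_assoc]
    _ = z * (t * u) * t := by rw [c t]; group
    _ = (z * z) * (u * (t * t)) := by rw [e]; group
    _ = u * (t * t) := by rw [hz2, one_mul]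

/-- Some `[b, a]`, `a` in the core, has order four. -/
theorem Setup.exists_comm_four [Group.IsSolvable G] (h : Setup ρ b Q R)
    (hel : ∀ N : Subgroup G, N.Normal → N ≤ R → IsElementaryAbelian 2 N → ∀ x ∈ N, b * x = x * b) :
    ∃ a ∈ twoCore R, ⁅b, a⁆ * ⁅b, a⁆ ≠ 1 := by
  haveI := h.normal
  haveI hTn := twoCore_normal (R := R)
  obtain ⟨hd, hcen, -⟩ := h.twoCore_class hel
  set T := twoCore R with hT
  have hinj := h.cfg.inj
  by_contra hall
  push Not at hall
  have hcT : ∀ a ∈ T, ⁅b, a⁆ ∈ T := fun a ha => by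
    rw [commutatorElement_def]; exact T.mul_mem (hTn.conj_mem a ha b) (T.inv_mem ha)
  have hbu : ∀ u, b * u * b⁻¹ = ⁅b, u⁆ * u := fun u => by rw [commutatorElement_def]; group
  have hcc : ∀ a ∈ T, ∀ a' ∈ T, Commute ⁅b, a⁆ ⁅b, a'⁆ := by
    intro a ha a' ha'
    have hz := hd a ha _ (hcT a' ha')
    set z := ⁅a, ⁅b, a'⁆⁆ with hz'
    have e : ⁅b, a * a'⁆ = z * (⁅b, a⁆ * ⁅b, a'⁆) := by
      rw [← mul_assoc, ← mem_scalar_comm hinj hz ⁅b, a⁆, hz']
      simp only [commutatorElement_def]
      group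
    have h1 := hall _ (T.mul_mem ha ha')
    rw [e] at h1
    have h2 : ⁅b, a⁆ * ⁅b, a'⁆ * (⁅b, a⁆ * ⁅b, a'⁆) = 1 := by
      have c := mem_scalar_comm hinj hz
      set w := ⁅b, a⁆ * ⁅b, a'⁆
      rw [mul_assoc, ← mul_assoc w z w, c w, mul_assoc z w w, ← mul_assoc z z,
        scalarSub_sq hinj hz, one_mul] at h1
      exact h1
    have i1 := inv_eq_of_mul_eq_one_right (hall a ha)
    have i2 := inv_eq_of_mul_eq_one_right (hall a' ha')
    have i3 := inv_eq_of_mul_eq_one_right h2
    show ⁅b, a⁆ * ⁅b, a'⁆ = ⁅b, a'⁆ * ⁅b, a⁆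
    rw [← i3, mul_inv_rev, i1, i2]
  have hleft : ∀ a ∈ T, ∀ u ∈ T, ⁅⁅b, a⁆, b * u * b⁻¹⁆ = ⁅⁅b, a⁆, u⁆ := by
    intro a ha u hu
    set c := ⁅b, a⁆ with hc
    set c' := ⁅b, u⁆ with hc'
    have hz := hd c (hcT a ha) u hu
    have cc : Commute c c' := hcc a ha u hu
    rw [hbu u, ← hc',
      show ⁅c, c' * u⁆ = ⁅c, c'⁆ * (c' * ⁅c, u⁆ * c'⁻¹) by simp only [commutatorElement_def]; group,
      commutatorElement_eq_one_iff_mul_comm.2 cc, one_mul, mem_scalar_comm hinj hz c',
      mul_inv_cancel_right]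
  have hshift : ∀ a ∈ T, ∀ u ∈ T, ⁅⁅b, b * a * b⁻¹⁆, u⁆ = ⁅⁅b, a⁆, u⁆ := by
    intro a ha u hu
    have hu' : b⁻¹ * u * b ∈ T := by simpa using hTn.conj_mem u hu b⁻¹
    have e1 : ⁅⁅b, b * a * b⁻¹⁆, u⁆ = b * ⁅⁅b, a⁆, b⁻¹ * u * b⁆ * b⁻¹ := by
      simp only [commutatorElement_def]; group
    rw [e1, mem_scalar_comm hinj (hd _ (hcT a ha) _ hu') b, mul_inv_cancel_right,
      ← hleft a ha _ hu']
    congr 1
    group
  have hprod : ∀ a ∈ T, ∀ u ∈ T, ⁅⁅b, a⁆, u⁆ = 1 := by
    intro a ha u hu
    have ha1 : b * a * b⁻¹ ∈ T := hTn.conj_mem a ha b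
    have ha2 : b * (b * a * b⁻¹) * b⁻¹ ∈ T := hTn.conj_mem _ ha1 b
    have htel : ⁅b, b * (b * a * b⁻¹) * b⁻¹⁆ * ⁅b, b * a * b⁻¹⁆ * ⁅b, a⁆ = 1 := by
      have hb3 : b * b * b = 1 := by rw [← h.cfg.cube, pow_succ, pow_two]
      calc _ = (b * b * b) * a * (b * b * b)⁻¹ * a⁻¹ := by simp only [commutatorElement_def]; group
        _ = 1 := by rw [hb3]; group
    have hmul : ∀ x ∈ T, ∀ y ∈ T, ⁅x * y, u⁆ = ⁅x, u⁆ * ⁅y, u⁆ := fun x hx y hy => by
      rw [show ⁅x * y, u⁆ = x * ⁅y, u⁆ * x⁻¹ * ⁅x, u⁆ by simp only [commutatorElement_def]; group,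
        mem_scalar_comm hinj (hd y hy u hu) x, mul_inv_cancel_right,
        mem_scalar_comm hinj (hd x hx u hu) ⁅y, u⁆]
    have h1 := congrArg (fun x => ⁅x, u⁆) htel
    simp only [commutatorElement_one_left] at h1
    rw [hmul _ (T.mul_mem (hcT _ ha2) (hcT _ ha1)) _ (hcT a ha), hmul _ (hcT _ ha2) _ (hcT _ ha1),
      hshift _ ha1 u hu, hshift a ha u hu, scalarSub_sq hinj (hd _ (hcT a ha) u hu), one_mul] at h1
    exact h1
  have hbT : ∀ a ∈ T, b * a = a * b := by
    intro a ha
    have hs := hcen _ (hcT a ha) fun u hu =>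
      commutatorElement_eq_one_iff_mul_comm.1 (hprod a ha u hu)
    refine commute_of_sq_commute h.cfg.cube ?_
    show b * b * a = a * (b * b)
    set c := ⁅b, a⁆ with hc
    have e1 : b * a = c * a * b := by rw [hc, commutatorElement_def]; group
    calc b * b * a = b * (b * a) := mul_assoc b b a
      _ = (b * c) * (a * b) := by rw [e1]; group
      _ = c * (b * a) * b := by rw [mem_scalar_comm hinj hs b]; group
      _ = (c * c) * (a * (b * b)) := by rw [e1]; group
      _ = a * (b * b) := by rw [scalarSub_sq hinj hs, one_mul]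
  exact h.twoCore_not_comm hel fun x hx y hy =>
    (Subgroup.mem_center_iff.1 (h.center_of_fixed hbT hx) y).symm

/-- The module has dimension four. -/
theorem Setup.finrank_eq_four [Group.IsSolvable G] (h : Setup ρ b Q R)
    (hel : ∀ N : Subgroup G, N.Normal → N ≤ R → IsElementaryAbelian 2 N → ∀ x ∈ N, b * x = x * b) :
    finrank (ZMod 3) V = 4 := by
  haveI := h.normal
  obtain ⟨t₁, t₂, t₃, e₁, e₂, e₃, L⟩ := h.cfg.exists_lines
  obtain ⟨a, ha, hne⟩ := h.exists_comm_four hel
  haveI hTn := twoCore_normal (R := R)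
  have hcT : ⁅b, a⁆ ∈ twoCore R := by
    rw [commutatorElement_def]; exact mul_mem (hTn.conj_mem a ha b) (inv_mem ha)
  have hneg : ρ (⁅b, a⁆ * ⁅b, a⁆) = -1 :=
    ((h.twoCore_class hel).2.2 _ hcT).resolve_left fun e =>
      hne (h.cfg.inj (e.trans (map_one ρ).symm))
  let K₁ := LinearMap.ker (ρ b - 1)
  let K₂ := LinearMap.ker (ρ (a * b⁻¹ * a⁻¹) - 1)
  have hK1 : finrank (ZMod 3) V ≤ finrank (ZMod 3) K₁ + 2 := by
    have := LinearMap.finrank_range_add_finrank_ker (ρ b - 1)
    have := h.cfg.rank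
    simp only [K₁]
    omega
  have hle : K₁.map (ρ a) ≤ K₂ := by
    rintro _ ⟨v, hv, rfl⟩
    simp only [K₁, K₂, SetLike.mem_coe, LinearMap.mem_ker, LinearMap.sub_apply,
      Module.End.one_apply, sub_eq_zero] at hv ⊢
    have : ρ b⁻¹ v = v := by conv_lhs => rw [← hv, rho_inv_apply]
    rw [rho_mul_apply, rho_mul_apply, rho_inv_apply, this]
  have hK2 : finrank (ZMod 3) K₁ ≤ finrank (ZMod 3) K₂ := by
    rw [(Submodule.equivMapOfInjective _ (rho_injective_apply ρ a) K₁).finrank_eq]
    exact Submodule.finrank_mono hle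
  have hinf : K₁ ⊓ K₂ = ⊥ := by
    rw [eq_bot_iff]
    intro v hv
    obtain ⟨h1, h2⟩ := Submodule.mem_inf.1 hv
    simp only [K₁, K₂, LinearMap.mem_ker, LinearMap.sub_apply, Module.End.one_apply,
      sub_eq_zero] at h1 h2
    have hc : ρ ⁅b, a⁆ v = v := by
      rw [commutatorElement_def, show b * a * b⁻¹ * a⁻¹ = b * (a * b⁻¹ * a⁻¹) by group,
        rho_mul_apply, h2, h1]
    have := LinearMap.congr_fun hneg v
    rw [rho_mul_apply, hc, hc] at this
    exact (Submodule.mem_bot _).2 (eq_zero_of_neg_eq this.symm)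
  have h4 : finrank (ZMod 3) V ≤ 4 := by
    have := Submodule.finrank_sup_add_finrank_inf_eq K₁ K₂
    rw [hinf, finrank_bot] at this
    have := Submodule.finrank_le (K₁ ⊔ K₂)
    omega
  have heven : Even (finrank (ZMod 3) V) := by
    have hd := h.det_one (twoCore_le (mul_mem hcT hcT))
    rw [hneg, show (-1 : Module.End (ZMod 3) V) = (-1 : ZMod 3) • (1 : Module.End (ZMod 3) V) by
      rw [neg_one_smul], LinearMap.det_smul, map_one, mul_one] at hd
    by_contra ho
    rw [Nat.not_even_iff_odd.1 ho |>.neg_one_pow] at hd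
    exact absurd hd (by decide)
  have := L.three_le
  obtain ⟨k, hk⟩ := heven
  omega

/-- An injective image in the units of the endomorphisms. -/
theorem card_dvd_general_linear (hinj : Function.Injective ρ) (h4 : finrank (ZMod 3) V = 4) :
    Nat.card G ∣ 24261120 := by
  have h1 := Subgroup.card_dvd_of_injective ρ.toHomUnits
    (fun x y e => hinj (congrArg Units.val e))
  rw [Nat.card_congr (Units.mapEquiv
    (LinearMap.toMatrixAlgEquiv (finBasis (ZMod 3) V)).toMulEquiv).toEquiv,
    Matrix.card_GL_field, ZMod.card, h4] at h1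
  simpa [Fin.prod_univ_succ] using h1

/-- `R` is its own 2-core. -/
theorem Setup.twoCore_eq [Group.IsSolvable G] (h : Setup ρ b Q R)
    (hel : ∀ N : Subgroup G, N.Normal → N ≤ R → IsElementaryAbelian 2 N → ∀ x ∈ N, b * x = x * b) :
    twoCore R = R ∧ Nat.card R ≤ 32 := by
  classical
  haveI := h.normal
  haveI hTn := twoCore_normal (R := R)
  obtain ⟨hd, hcen, hsq⟩ := h.twoCore_class hel
  have h4 := h.finrank_eq_four hel
  have hinj := h.cfg.inj
  set T := twoCore R with hT
  haveI hZn : (scalarSub ρ).Normal := ⟨fun x hx g => by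
    rw [mem_scalar_comm hinj hx g, mul_inv_cancel_right]; exact hx⟩
  have hcenter : ∀ z ∈ Subgroup.center T, (z : G) ∈ scalarSub ρ := fun z hz =>
    hcen _ z.2 fun u hu => (congrArg Subtype.val (Subgroup.mem_center_iff.1 hz ⟨u, hu⟩)).symm
  have hTne : T ≠ ⊥ := fun e => h.twoCore_not_comm hel fun x hx y hy => by
    rw [← hT, e, Subgroup.mem_bot] at hx
    rw [hx, one_mul, mul_one]
  haveI : Nontrivial T := (Subgroup.nontrivial_iff_ne_bot T).2 hTne
  haveI := (twoCore_isPGroup (R := R)).center_nontrivial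
  have hZcard : Nat.card (Subgroup.center T) = 2 := by
    refine le_antisymm ?_ Finite.one_lt_card
    let f : Subgroup.center T → Bool := fun z => decide (ρ ((z : T) : G) = 1)
    have hf : Function.Injective f := by
      intro z z' e
      simp only [f, decide_eq_decide] at e
      refine Subtype.ext (Subtype.ext (hinj ?_))
      rcases hcenter _ z.2 with e1 | e1
      · rw [e1, e.1 e1]
      · rcases hcenter _ z'.2 with e2 | e2
        · rw [e2, e.2 e2]
        · rw [e1, e2]
    simpa using Nat.card_le_card_of_injective f hf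
  haveI : Nontrivial V := Module.nontrivial_of_finrank_pos (R := ZMod 3) (by omega)
  have hquot := LocalEven.Extraspecial.card_le_sq (ρ.comp T.subtype)
    (fun z hz => by
      rcases hcenter z hz with e | e
      · exact ⟨1, by rw [one_smul]; exact e⟩
      · exact ⟨-1, by rw [neg_one_smul]; exact e⟩)
    (fun z _ e => Subtype.ext (hinj (e.trans (map_one ρ).symm)))
    (by
      rw [_root_.commutator_def, Subgroup.commutator_le]
      intro t _ u _
      refine Subgroup.mem_center_iff.2 fun w => Subtype.ext ?_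
      exact mem_scalar_comm hinj (hd t t.2 u u.2) w)
  rw [h4] at hquot
  have hT32 : Nat.card T ≤ 32 := by
    rw [Subgroup.card_eq_card_quotient_mul_card_subgroup (Subgroup.center T), hZcard]
    omega
  -- the action on `T` modulo scalars
  let π := QuotientGroup.mk' (scalarSub ρ)
  set U := T.map π with hU
  haveI : U.Normal := hTn.map π (QuotientGroup.mk'_surjective _)
  have hUel : IsElementaryAbelian 2 U := by
    refine ⟨⟨⟨fun x y => Subtype.ext ?_⟩⟩, ?_⟩
    · obtain ⟨t, ht, e⟩ := x.2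
      obtain ⟨u, hu, e'⟩ := y.2
      show (x : G ⧸ scalarSub ρ) * y = y * x
      rw [← e, ← e', ← commutatorElement_eq_one_iff_mul_comm, ← map_commutatorElement]
      exact (QuotientGroup.eq_one_iff _).2 (hd t ht u hu)
    · rintro _ ⟨t, ht, rfl⟩
      rw [← map_pow, pow_two]
      exact (QuotientGroup.eq_one_iff _).2 (hsq t ht)
  have hU16 : Nat.card U ≤ 16 := by
    have h1 : Nat.card (Subgroup.center T) ≤ Nat.card ((π.comp T.subtype).ker) :=
      Subgroup.card_le_of_le fun z hz =>
        show π (z : G) = 1 from (QuotientGroup.eq_one_iff _).2 (hcenter z hz)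
    have h2 : Nat.card U = (π.comp T.subtype).ker.index := by
      rw [Subgroup.index_ker, MonoidHom.range_comp, Subgroup.range_subtype]
    have h3 := Subgroup.card_mul_index (π.comp T.subtype).ker
    rw [← h2] at h3
    rw [hZcard] at h1
    nlinarith
  let f : R →* MulAut U := (MulAut.conjNormal.comp π).comp R.subtype
  have hker : f.ker = T.subgroupOf R := by
    refine le_antisymm ?_ ?_
    · have hfix : ∀ x ∈ f.ker, ∀ t ∈ T, ⁅(x : G), t⁆ ∈ scalarSub ρ := by
        intro x hx t ht
        rw [← QuotientGroup.eq_one_iff, ← QuotientGroup.mk'_apply, commutatorElement_def,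
          map_mul, map_mul, map_mul, map_inv, map_inv]
        have := congrArg (fun e : MulAut U => ((e ⟨π t, ⟨t, ht, rfl⟩⟩ : U) : G ⧸ scalarSub ρ))
          (MonoidHom.mem_ker.1 hx)
        simp only [f, MonoidHom.comp_apply, MulAut.conjNormal_apply, MulAut.one_apply] at this
        rw [mul_inv_eq_one]
        exact this
      have hp : IsPGroup 2 f.ker := by
        rintro ⟨x, hx⟩
        have hxx : (x : G) * x ∈ T := h.centralizer_twoCore (R.mul_mem x.2 x.2) fun t ht => by
          have hz := hfix x hx t ht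
          have c := mem_scalar_comm hinj hz
          set z := ⁅(x : G), t⁆ with hz'
          have e : (x : G) * t = z * (t * x) := by rw [hz', commutatorElement_def]; group
          calc (x : G) * x * t = x * (x * t) := mul_assoc _ _ _
            _ = x * z * (t * x) := by rw [e, mul_assoc]
            _ = z * (x * t) * x := by rw [c (x : G)]; group
            _ = (z * z) * (t * (x * x)) := by rw [e]; group
            _ = t * (x * x) := by rw [scalarSub_sq hinj hz, one_mul]
        obtain ⟨k, hk⟩ := twoCore_isPGroup ⟨_, hxx⟩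
        refine ⟨k + 1, Subtype.ext (Subtype.ext ?_)⟩
        have := congrArg Subtype.val hk
        simp only [SubmonoidClass.coe_pow, Subgroup.coe_one] at this ⊢
        rw [pow_succ', pow_mul, pow_two]
        exact this
      intro x hx
      rw [Subgroup.mem_subgroupOf]
      exact ⟨x, PSolv.le_pCore (MonoidHom.normal_ker f) hp hx, rfl⟩
    · intro x hx
      rw [Subgroup.mem_subgroupOf] at hx
      refine MonoidHom.mem_ker.2 (MulEquiv.ext fun y => Subtype.ext ?_)
      obtain ⟨t, ht, e⟩ := y.2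
      show π (x : G) * (y : G ⧸ scalarSub ρ) * (π (x : G))⁻¹ = y
      rw [← e, mul_inv_eq_iff_eq_mul, ← commutatorElement_eq_one_iff_mul_comm,
        ← map_commutatorElement]
      exact (QuotientGroup.eq_one_iff _).2 (hd _ hx t ht)
  -- the quotient
  let κ := QuotientGroup.mk' T
  set Rb := R.map κ with hRb
  haveI hRbn : Rb.Normal := h.normal.map κ (QuotientGroup.mk'_surjective _)
  have hRbcard : Nat.card Rb = Nat.card f.range := by
    rw [← Subgroup.index_ker f, hker]
    exact (PSolv.card_map_mk_eq_relIndex T R)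
  have hdvd : Nat.card Rb ∣ 320 := by
    have h1 : Nat.card Rb ∣ 20160 := hRbcard ▸ (Subgroup.card_subgroup_dvd_card f.range).trans
      (Reflect.card_mulAut_dvd_small hUel le_rfl hU16)
    have h2 : Nat.card Rb ∣ Nat.card R := Subgroup.card_map_dvd R κ
    have h3 : Nat.card Rb ∣ 2880 := by
      have := Nat.dvd_gcd h1 (h2.trans (R.card_subgroup_dvd_card.trans
        (card_dvd_general_linear hinj h4)))
      norm_num at this
      exact this
    refine Nat.Coprime.dvd_of_dvd_mul_right ?_ (show Nat.card Rb ∣ 320 * 9 from h3)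
    rw [show (9 : ℕ) = 3 ^ 2 by norm_num]
    exact (h.coprime.coprime_dvd_left h2).pow_right 2
  have hO2 : ∀ X : Subgroup (G ⧸ T), X.Normal → X ≤ Rb → IsPGroup 2 X → X = ⊥ := by
    intro X hX hXR hp
    have h1 : X.comap κ ≤ R := by
      intro x hx
      obtain ⟨r, hr, e⟩ := hXR hx
      have : r⁻¹ * x ∈ T := QuotientGroup.eq.1 e
      have := R.mul_mem hr (twoCore_le this)
      rwa [mul_inv_cancel_left] at this
    have h2 : IsPGroup 2 (X.comap κ) := by
      obtain ⟨i, hi⟩ := IsPGroup.iff_card.1 hp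
      obtain ⟨j, hj⟩ := IsPGroup.iff_card.1 (twoCore_isPGroup (R := R))
      refine IsPGroup.of_card (n := j + i) ?_
      rw [PSolv.card_comap_mk, hi, hj, pow_add]
    rw [eq_bot_iff]
    intro y hy
    obtain ⟨x, rfl⟩ := QuotientGroup.mk'_surjective T y
    exact Subgroup.mem_bot.2 ((QuotientGroup.eq_one_iff x).2 (le_twoCore (hX.comap κ) h1 h2 hy))
  have hfive : pPrimeCore 5 Rb = ⊥ := by
    have hn := PSolv.map_subtype_normal (N := Rb) (PSolv.pPrimeCore_characteristic 5 Rb)
    have hdv : Nat.card (pPrimeCore 5 Rb) ∣ 2 ^ 6 := by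
      refine Nat.Coprime.dvd_of_dvd_mul_right (PSolv.coprime_card_pPrimeCore 5 Rb) ?_
      exact ((pPrimeCore 5 Rb).card_subgroup_dvd_card.trans hdvd).trans (by norm_num)
    obtain ⟨i, -, hi⟩ := (Nat.dvd_prime_pow Nat.prime_two).1 hdv
    exact (Subgroup.map_eq_bot_iff_of_injective _ Rb.subtype_injective).1
      (hO2 _ hn (Subgroup.map_subtype_le _) ((IsPGroup.of_card hi).map _))
  haveI : Fact (Nat.Prime 5) := ⟨by norm_num⟩
  have hC := PSolv.centralizer_pCore_le
    (PSolv.isPSolvable_of_isSolvable (inferInstance : Group.IsSolvable Rb)) hfive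
  set O := (pCore 5 Rb).map Rb.subtype with hO
  haveI hOn : O.Normal := PSolv.map_subtype_normal (PSolv.pCore_characteristic 5 Rb)
  have hO5 : Nat.card O ∣ 5 := by
    obtain ⟨i, hi⟩ := IsPGroup.iff_card.1 ((PSolv.isPGroup_pCore 5 Rb).map Rb.subtype)
    rw [← hO] at hi
    have h1 : 5 ^ i ∣ 320 := hi ▸ ((Subgroup.card_dvd_of_le (Subgroup.map_subtype_le _)).trans hdvd)
    have : i ≤ 1 := by
      by_contra hi'
      have := (pow_dvd_pow 5 (by omega : 2 ≤ i)).trans h1
      norm_num at this
    rw [hi]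
    exact (pow_dvd_pow 5 this).trans (by norm_num)
  let g : G ⧸ T →* MulAut O := MulAut.conjNormal
  have hgker : ∀ {y}, g y = 1 → ∀ o ∈ O, y * o = o * y := by
    intro y hy o ho
    have := congrArg (fun e : MulAut O => ((e ⟨o, ho⟩ : O) : G ⧸ T)) hy
    simp only [g, MulAut.conjNormal_apply, MulAut.one_apply] at this
    exact mul_inv_eq_iff_eq_mul.1 this
  haveI : IsCyclic O := by
    rcases (Nat.dvd_prime (by norm_num : Nat.Prime 5)).1 hO5 with e | e
    · haveI := (Nat.card_eq_one_iff_unique.1 e).1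
      exact isCyclic_of_subsingleton
    · exact isCyclic_of_prime_card (p := 5) e
  have haut : ∀ e e' : MulAut O, e * e' = e' * e := by
    intro e e'
    refine MulEquiv.ext fun y => ?_
    obtain ⟨z, hz⟩ := IsCyclic.exists_generator (α := O)
    obtain ⟨i, hi⟩ := hz (e z)
    obtain ⟨j, hj⟩ := hz (e' z)
    obtain ⟨k, rfl⟩ := hz y
    simp only [MulAut.mul_apply, map_zpow]
    congr 1
    rw [← hi, ← hj, map_zpow, map_zpow, ← hj, ← hi, ← zpow_mul, ← zpow_mul, mul_comm]
  have hgb : g (κ b) = 1 := by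
    have h1 : g (κ b) ^ 3 = 1 := by rw [← map_pow, ← map_pow, h.cfg.cube, map_one, map_one]
    have h2 : Nat.card (MulAut O) ∣ 4 := by
      rw [IsCyclic.card_mulAut]
      rcases (Nat.dvd_prime (by norm_num : Nat.Prime 5)).1 hO5 with e | e <;> rw [e]
      · rw [Nat.totient_one]; norm_num
      · rw [Nat.totient_prime (by norm_num)]
    exact orderOf_eq_one_iff.1 (Nat.eq_one_of_dvd_coprimes (by norm_num : Nat.Coprime 3 4)
      (orderOf_dvd_of_pow_eq_one h1) ((orderOf_dvd_natCard _).trans h2))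
  have hRbO : Rb ≤ O := by
    intro y hy
    have hy1 : g y = 1 := by
      obtain ⟨r, hr, rfl⟩ := hy
      have : ⁅R, Subgroup.zpowers b⁆ ≤ (g.comp κ).ker := Subgroup.commutator_le.2 fun x _ z _ => by
        rw [MonoidHom.mem_ker, map_commutatorElement]
        exact commutatorElement_eq_one_iff_mul_comm.2 (haut _ _)
      rw [h.comm] at this
      exact this hr
    exact ⟨⟨y, hy⟩, hC (Subgroup.mem_centralizer_iff.2 fun o ho => Subtype.ext
      (hgker hy1 _ ⟨o, ho, rfl⟩).symm), rfl⟩
  have hRT : R ≤ T := by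
    have hle : ⁅R, Subgroup.zpowers b⁆ ≤ T := Subgroup.commutator_le.2 fun x hx z hz => by
      rw [← QuotientGroup.eq_one_iff, ← QuotientGroup.mk'_apply, map_commutatorElement]
      have c : Commute (κ b) (κ x) := hgker hgb _ (hRbO ⟨x, hx, rfl⟩)
      obtain ⟨m, rfl⟩ := hz
      rw [map_zpow]
      exact commutatorElement_eq_one_iff_mul_comm.2 (c.zpow_left m).symm.eq
    rwa [h.comm] at hle
  exact ⟨le_antisymm twoCore_le hRT, le_trans (Subgroup.card_le_of_le hRT) hT32⟩

/-- The primitive case. -/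
theorem Setup.extra [Group.IsSolvable G] (h : Setup ρ b Q R)
    (hel : ∀ N : Subgroup G, N.Normal → N ≤ R → IsElementaryAbelian 2 N → ∀ x ∈ N, b * x = x * b) :
    IsExtraspecial 2 R ∧ Nat.card R = 32 ∧
      ∃ A : Subgroup G, A ≤ R ∧ IsElementaryAbelian 2 A ∧ Nat.card A = 8 := by
  classical
  haveI := h.normal
  obtain ⟨hTR, h32⟩ := h.twoCore_eq hel
  obtain ⟨hd, hcen, hsq⟩ := h.twoCore_class hel
  have hnc := h.twoCore_not_comm hel
  have hp : IsPGroup 2 R := hTR ▸ twoCore_isPGroup (R := R)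
  rw [hTR] at hd hcen hsq hnc
  have hinj := h.cfg.inj
  have hcomm := fun {z : G} (hz : z ∈ scalarSub ρ) => mem_scalar_comm hinj hz
  set Z := scalarSub ρ ⊓ R with hZ
  have hcenter : ∀ z : R, z ∈ Subgroup.center R ↔ (z : G) ∈ scalarSub ρ := fun z =>
    ⟨fun hz => hcen _ z.2 fun u hu =>
      (congrArg Subtype.val (Subgroup.mem_center_iff.1 hz ⟨u, hu⟩)).symm,
      fun hz => Subgroup.mem_center_iff.2 fun u => Subtype.ext (hcomm hz u)⟩
  haveI : Nontrivial R := (Subgroup.nontrivial_iff_ne_bot R).2 fun e => hnc fun x hx y hy => by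
    rw [e, Subgroup.mem_bot] at hx
    rw [hx, one_mul, mul_one]
  haveI := hp.center_nontrivial
  obtain ⟨⟨z, hzc⟩, hz1⟩ := exists_ne (1 : Subgroup.center R)
  have hzne : (z : G) ≠ 1 := fun e => hz1 (Subtype.ext (Subtype.ext e))
  have hzs : (z : G) ∈ scalarSub ρ := (hcenter z).1 hzc
  have htwo : ∀ x ∈ scalarSub ρ, x = 1 ∨ x = z := by
    intro x hx
    rcases hx with e | e
    · exact Or.inl (hinj (e.trans (map_one ρ).symm))
    · rcases hzs with e' | e'
      · exact absurd (hinj (e'.trans (map_one ρ).symm)) hzne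
      · exact Or.inr (hinj (e.trans e'.symm))
  have hZcard : Nat.card (Subgroup.center R) = 2 := by
    refine le_antisymm ?_ Finite.one_lt_card
    let f : Subgroup.center R → Bool := fun u => decide (((u : R) : G) = 1)
    have hf : Function.Injective f := by
      intro u u' e
      simp only [f, decide_eq_decide] at e
      refine Subtype.ext (Subtype.ext ?_)
      rcases htwo _ ((hcenter _).1 u.2) with e1 | e1
      · rw [e1, e.1 e1]
      · rcases htwo _ ((hcenter _).1 u'.2) with e2 | e2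
        · rw [e2, e.2 e2]
        · rw [e1, e2]
    simpa using Nat.card_le_card_of_injective f hf
  have hQsq := h.cfg.sq
  have hzz : (z : G) * z = 1 := scalarSub_sq hinj hzs
  -- the elementary subgroup
  let A : Subgroup G :=
    { carrier := {x | x ∈ Q ∨ x * z ∈ Q}
      mul_mem' := fun {x y} hx hy => by
        rcases hx with hx | hx <;> rcases hy with hy | hy
        · exact Or.inl (Q.mul_mem hx hy)
        · exact Or.inr (by rw [mul_assoc]; exact Q.mul_mem hx hy)
        · refine Or.inr ?_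
          rw [mul_assoc, hcomm hzs y, ← mul_assoc]
          exact Q.mul_mem hx hy
        · refine Or.inl ?_
          have := Q.mul_mem hx hy
          rw [show x * (z : G) * (y * z) = x * ((z : G) * y) * z by group, ← hcomm hzs y,
            show x * (y * (z : G)) * z = x * y * ((z : G) * z) by group, hzz, mul_one] at this
          exact this
      one_mem' := Or.inl Q.one_mem
      inv_mem' := fun {x} hx => by
        rcases hx with hx | hx
        · exact Or.inl (Q.inv_mem hx)
        · refine Or.inr ?_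
          have := Q.inv_mem hx
          rw [mul_inv_rev, inv_eq_of_mul_eq_one_right hzz, ← hcomm hzs x⁻¹] at this
          exact this }
  have hAR : A ≤ R := by
    intro x hx
    rcases hx with hx | hx
    · exact h.le hx
    · have := R.mul_mem (h.le hx) z.2
      rwa [mul_assoc, hzz, mul_one] at this
  have hAsq : ∀ x ∈ A, x * x = 1 := by
    intro x hx
    rcases hx with hx | hx
    · exact hQsq x hx
    · have := hQsq _ hx
      rwa [show x * (z : G) * (x * z) = x * ((z : G) * x) * z by group, ← hcomm hzs x,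
        show x * (x * (z : G)) * z = (x * x) * ((z : G) * z) by group, hzz, mul_one] at this
  have hAel : IsElementaryAbelian 2 A := by
    refine ⟨⟨⟨fun x y => Subtype.ext ?_⟩⟩, fun x hx => by rw [pow_two]; exact hAsq x hx⟩
    have hi : ∀ u ∈ A, u⁻¹ = u := fun u hu => inv_eq_of_mul_eq_one_right (hAsq u hu)
    show (x : G) * y = y * x
    rw [← hi _ (A.mul_mem x.2 y.2), mul_inv_rev, hi _ x.2, hi _ y.2]
  have hA8 : Nat.card A = 8 := by
    let f : Q × Bool → A := fun u => ⟨if u.2 then (u.1 : G) else (u.1 : G) * z, by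
      cases u.2
      · exact Or.inr (by simp [mul_assoc, hzz])
      · exact Or.inl (by simp)⟩
    have hf : Function.Bijective f := by
      constructor
      · rintro ⟨q, c⟩ ⟨q', c'⟩ e
        have e' := congrArg Subtype.val e
        have hzQ : (z : G) ∉ Q := fun hq => hzne (h.eq_one_of_scalar hq hzs)
        cases c <;> cases c' <;> simp [f] at e'
        · exact Prod.ext e' rfl
        · refine absurd ?_ hzQ
          have := Q.mul_mem (Q.inv_mem q.2) q'.2
          rwa [← e', inv_mul_cancel_left] at this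
        · refine absurd ?_ hzQ
          have := Q.mul_mem (Q.inv_mem q'.2) q.2
          rwa [e', inv_mul_cancel_left] at this
        · exact Prod.ext e' rfl
      · rintro ⟨x, hx | hx⟩
        · exact ⟨(⟨x, hx⟩, true), rfl⟩
        · exact ⟨(⟨x * z, hx⟩, false), Subtype.ext (by simp [f, mul_assoc, hzz])⟩
    rw [← Nat.card_eq_of_bijective f hf, Nat.card_prod, h.cfg.card, Nat.card_eq_fintype_card,
      Fintype.card_bool]
  have hR32 : Nat.card R = 32 := by
    obtain ⟨k, hk⟩ := IsPGroup.iff_card.1 hp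
    have h8 := Subgroup.card_dvd_of_le hAR
    rw [hA8, hk, show (8 : ℕ) = 2 ^ 3 by norm_num, Nat.pow_dvd_pow_iff_le_right (by norm_num)] at h8
    have h5 : k ≤ 5 := by
      rw [hk, show (32 : ℕ) = 2 ^ 5 by norm_num] at h32
      exact (Nat.pow_le_pow_iff_right (by norm_num)).1 h32
    rw [hk]
    interval_cases k
    · exfalso
      have e : A = R := Subgroup.eq_of_le_of_card_ge hAR (by rw [hk, hA8]; norm_num)
      exact hnc fun x hx y hy => TwoSmall.comm_apply hAel.1 (e ▸ hx) (e ▸ hy)
    · exfalso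
      have hidx : (A.subgroupOf R).index = 2 := by
        have h1 := Subgroup.card_mul_index (A.subgroupOf R)
        rw [Nat.card_congr (Subgroup.subgroupOfEquivOfLe hAR).toEquiv, hA8, hk] at h1
        omega
      obtain ⟨g, hg, hgA⟩ : ∃ g ∈ R, g ∉ A := by
        by_contra hall
        push Not at hall
        have := Subgroup.card_le_of_le (show R ≤ A from hall)
        rw [hk, hA8] at this
        norm_num at this
      let θ : Q → Bool := fun q => decide (⁅g, (q : G)⁆ = 1)
      have hθ : Function.Injective θ := by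
        intro q q' e
        simp only [θ, decide_eq_decide] at e
        have heq : ⁅g, (q : G)⁆ = ⁅g, (q' : G)⁆ := by
          rcases htwo _ (hd g hg _ (h.le q.2)) with e1 | e1
          · rw [e1, e.1 e1]
          · rcases htwo _ (hd g hg _ (h.le q'.2)) with e2 | e2
            · rw [e2, e.2 e2]
            · rw [e1, e2]
        have hzq := hd g hg _ (h.le q.2)
        have hgq : Commute g ((q : G) * q') := by
          show g * ((q : G) * q') = (q : G) * q' * g
          have a1 : g * (q : G) = ⁅g, (q : G)⁆ * (q * g) := by rw [commutatorElement_def]; group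
          have a2 : g * (q' : G) = ⁅g, (q : G)⁆ * (q' * g) := by
            rw [heq, commutatorElement_def]; group
          calc g * ((q : G) * q') = g * q * q' := (mul_assoc _ _ _).symm
            _ = ⁅g, (q : G)⁆ * q * (g * q') := by rw [a1]; group
            _ = ⁅g, (q : G)⁆ * (q * ⁅g, (q : G)⁆) * q' * g := by rw [a2]; group
            _ = (⁅g, (q : G)⁆ * ⁅g, (q : G)⁆) * (q * q' * g) := by rw [hcomm hzq]; group
            _ = _ := by rw [scalarSub_sq hinj hzq, one_mul]
        have hq : (q : G) * q' ∈ Q := Q.mul_mem q.2 q'.2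
        have hall : ∀ u ∈ R, (q : G) * q' * u = u * ((q : G) * q') := by
          intro u hu
          by_cases huA : u ∈ A
          · exact TwoSmall.comm_apply hAel.1 (Or.inl hq) huA
          · have : g * u ∈ A := Subgroup.mem_subgroupOf.1
              ((Subgroup.mul_mem_iff_of_index_two hidx (a := ⟨g, hg⟩) (b := ⟨u, hu⟩)).2
                (iff_of_false hgA huA))
            have c2 : Commute ((q : G) * q') (g * u) := TwoSmall.comm_apply hAel.1 (Or.inl hq) this
            have := (hgq.symm.inv_right).mul_right c2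
            rwa [inv_mul_cancel_left] at this
        have := h.eq_one_of_scalar hq (hcen _ (h.le hq) hall)
        refine Subtype.ext ?_
        rw [eq_inv_of_mul_eq_one_left this, inv_eq_of_mul_eq_one_right (hQsq _ q'.2)]
      have := Nat.card_le_card_of_injective θ hθ
      rw [h.cfg.card, Nat.card_eq_fintype_card, Fintype.card_bool] at this
      omega
    · norm_num
  refine ⟨PGroup.isExtraspecial_of_center hp hZcard (fun hc => hnc fun x hx y hy =>
    congrArg Subtype.val (hc.is_comm.comm ⟨x, hx⟩ ⟨y, hy⟩)) ?_ fun x => (hcenter _).2 ?_,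
    hR32, A, hAR, hAel, hA8⟩
  · rw [_root_.commutator_def, Subgroup.commutator_le]
    exact fun u _ w _ => (hcenter _).2 (hd u u.2 w w.2)
  · rw [SubmonoidClass.coe_pow, pow_two]
    exact hsq x x.2

end Cfsg.Agent.ThreeBlock
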