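import Cfsg.Agent.ThreeBlock.Monomial
import Cfsg.Agent.ThreeBlock.Extra
import Cfsg.Agent.LargeExtra.Pair

/-!
The fixed space of `R` and its complement.
-/

set_option autoImplicit false

open Cfsg Module
open scoped commutatorElement Pointwise

namespace Cfsg.Agent.ThreeBlock

local instance : Fact (Nat.Prime 3) := ⟨Nat.prime_three⟩

variable {S : Type*} [Group S] [Finite S]
variable {E : Type*} [AddCommGroup E] [Module (ZMod 3) E] [Finite E]

/-- The setting inside the ambient group. -/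
structure Amb (ρ : S →* Module.End (ZMod 3) E) (b : S) (Q R : Subgroup S) : Prop where
  cfg : Config ρ b Q
  le : Q ≤ R
  coprime : (Nat.card R).Coprime 3
  comm : ⁅R, Subgroup.zpowers b⁆ = R

variable {ρ : S →* Module.End (ZMod 3) E} {b : S} {Q R : Subgroup S}

/-- The averaging map over `R`. -/
noncomputable def average (ρ : S →* Module.End (ZMod 3) E) (R : Subgroup S) :
    Module.End (ZMod 3) E :=
  haveI := Fintype.ofFinite R
  (Nat.card R : ZMod 3)⁻¹ • ∑ r : R, ρ (r : S)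

theorem Amb.card_ne_zero (h : Amb ρ b Q R) : (Nat.card R : ZMod 3) ≠ 0 := by
  rw [Ne, ZMod.natCast_eq_zero_iff]
  intro hd
  have := Nat.eq_one_of_dvd_coprimes h.coprime hd dvd_rfl
  norm_num at this

theorem Amb.le_normalizer (h : Amb ρ b Q R) :
    R ⊔ Subgroup.zpowers b ≤ Subgroup.normalizer (R : Set S) := by
  refine sup_le Subgroup.le_normalizer ?_
  have := Coprime.le_normalizer_commutator_right R (Subgroup.zpowers b)
  rwa [h.comm] at this

theorem average_apply_fix (h : Amb ρ b Q R) {v : E} (hv : ∀ r ∈ R, ρ r v = v) :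
    average ρ R v = v := by
  letI := Fintype.ofFinite R
  rw [average, LinearMap.smul_apply, LinearMap.sum_apply, Finset.sum_congr rfl
    (fun r _ => hv r.1 r.2), Finset.sum_const, Finset.card_univ, ← Nat.card_eq_fintype_card,
    ← Nat.cast_smul_eq_nsmul (ZMod 3), smul_smul, inv_mul_cancel₀ h.card_ne_zero, one_smul]

theorem fix_average {r : S} (hr : r ∈ R) (v : E) : ρ r (average ρ R v) = average ρ R v := by
  letI := Fintype.ofFinite R
  rw [average, LinearMap.smul_apply, map_smul, LinearMap.sum_apply, map_sum]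
  refine congrArg _ (Fintype.sum_equiv (Equiv.mulLeft ⟨r, hr⟩) _ _ fun x => ?_)
  rw [← rho_mul_apply]
  rfl

theorem average_fix {r : S} (hr : r ∈ R) (v : E) : average ρ R (ρ r v) = average ρ R v := by
  letI := Fintype.ofFinite R
  rw [average, LinearMap.smul_apply, LinearMap.smul_apply, LinearMap.sum_apply, LinearMap.sum_apply]
  refine congrArg _ (Fintype.sum_equiv (Equiv.mulRight ⟨r, hr⟩) _ _ fun x => ?_)
  rw [← rho_mul_apply]
  rfl

theorem average_comm {g : S} (hg : g ∈ Subgroup.normalizer (R : Set S)) (v : E) :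
    average ρ R (ρ g v) = ρ g (average ρ R v) := by
  letI := Fintype.ofFinite R
  rw [average, LinearMap.smul_apply, LinearMap.smul_apply, map_smul, LinearMap.sum_apply,
    LinearMap.sum_apply, map_sum]
  let e : R ≃ R :=
    { toFun := fun x => ⟨g⁻¹ * x * g, by
        have := (Subgroup.mem_normalizer_iff.1 (inv_mem hg) (x : S)).1 x.2
        simpa using this⟩
      invFun := fun x => ⟨g * x * g⁻¹, (Subgroup.mem_normalizer_iff.1 hg (x : S)).1 x.2⟩
      left_inv := fun x => Subtype.ext (by simp [mul_assoc])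
      right_inv := fun x => Subtype.ext (by simp [mul_assoc]) }
  refine congrArg _ (Fintype.sum_equiv e _ _ fun x => ?_)
  rw [← rho_mul_apply, ← rho_mul_apply]
  show ρ ((x : S) * g) v = ρ (g * (g⁻¹ * x * g)) v
  congr 2
  group

/-- The complement of the fixed space of `R`. -/
noncomputable def moving (ρ : S →* Module.End (ZMod 3) E) (R : Subgroup S) : Submodule (ZMod 3) E :=
  LinearMap.ker (average ρ R)

/-- The fixed space of `R`. -/
noncomputable def fixed (ρ : S →* Module.End (ZMod 3) E) (R : Subgroup S) : Submodule (ZMod 3) E :=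
  LinearMap.range (average ρ R)

theorem fixed_apply {r : S} (hr : r ∈ R) {v : E} (hv : v ∈ fixed ρ R) : ρ r v = v := by
  obtain ⟨w, rfl⟩ := hv
  exact fix_average hr w

theorem Amb.moving_inv (h : Amb ρ b Q R) {g : S} (hg : g ∈ R ⊔ Subgroup.zpowers b) {v : E}
    (hv : v ∈ moving ρ R) : ρ g v ∈ moving ρ R := by
  rw [moving, LinearMap.mem_ker] at hv ⊢
  rw [average_comm (h.le_normalizer hg), hv, map_zero]

theorem Amb.inf_eq (h : Amb ρ b Q R) : moving ρ R ⊓ fixed ρ R = ⊥ := by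
  rw [eq_bot_iff]
  intro v hv
  obtain ⟨h0, h1⟩ := Submodule.mem_inf.1 hv
  rw [moving, LinearMap.mem_ker] at h0
  rw [Submodule.mem_bot, ← h0, average_apply_fix h fun r hr => fixed_apply hr h1]

theorem Amb.sup_eq (h : Amb ρ b Q R) : moving ρ R ⊔ fixed ρ R = ⊤ := by
  rw [eq_top_iff]
  intro v _
  refine Submodule.mem_sup.2 ⟨v - average ρ R v, ?_, average ρ R v, ⟨v, rfl⟩, sub_add_cancel _ _⟩
  rw [moving, LinearMap.mem_ker, map_sub,
    average_apply_fix h (v := average ρ R v) (fun r hr => fix_average hr v), sub_self]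

theorem Amb.line_mem (h : Amb ρ b Q R) {q : S} (hq : q ∈ Q) {v : E} (hv : ρ q v = -v) :
    v ∈ moving ρ R := by
  rw [moving, LinearMap.mem_ker]
  have := average_fix (ρ := ρ) (h.le hq) v
  rw [hv, map_neg] at this
  exact eq_zero_of_neg_eq this

theorem Amb.lines_moving (h : Amb ρ b Q R) {t₁ t₂ t₃ : S} {e₁ e₂ e₃ : E}
    (L : Lines ρ b Q t₁ t₂ t₃ e₁ e₂ e₃) :
    e₁ ∈ moving ρ R ∧ e₂ ∈ moving ρ R ∧ e₃ ∈ moving ρ R :=
  ⟨h.line_mem L.m2 L.s21, h.line_mem L.m1 L.s12, h.line_mem L.m1 L.s13⟩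

/-- The elements of `R B` acting trivially on `W` modulo `N`. -/
theorem Amb.le_of_trivial (h : Amb ρ b Q R) {W N : Submodule (ZMod 3) E} (hNW : N ≤ W)
    (hW : ∀ g ∈ R ⊔ Subgroup.zpowers b, ∀ v ∈ W, ρ g v ∈ W)
    (hN : ∀ g ∈ R ⊔ Subgroup.zpowers b, ∀ v ∈ N, ρ g v ∈ N)
    (hb : ∀ v ∈ W, ρ b v - v ∈ N) : ∀ r ∈ R, ∀ v ∈ W, ρ r v - v ∈ N := by
  let M := R ⊔ Subgroup.zpowers b
  let K : Subgroup S :=
    { carrier := {g | g ∈ M ∧ ∀ v ∈ W, ρ g v - v ∈ N}
      mul_mem' := fun {g g'} hg hg' => ⟨M.mul_mem hg.1 hg'.1, fun v hv => by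
        rw [rho_mul_apply, show ρ g (ρ g' v) - v = ρ g (ρ g' v - v) + (ρ g v - v) by
          rw [map_sub]; abel]
        exact N.add_mem (hN g hg.1 _ (hg'.2 v hv)) (hg.2 v hv)⟩
      one_mem' := ⟨M.one_mem, fun v _ => by rw [map_one, Module.End.one_apply, sub_self]; exact N.zero_mem⟩
      inv_mem' := fun {g} hg => ⟨M.inv_mem hg.1, fun v hv => by
        have h1 := N.neg_mem (hN g⁻¹ (M.inv_mem hg.1) _ (hg.2 v hv))
        rw [map_sub, rho_inv_apply, neg_sub] at h1
        exact h1⟩ }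
  have hbK : b ∈ K := ⟨Subgroup.mem_sup_right (Subgroup.mem_zpowers b), hb⟩
  have hle : ⁅R, Subgroup.zpowers b⁆ ≤ K := Subgroup.commutator_le.2 fun r hr z hz => by
    have hzK : z ∈ K := (Subgroup.zpowers_le.2 hbK) hz
    have hrM : r ∈ M := Subgroup.mem_sup_left hr
    refine ⟨?_, fun v hv => ?_⟩
    · rw [commutatorElement_def]
      exact M.mul_mem (M.mul_mem (M.mul_mem hrM hzK.1) (M.inv_mem hrM)) (M.inv_mem hzK.1)
    · rw [commutatorElement_def, show r * z * r⁻¹ * z⁻¹ = (r * z * r⁻¹) * z⁻¹ by rfl, rho_mul_apply]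
      have hzi := (K.inv_mem hzK).2 v hv
      have hw : ρ z⁻¹ v ∈ W := hW _ (M.inv_mem hzK.1) v hv
      have hc : ρ (r * z * r⁻¹) (ρ z⁻¹ v) - ρ z⁻¹ v ∈ N := by
        have h2 := hN r hrM _ (hzK.2 _ (hW _ (M.inv_mem hrM) _ hw))
        rw [map_sub, rho_apply_inv] at h2
        rwa [rho_mul_apply, rho_mul_apply]
      have := N.add_mem hc hzi
      rwa [sub_add_sub_cancel] at this
  rw [h.comm] at hle
  exact fun r hr => (hle hr).2

theorem Amb.irreducible (h : Amb ρ b Q R) {N : Submodule (ZMod 3) E} (hN0 : N ≤ moving ρ R)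
    (hN : ∀ g ∈ R ⊔ Subgroup.zpowers b, ∀ v ∈ N, ρ g v ∈ N) : N = ⊥ ∨ N = moving ρ R := by
  obtain ⟨t₁, t₂, t₃, e₁, e₂, e₃, L⟩ := h.cfg.exists_lines
  obtain ⟨he1, he2, he3⟩ := h.lines_moving L
  have hM : ∀ g ∈ R ⊔ Subgroup.zpowers b, ∀ v ∈ moving ρ R, ρ g v ∈ moving ρ R :=
    fun g hg v hv => h.moving_inv hg hv
  have hqM : ∀ q ∈ Q, q ∈ R ⊔ Subgroup.zpowers b := fun q hq => Subgroup.mem_sup_left (h.le hq)
  have hbM : b ∈ R ⊔ Subgroup.zpowers b := Subgroup.mem_sup_right (Subgroup.mem_zpowers b)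
  by_cases htriv : ∀ q ∈ Q, ∀ v ∈ N, ρ q v = v
  · left
    have hb : ∀ v ∈ N, ρ b v - v ∈ (⊥ : Submodule (ZMod 3) E) := fun v hv => by
      rw [Submodule.mem_bot, sub_eq_zero]
      exact L.fix v fun q hq => htriv q hq v hv
    have hR := h.le_of_trivial (W := N) (N := ⊥) bot_le hN
      (fun g _ v hv => by rw [(Submodule.mem_bot _).1 hv, map_zero]; exact Submodule.zero_mem _) hb
    rw [eq_bot_iff]
    intro v hv
    have h1 := average_apply_fix h (v := v) fun r hr => sub_eq_zero.1 ((Submodule.mem_bot _).1 (hR r hr v hv))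
    have h2 := hN0 hv
    rw [moving, LinearMap.mem_ker, h1] at h2
    exact (Submodule.mem_bot _).2 h2
  right
  -- the weight lines lie in `N`
  have hb1 : ∀ v ∈ N, ρ b v ∈ N := hN b hbM
  have hlines : e₁ ∈ N ∧ e₂ ∈ N ∧ e₃ ∈ N := by
    have from1 : e₁ ∈ N → e₁ ∈ N ∧ e₂ ∈ N ∧ e₃ ∈ N := fun h1 =>
      ⟨h1, L.b1 ▸ hb1 _ h1, L.b2 ▸ hb1 _ (L.b1 ▸ hb1 _ h1)⟩
    push Not at htriv
    obtain ⟨q, hq, v, hv, hne⟩ := htriv
    obtain ⟨α, β, γ, c, hc, rfl⟩ := L.decomp v
    have hcoef : α ≠ 0 ∨ β ≠ 0 ∨ γ ≠ 0 := by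
      by_contra hall
      push Not at hall
      obtain ⟨rfl, rfl, rfl⟩ := hall
      exact hne (by simp only [zero_smul, zero_add]; exact hc q hq)
    have step : ∀ t ∈ Q, ∀ u ∈ N, u - ρ t u ∈ N := fun t ht u hu =>
      N.sub_mem hu (hN t (hqM t ht) u hu)
    have pick : ∀ (a : ZMod 3) (e : E), a ≠ 0 → a • e ∈ N → e ∈ N := fun a e ha hm => by
      have := N.smul_mem a⁻¹ hm
      rwa [smul_smul, inv_mul_cancel₀ ha, one_smul] at this
    have hdbl : ∀ u : E, u + u = -u := add_self_eq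
    set u := α • e₁ + β • e₂ + γ • e₃ + c
    rcases hcoef with ha | ha | ha
    · refine from1 (pick α e₁ ha ?_)
      have h2 := step t₃ L.m3 _ (step t₂ L.m2 u hv)
      simp only [u, map_sub, map_add, map_smul, L.s21, L.s22, L.s23, L.s31, L.s32, L.s33, smul_neg,
        map_neg, hc _ L.m2, hc _ L.m3] at h2
      convert h2 using 1
      have := hdbl (α • e₁)
      calc α • e₁ = -(α • e₁ + α • e₁) := by rw [this, neg_neg]
        _ = (α • e₁ + α • e₁) + (α • e₁ + α • e₁) := (hdbl _).symm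
        _ = _ := by abel
    · have h2 := step t₃ L.m3 _ (step t₁ L.m1 u hv)
      simp only [u, map_sub, map_add, map_smul, L.s11, L.s12, L.s13, L.s31, L.s32, L.s33, smul_neg,
        map_neg, hc _ L.m1, hc _ L.m3] at h2
      have he : e₂ ∈ N := pick β e₂ ha (by
        convert h2 using 1
        have := hdbl (β • e₂)
        calc β • e₂ = -(β • e₂ + β • e₂) := by rw [this, neg_neg]
          _ = (β • e₂ + β • e₂) + (β • e₂ + β • e₂) := (hdbl _).symm
          _ = _ := by abel)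
      exact from1 (L.b3 ▸ hb1 _ (L.b2 ▸ hb1 _ he))
    · have h2 := step t₂ L.m2 _ (step t₁ L.m1 u hv)
      simp only [u, map_sub, map_add, map_smul, L.s11, L.s12, L.s13, L.s21, L.s22, L.s23, smul_neg,
        map_neg, hc _ L.m1, hc _ L.m2] at h2
      have he : e₃ ∈ N := pick γ e₃ ha (by
        convert h2 using 1
        have := hdbl (γ • e₃)
        calc γ • e₃ = -(γ • e₃ + γ • e₃) := by rw [this, neg_neg]
          _ = (γ • e₃ + γ • e₃) + (γ • e₃ + γ • e₃) := (hdbl _).symm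
          _ = _ := by abel)
      exact from1 (L.b3 ▸ hb1 _ he)
  obtain ⟨h1, h2, h3⟩ := hlines
  have hb : ∀ v ∈ moving ρ R, ρ b v - v ∈ N := fun v _ => by
    obtain ⟨α, β, γ, c, hc, rfl⟩ := L.decomp v
    rw [map_add, map_add, map_add, map_smul, map_smul, map_smul, L.b1, L.b2, L.b3, L.fix c hc,
      add_sub_add_right_eq_sub]
    exact N.sub_mem (N.add_mem (N.add_mem (N.smul_mem _ h2) (N.smul_mem _ h3)) (N.smul_mem _ h1))
      (N.add_mem (N.add_mem (N.smul_mem _ h1) (N.smul_mem _ h2)) (N.smul_mem _ h3))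
  have hR := h.le_of_trivial hN0 hM hN hb
  refine le_antisymm hN0 fun v hv => ?_
  letI := Fintype.ofFinite R
  have h4 : ∑ r : R, (v - ρ (r : S) v) ∈ N :=
    N.sum_mem fun r _ => by rw [← neg_sub]; exact N.neg_mem (hR r r.2 v hv)
  have h5 := hv
  rw [moving, LinearMap.mem_ker, average, LinearMap.smul_apply, LinearMap.sum_apply, smul_eq_zero]
    at h5
  rw [Finset.sum_sub_distrib, h5.resolve_left (inv_ne_zero h.card_ne_zero), sub_zero,
    Finset.sum_const, Finset.card_univ, ← Nat.card_eq_fintype_card,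
    ← Nat.cast_smul_eq_nsmul (ZMod 3)] at h4
  have := N.smul_mem (Nat.card R : ZMod 3)⁻¹ h4
  rwa [smul_smul, inv_mul_cancel₀ h.card_ne_zero, one_smul] at this

theorem Amb.faithful (h : Amb ρ b Q R) {g : S} (hg : g ∈ R ⊔ Subgroup.zpowers b)
    (htriv : ∀ v ∈ moving ρ R, ρ g v = v) : g = 1 := by
  obtain ⟨t₁, t₂, t₃, e₁, e₂, e₃, L⟩ := h.cfg.exists_lines
  have hmul : g ∈ ((R : Set S) * (Subgroup.zpowers b : Set S)) := by
    rw [← Subgroup.coe_mul_of_right_le_normalizer_left R (Subgroup.zpowers b)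
      (le_sup_right.trans h.le_normalizer)]
    exact hg
  obtain ⟨r, hr, z, hz, rfl⟩ := Set.mem_mul.1 hmul
  have hzM : z ∈ R ⊔ Subgroup.zpowers b := Subgroup.mem_sup_right hz
  have hzr : ∀ v ∈ moving ρ R, ρ z v = ρ r⁻¹ v := fun v hv => by
    conv_rhs => rw [← htriv v hv]
    rw [rho_mul_apply, rho_inv_apply]
  have hpow : ∀ n : ℕ, ∀ v ∈ moving ρ R, ρ (z ^ n) v = ρ (r⁻¹ ^ n) v := by
    intro n
    induction n with
    | zero => simp
    | succ n ih =>
      intro v hv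
      rw [pow_succ, rho_mul_apply, ih _ (h.moving_inv hzM hv), hzr v hv, pow_succ, rho_mul_apply]
  have hz3 : orderOf z ∣ 3 := orderOf_dvd_of_pow_eq_one (by
    obtain ⟨m, rfl⟩ := hz
    show (b ^ m) ^ (3 : ℕ) = 1
    rw [← zpow_natCast, ← zpow_mul, mul_comm, zpow_mul, zpow_natCast, h.cfg.cube, one_zpow])
  obtain ⟨m, hm⟩ := exists_pow_eq_self_of_coprime (x := z) (n := Nat.card R)
    (h.coprime.coprime_dvd_right hz3)
  have hztriv : ∀ v ∈ moving ρ R, ρ z v = v := fun v hv => by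
    rw [← hm, ← pow_mul, hpow _ v hv, pow_mul,
      show r⁻¹ ^ Nat.card R = 1 from congrArg Subtype.val (pow_card_eq_one' (x := (⟨r, hr⟩ : R)⁻¹)),
      one_pow, map_one, Module.End.one_apply]
  have hz1 : z = 1 := by
    by_contra hne
    have hle : Subgroup.zpowers z ≤ Subgroup.zpowers b := Subgroup.zpowers_le.2 hz
    have hb3 : Nat.card (Subgroup.zpowers b) ≤ 3 := by
      rw [Nat.card_zpowers]
      exact Nat.le_of_dvd (by norm_num) (orderOf_dvd_of_pow_eq_one h.cfg.cube)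
    have hz3' : orderOf z = 3 :=
      ((Nat.dvd_prime Nat.prime_three).1 hz3).resolve_left fun e => hne (orderOf_eq_one_iff.1 e)
    have heq : Subgroup.zpowers z = Subgroup.zpowers b :=
      Subgroup.eq_of_le_of_card_ge hle (by rw [Nat.card_zpowers z, hz3']; exact hb3)
    obtain ⟨k, hk⟩ := mem_powers_iff_mem_zpowers.2 (heq.ge (Subgroup.mem_zpowers b))
    have hk' : ∀ k : ℕ, ρ (z ^ k) e₁ = e₁ := by
      intro k
      induction k with
      | zero => simp
      | succ k ih => rw [pow_succ, rho_mul_apply, hztriv _ (h.lines_moving L).1, ih]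
    have := hk' k
    rw [show z ^ k = b from hk, L.b1] at this
    have h12 := L.s12
    rw [this, L.s11] at h12
    exact L.e1ne (eq_zero_of_neg_eq h12.symm)
  subst hz1
  rw [mul_one] at htriv ⊢
  refine h.cfg.inj (LinearMap.ext fun v => ?_)
  obtain ⟨x, hx, y, hy, rfl⟩ := Submodule.mem_sup.1 (h.sup_eq.ge (Submodule.mem_top (x := v)))
  rw [map_one, Module.End.one_apply, map_add, htriv x hx, fixed_apply hr hy]

end Cfsg.Agent.ThreeBlock
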