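import Mathlib.GroupTheory.Perm.Sign
import Mathlib.GroupTheory.Perm.ViaEmbedding
import Mathlib.Data.Fintype.Perm
import Mathlib.Tactic.Group
import Mathlib.Tactic.FinCases
import Mathlib.Data.Fin.VecNotation

/-!
A permutation group without elements of order three, normalized by a three-cycle, whose translates
of the three moved points cover everything, has degree at most four.
-/

set_option autoImplicit false

namespace Cfsg.Agent.ThreeBlock

open Equiv

theorem five_word :
    ((swap (0 : Fin 5) 4 * swap 0 3) * (swap 0 2 * swap 0 1)⁻¹ *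
      ((swap (0 : Fin 5) 2 * swap 0 1) * ((swap 0 4 * swap 0 3) * (swap 0 2 * swap 0 1)⁻¹) *
        (swap 0 2 * swap 0 1)⁻¹)⁻¹) ^ 3 = 1 ∧
    (swap (0 : Fin 5) 4 * swap 0 3) * (swap 0 2 * swap 0 1)⁻¹ *
      ((swap (0 : Fin 5) 2 * swap 0 1) * ((swap 0 4 * swap 0 3) * (swap 0 2 * swap 0 1)⁻¹) *
        (swap 0 2 * swap 0 1)⁻¹)⁻¹ ≠ 1 := by
  decide +kernel

theorem three_word : ∀ σ h : Perm (Fin 3), σ ^ 3 = 1 → σ ≠ 1 → h ≠ 1 →
    h ^ 3 = 1 ∨ ((h * (σ * h * σ⁻¹)) ^ 3 = 1 ∧ h * (σ * h * σ⁻¹) ≠ 1) := by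
  decide +kernel

theorem four_word : ∀ σ h : Perm (Fin 4), σ ^ 3 = 1 → σ ≠ 1 → h ≠ 1 →
    ((h * h = 1 ∧ ∀ x, h x ≠ x) ∨ h ^ 3 = 1 ∨
      ((h * (σ * h * σ⁻¹)) ^ 3 = 1 ∧ h * (σ * h * σ⁻¹) ≠ 1) ∨
      (((h * h) * (σ * h * σ⁻¹)) ^ 3 = 1 ∧ (h * h) * (σ * h * σ⁻¹) ≠ 1) ∨
      ((h * (σ⁻¹ * h * σ)) ^ 3 = 1 ∧ h * (σ⁻¹ * h * σ) ≠ 1)) := by
  decide +kernel

theorem four_sign : ∀ π : Perm (Fin 4), π * π = 1 → (∀ x, π x ≠ x) → Perm.sign π = 1 := by
  decide +kernel

theorem four_univ : ∀ π : Perm (Fin 4), π * π = 1 → (∀ x, π x ≠ x) → ∀ i j : Fin 4,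
    j ≠ i → j ≠ π i → (Finset.univ : Finset (Fin 4)) = {i, π i, j, π j} := by
  decide +kernel

variable {α : Type*} [DecidableEq α]

theorem via_eq (f : Fin 5 ↪ α) (τ : Perm α) (τ₀ : Perm (Fin 5))
    (h1 : ∀ i, τ (f i) = f (τ₀ i)) (h2 : ∀ x, x ∉ Set.range f → τ x = x) :
    τ₀.viaEmbedding f = τ := by
  ext x
  by_cases hx : x ∈ Set.range f
  · obtain ⟨i, rfl⟩ := hx
    rw [Equiv.Perm.viaEmbedding_apply, h1]
  · rw [Equiv.Perm.viaEmbedding_apply_of_notMem _ _ _ hx, h2 x hx]

/-- The images of the three moved points under `H` meet them in at least two points. -/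
theorem two_le_inter (H : Subgroup (Perm α)) (σ : Perm α)
    (hnorm : ∀ h ∈ H, σ * h * σ⁻¹ ∈ H) (hno : ∀ h ∈ H, h ^ 3 = 1 → h = 1)
    {S : Finset α} (hcard : S.card = 3) (hfix : ∀ x, x ∉ S → σ x = x)
    (hcyc : ∀ x ∈ S, σ x ∈ S ∧ σ x ≠ x ∧ σ (σ x) ≠ x ∧ σ (σ (σ x)) = x)
    {h : Perm α} (hh : h ∈ H) : 2 ≤ (S.image h ∩ S).card := by
  by_contra hlt
  set s := h * σ * h⁻¹ with hs
  have hcu : s * σ⁻¹ ∈ H := by
    rw [hs, show h * σ * h⁻¹ * σ⁻¹ = h * (σ * h⁻¹ * σ⁻¹) by group]
    exact H.mul_mem hh (hnorm _ (inv_mem hh))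
  have hσ3 : σ ^ 3 = 1 := Equiv.ext fun x => by
    rw [pow_succ, pow_two, Perm.mul_apply, Perm.mul_apply, Perm.one_apply]
    by_cases hx : x ∈ S
    · exact (hcyc x hx).2.2.2
    · rw [hfix x hx, hfix x hx, hfix x hx]
  have hs3 : s ^ 3 = 1 := by rw [hs, conj_pow, hσ3, mul_one, mul_inv_cancel]
  have hsfix : ∀ x, x ∉ S.image h → s x = x := by
    intro x hx
    have : h⁻¹ x ∉ S := fun e => hx (Finset.mem_image.2 ⟨_, e, by simp⟩)
    rw [hs, Perm.mul_apply, Perm.mul_apply, hfix _ this]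
    simp
  rcases (S.image h ∩ S).eq_empty_or_nonempty with he | ⟨p, hp⟩
  · have hdis : Perm.Disjoint s σ := fun x => by
      by_cases hx : x ∈ S
      · exact Or.inl (hsfix x fun e => Finset.eq_empty_iff_forall_notMem.1 he x
          (Finset.mem_inter.2 ⟨e, hx⟩))
      · exact Or.inr (hfix x hx)
    have hc : Commute s σ⁻¹ := hdis.commute.inv_right
    have h1 := hno _ hcu (by rw [hc.mul_pow, hs3, inv_pow, hσ3, inv_one, mul_one])
    rw [mul_inv_eq_one] at h1
    obtain ⟨x, hx⟩ := Finset.card_pos.1 (by omega : 0 < S.card)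
    have := hsfix x fun e => Finset.eq_empty_iff_forall_notMem.1 he x
      (Finset.mem_inter.2 ⟨e, hx⟩)
    rw [h1] at this
    exact (hcyc x hx).2.1 this
  · obtain ⟨hp1, hpS⟩ := Finset.mem_inter.1 hp
    obtain ⟨q, hqS, hqp⟩ := Finset.mem_image.1 hp1
    obtain ⟨a1, a2, a3, a4⟩ := hcyc p hpS
    obtain ⟨b1, b2, b3, b4⟩ := hcyc q hqS
    have honly : ∀ x ∈ S, h x ∈ S → x = q := by
      intro x hx hxS
      by_contra hxq
      refine hlt ?_
      refine le_trans ?_ (Finset.card_le_card (s := {h x, p}) ?_)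
      · rw [Finset.card_pair (fun e => hxq (h.injective (e.trans hqp.symm)))]
      · intro y hy
        rcases Finset.mem_insert.1 hy with rfl | hy
        · exact Finset.mem_inter.2 ⟨Finset.mem_image_of_mem _ hx, hxS⟩
        · rw [Finset.mem_singleton.1 hy]; exact hp
    have n1 : h (σ q) ∉ S := fun e => b2 (honly _ b1 e)
    have n2 : h (σ (σ q)) ∉ S := fun e => b3 (honly _ (hcyc _ b1).1 e)
    have n12 : h (σ (σ q)) ≠ h (σ q) := fun e => b2 (σ.injective (h.injective e))
    have a21 : σ (σ p) ≠ σ p := fun e => a2 (σ.injective e)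
    have q1 : ∀ u ∈ S, h (σ q) ≠ u := fun u hu e => n1 (e.symm ▸ hu)
    have q2 : ∀ u ∈ S, h (σ (σ q)) ≠ u := fun u hu e => n2 (e.symm ▸ hu)
    let f : Fin 5 ↪ α := ⟨![p, σ p, σ (σ p), h (σ q), h (σ (σ q))], by
      intro i j e
      fin_cases i <;> fin_cases j <;> simp at e ⊢ <;>
        first
          | exact absurd e a2 | exact absurd e.symm a2
          | exact absurd e a3 | exact absurd e.symm a3
          | exact absurd e a21 | exact absurd e.symm a21
          | exact absurd e n12 | exact absurd e.symm n12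
          | exact absurd e b2 | exact absurd e.symm b2
          | exact absurd e b3 | exact absurd e.symm b3
          | exact absurd e (q1 _ hpS) | exact absurd e.symm (q1 _ hpS)
          | exact absurd e (q2 _ hpS) | exact absurd e.symm (q2 _ hpS)
          | exact absurd e (q1 _ a1) | exact absurd e.symm (q1 _ a1)
          | exact absurd e (q2 _ a1) | exact absurd e.symm (q2 _ a1)
          | exact absurd e (q1 _ (hcyc _ a1).1) | exact absurd e.symm (q1 _ (hcyc _ a1).1)
          | exact absurd e (q2 _ (hcyc _ a1).1) | exact absurd e.symm (q2 _ (hcyc _ a1).1)⟩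
    have hS : ∀ x ∈ S, x = p ∨ x = σ p ∨ x = σ (σ p) := by
      intro x hx
      have e : ({p, σ p, σ (σ p)} : Finset α) = S := Finset.eq_of_subset_of_card_le (fun y hy => by
        simp only [Finset.mem_insert, Finset.mem_singleton] at hy
        rcases hy with rfl | rfl | rfl
        exacts [hpS, a1, (hcyc _ a1).1]) (by
        rw [hcard, Finset.card_insert_of_notMem (by simp [a2.symm, a3.symm]),
          Finset.card_pair a21.symm])
      rw [← e] at hx
      simpa using hx
    have hT : ∀ x ∈ S.image h, x = p ∨ x = h (σ q) ∨ x = h (σ (σ q)) := by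
      intro x hx
      obtain ⟨y, hy, rfl⟩ := Finset.mem_image.1 hx
      have e : ({q, σ q, σ (σ q)} : Finset α) = S := Finset.eq_of_subset_of_card_le (fun z hz => by
        simp only [Finset.mem_insert, Finset.mem_singleton] at hz
        rcases hz with rfl | rfl | rfl
        exacts [hqS, b1, (hcyc _ b1).1]) (by
        rw [hcard, Finset.card_insert_of_notMem (by simp [b2.symm, b3.symm]),
          Finset.card_pair (fun e => b2 (σ.injective e.symm))])
      rw [← e] at hy
      simp only [Finset.mem_insert, Finset.mem_singleton] at hy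
      rcases hy with rfl | rfl | rfl
      exacts [Or.inl hqp, Or.inr (Or.inl rfl), Or.inr (Or.inr rfl)]
    have f0 : f 0 = p := rfl
    have f1 : f 1 = σ p := rfl
    have f2 : f 2 = σ (σ p) := rfl
    have f3 : f 3 = h (σ q) := rfl
    have f4 : f 4 = h (σ (σ q)) := rfl
    have hqh : h⁻¹ p = q := by rw [← hqp]; simp
    have e1 : ((swap (0 : Fin 5) 2 * swap 0 1)).viaEmbedding f = σ := by
      refine via_eq f σ _ (fun i => ?_) fun x hx => hfix x fun hxS => hx ?_
      · fin_cases i <;> simp [f0, f1, f2, f3, f4, swap_apply_def, a4, hfix _ n1, hfix _ n2]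
      · rcases hS x hxS with rfl | rfl | rfl
        exacts [⟨0, rfl⟩, ⟨1, rfl⟩, ⟨2, rfl⟩]
    have e2 : ((swap (0 : Fin 5) 4 * swap 0 3)).viaEmbedding f = s := by
      refine via_eq f s _ (fun i => ?_) fun x hx => hsfix x fun hxT => hx ?_
      · have m1 : ∀ x, x ∈ S → x ≠ p → x ∉ S.image h := fun x hxS hne e => by
          rcases hT x e with rfl | rfl | rfl
          exacts [hne rfl, n1 hxS, n2 hxS]
        fin_cases i
        · simp [f0, f1, f2, f3, f4, swap_apply_def, hs, ← hqp]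
        · simpa [f0, f1, f2, f3, f4, swap_apply_def] using hsfix _ (m1 _ a1 a2)
        · simpa [f0, f1, f2, f3, f4, swap_apply_def] using hsfix _ (m1 _ (hcyc _ a1).1 a3)
        · simp [f0, f1, f2, f3, f4, swap_apply_def, hs]
        · simp [f0, f1, f2, f3, f4, swap_apply_def, hs, b4, hqp]
      · rcases hT x hxT with rfl | rfl | rfl
        exacts [⟨0, rfl⟩, ⟨3, rfl⟩, ⟨4, rfl⟩]
    have hd : σ * (s * σ⁻¹) * σ⁻¹ ∈ H := hnorm _ hcu
    have hw := hno (s * σ⁻¹ * (σ * (s * σ⁻¹) * σ⁻¹)⁻¹) (H.mul_mem hcu (inv_mem hd))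
    set φ := Equiv.Perm.viaEmbeddingHom f
    have e1' : φ (swap (0 : Fin 5) 2 * swap 0 1) = σ := e1
    have e2' : φ (swap (0 : Fin 5) 4 * swap 0 3) = s := e2
    rw [← e1', ← e2', ← map_inv, ← map_mul, ← map_mul, ← map_mul, ← map_inv, ← map_mul,
      ← map_pow, five_word.1, map_one] at hw
    exact five_word.2 (Equiv.Perm.viaEmbeddingHom_injective f ((hw rfl).trans (map_one φ).symm))

/-- The degree is at most four. -/
theorem card_le_four [Fintype α] (H : Subgroup (Perm α)) (σ : Perm α)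
    (hnorm : ∀ h ∈ H, σ * h * σ⁻¹ ∈ H) (hno : ∀ h ∈ H, h ^ 3 = 1 → h = 1)
    {S : Finset α} (hcard : S.card = 3) (hfix : ∀ x, x ∉ S → σ x = x)
    (hcyc : ∀ x ∈ S, σ x ∈ S ∧ σ x ≠ x ∧ σ (σ x) ≠ x ∧ σ (σ (σ x)) = x)
    (hcov : ∀ x, ∃ h ∈ H, ∃ y ∈ S, h y = x) : Fintype.card α ≤ 4 := by
  by_contra hn
  push Not at hn
  obtain ⟨p, hp, q, hq, hpq⟩ : ∃ p ∈ Sᶜ, ∃ q ∈ Sᶜ, p ≠ q := Finset.one_lt_card.1 (by
    rw [Finset.card_compl, hcard]; omega)
  rw [Finset.mem_compl] at hp hq
  have key := fun {h : Perm α} (hh : h ∈ H) =>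
    two_le_inter H σ hnorm hno hcard hfix hcyc hh
  have pair : ∀ {h h' : Perm α}, h ∈ H → h' ∈ H → ∀ {x y : α}, x ∈ S.image h → x ∉ S →
      y ∈ S.image h' → y ∉ S → x ≠ y → S.image h ∩ S = S.image h' ∩ S := by
    intro h h' hh hh' x y hx hxS hy hyS hxy
    have small : ∀ {g : Perm α}, g ∈ H → ∀ {z : α}, z ∈ S.image g → z ∉ S →
        ∀ w ∈ S.image g, w ∈ S ∨ w = z := by
      intro g hg z hz hzS w hw
      by_contra hno'
      push Not at hno'
      have h1 : ({z, w} : Finset α) ∪ (S.image g ∩ S) ⊆ S.image g := Finset.union_subset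
        (fun u hu => by
          rcases Finset.mem_insert.1 hu with rfl | hu
          · exact hz
          · rw [Finset.mem_singleton.1 hu]; exact hw) Finset.inter_subset_left
      have h2 := Finset.card_le_card h1
      rw [Finset.card_union_of_disjoint (Finset.disjoint_left.2 fun u hu hu' => by
          have := (Finset.mem_inter.1 hu').2
          rcases Finset.mem_insert.1 hu with rfl | hu
          · exact hzS this
          · rw [Finset.mem_singleton.1 hu] at this; exact hno'.1 this),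
        Finset.card_pair hno'.2.symm, Finset.card_image_of_injective _ g.injective, hcard] at h2
      have := key hg
      omega
    have h1 : S.image h ∩ S.image h' ⊆ (S.image h ∩ S) ∩ (S.image h' ∩ S) := by
      intro w hw
      obtain ⟨w1, w2⟩ := Finset.mem_inter.1 hw
      rcases small hh hx hxS w w1 with e | e
      · exact Finset.mem_inter.2 ⟨Finset.mem_inter.2 ⟨w1, e⟩, Finset.mem_inter.2 ⟨w2, e⟩⟩
      · subst e
        rcases small hh' hy hyS w w2 with e | e
        · exact absurd e hxS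
        · exact absurd e hxy
    have h2 : 2 ≤ (S.image h ∩ S.image h').card := by
      have := key (H.mul_mem (inv_mem hh') hh)
      rw [← Finset.card_image_of_injective _ h'.injective, Finset.image_inter _ _ h'.injective,
        Finset.image_image] at this
      have e : (⇑h' ∘ ⇑(h'⁻¹ * h)) = ⇑h := by
        funext u
        simp
      rwa [e] at this
    have h3 : ∀ {g : Perm α}, g ∈ H → ∀ {z : α}, z ∈ S.image g → z ∉ S →
        (S.image g ∩ S).card ≤ 2 := by
      intro g hg z hz hzS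
      have := Finset.card_le_card (s := insert z (S.image g ∩ S)) (t := S.image g)
        (Finset.insert_subset hz Finset.inter_subset_left)
      rw [Finset.card_insert_of_notMem (fun e => hzS (Finset.mem_inter.1 e).2),
        Finset.card_image_of_injective _ g.injective, hcard] at this
      omega
    have h4 := h2.trans (Finset.card_le_card h1)
    have e1 : (S.image h ∩ S) ∩ (S.image h' ∩ S) = S.image h ∩ S :=
      Finset.eq_of_subset_of_card_le Finset.inter_subset_left ((h3 hh hx hxS).trans h4)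
    have e2 : (S.image h ∩ S) ∩ (S.image h' ∩ S) = S.image h' ∩ S :=
      Finset.eq_of_subset_of_card_le Finset.inter_subset_right ((h3 hh' hy hyS).trans h4)
    exact e1.symm.trans e2
  obtain ⟨h, hh, y, hyS, hyp⟩ := hcov p
  obtain ⟨h', hh', y', hy'S, hy'q⟩ := hcov q
  have hpI : p ∈ S.image h := Finset.mem_image.2 ⟨y, hyS, hyp⟩
  have hqI : q ∈ S.image h' := Finset.mem_image.2 ⟨y', hy'S, hy'q⟩
  have E1 := pair hh hh' hpI hp hqI hq hpq
  have him : S.image (⇑σ) = S := Finset.eq_of_subset_of_card_le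
    (Finset.image_subset_iff.2 fun x hx => (hcyc x hx).1)
    (Finset.card_image_of_injective _ σ.injective).ge
  have hσimg : S.image ⇑(σ * h * σ⁻¹) = (S.image h).image ⇑σ := by
    conv_lhs => rw [← him]
    rw [Finset.image_image, Finset.image_image]
    congr 1
    funext u
    simp
  have hpI' : p ∈ S.image ⇑(σ * h * σ⁻¹) := by
    rw [hσimg]; exact Finset.mem_image.2 ⟨p, hpI, hfix p hp⟩
  have E2 := pair (hnorm h hh) hh' hpI' hp hqI hq hpq
  -- the common pair would be invariant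
  obtain ⟨r, hrS, hrI⟩ : ∃ r ∈ S, r ∉ S.image h := by
    by_contra hall
    push Not at hall
    have : S = S.image h := Finset.eq_of_subset_of_card_le hall
      (Finset.card_image_of_injective _ h.injective).le
    exact hp (this ▸ hpI)
  have hr1 : σ r ∉ S.image h := fun e => by
    have h1 : σ r ∈ S.image h' ∩ S := E1 ▸ Finset.mem_inter.2 ⟨e, (hcyc r hrS).1⟩
    rw [← E2, hσimg] at h1
    obtain ⟨u, hu, hue⟩ := Finset.mem_image.1 (Finset.mem_inter.1 h1).1
    exact hrI (σ.injective hue ▸ hu)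
  have h2 := key hh
  have h3 : S.image h ∩ S ⊆ (S.erase r).erase (σ r) := fun u hu => by
    obtain ⟨u1, u2⟩ := Finset.mem_inter.1 hu
    exact Finset.mem_erase.2 ⟨fun e => hr1 (e ▸ u1), Finset.mem_erase.2 ⟨fun e => hrI (e ▸ u1), u2⟩⟩
  have h4 := Finset.card_le_card h3
  rw [Finset.card_erase_of_mem (Finset.mem_erase.2 ⟨(hcyc r hrS).2.1, (hcyc r hrS).1⟩),
    Finset.card_erase_of_mem hrS, hcard] at h4
  omega

end Cfsg.Agent.ThreeBlock
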