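import Cfsg.Agent.ThreeBlock.Core
import Cfsg.Agent.ThreeBlock.PermBound
import Cfsg.Agent.Known.InvolEigen
import Cfsg.Agent.PGroup.Extraspecial

/-!
The monomial case: `R` has an elementary abelian normal subgroup moved by `b`.
-/

set_option autoImplicit false

open Cfsg Module
open scoped commutatorElement

namespace Cfsg.Agent.ThreeBlock

local instance : Fact (Nat.Prime 3) := ⟨Nat.prime_three⟩
local instance : Fact (Nat.Prime 2) := ⟨Nat.prime_two⟩

variable {G : Type*} [Group G] [Finite G]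
variable {V : Type*} [AddCommGroup V] [Module (ZMod 3) V] [Finite V]
variable {ρ : G →* Module.End (ZMod 3) V} {b : G} {Q R : Subgroup G}

/-- The conjugate of a weight. -/
def conjW (N : Subgroup G) [hN : N.Normal] (g : G) (f : N → Prop) : N → Prop := fun x =>
  f ⟨g⁻¹ * x * g, by simpa using hN.conj_mem _ x.2 g⁻¹⟩

theorem conjW_mul (N : Subgroup G) [N.Normal] (g g' : G) (f : N → Prop) :
    conjW N g (conjW N g' f) = conjW N (g * g') f := funext fun x => by
  show f _ = f _
  congr 1
  ext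
  show g'⁻¹ * (g⁻¹ * x * g) * g' = (g * g')⁻¹ * x * (g * g')
  group

theorem conjW_one (N : Subgroup G) [N.Normal] (f : N → Prop) : conjW N 1 f = f :=
  funext fun x => by
    show f _ = f x
    congr 1
    ext
    simp

theorem repr_diag {ι : Type*} [Fintype ι] [DecidableEq ι] [DecidableEq V]
    (v : Basis ι (ZMod 3) V) (f : Module.End (ZMod 3) V)
    (hf : ∀ i, f (v i) = v i ∨ f (v i) = -v i) (u : V) (j : ι) :
    v.repr (f u) j = (if f (v j) = v j then 1 else -1) * v.repr u j := by
  have hs : ∀ i, f (v i) = (if f (v i) = v i then (1 : ZMod 3) else -1) • v i := fun i => by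
    by_cases e : f (v i) = v i
    · rw [if_pos e, one_smul, e]
    · rw [if_neg e, neg_one_smul]; exact (hf i).resolve_left e
  conv_lhs => rw [← v.sum_repr u]
  rw [map_sum, map_sum, Finsupp.finsetSum_apply]
  rw [Finset.sum_eq_single j]
  · by_cases e : f (v j) = v j
    · rw [if_pos e, map_smul, e, map_smul, Finsupp.smul_apply, v.repr_self,
        Finsupp.single_eq_same, smul_eq_mul, mul_one, one_mul]
    · rw [if_neg e, map_smul, (hf j).resolve_left e, map_smul, map_neg, Finsupp.smul_apply,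
        Finsupp.neg_apply, v.repr_self, Finsupp.single_eq_same, smul_eq_mul, mul_comm]
  · intro k _ hk
    rw [map_smul, hs k, map_smul, map_smul, Finsupp.smul_apply, Finsupp.smul_apply, v.repr_self,
      Finsupp.single_eq_of_ne hk.symm, smul_zero, smul_zero]
  · exact fun h => absurd (Finset.mem_univ j) h

theorem Setup.exists_monomial (h : Setup ρ b Q R) {N : Subgroup G} [hNn : N.Normal]
    (hN : IsElementaryAbelian 2 N) (hmove : ∃ x ∈ N, b * x ≠ x * b) :
    ∃ (n : ℕ) (v : Basis (Fin n) (ZMod 3) V) (ψ : G →* Equiv.Perm (Fin n)) (i₀ : Fin n),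
      (∀ g i, ∃ c : ZMod 3, (c = 1 ∨ c = -1) ∧ ρ g (v i) = c • v (ψ g i)) ∧
      (∀ x ∈ N, ψ x = 1) ∧
      (∀ i j, (∀ x ∈ N, (ρ x (v i) = v i ↔ ρ x (v j) = v j)) → i = j) ∧
      (∀ i, ∃ g, ψ g i₀ = i) ∧
      ψ b i₀ ≠ i₀ ∧ ψ b (ψ b i₀) ≠ i₀ ∧
      (∀ k, k ≠ i₀ → k ≠ ψ b i₀ → k ≠ ψ b (ψ b i₀) → ψ b k = k) := by
  classical
  have hcomm : ∀ x ∈ N, ∀ y ∈ N, x * y = y * x := fun x hx y hy => TwoSmall.comm_apply hN.1 hx hy
  have hsq : ∀ x ∈ N, x * x = 1 := fun x hx => by rw [← pow_two]; exact hN.2 x hx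
  obtain ⟨v, hv⟩ := Known.exists_common_eigenbasis (F := ZMod 3) (V := V) (by decide)
    ((fun x => ρ x) '' (N : Set G))
    (by
      rintro _ ⟨x, hx, rfl⟩ _ ⟨y, hy, rfl⟩ u
      simp only [← rho_mul_apply, hcomm x hx y hy])
    (by
      rintro _ ⟨x, hx, rfl⟩ u
      simp only [← rho_mul_apply, hsq x hx, map_one, Module.End.one_apply])
  have hvne : ∀ i, v i ≠ 0 := fun i => v.ne_zero i
  have hsign : ∀ x ∈ N, ∀ i, ρ x (v i) = v i ∨ ρ x (v i) = -v i := fun x hx i =>
    hv _ ⟨x, hx, rfl⟩ i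
  let w : Fin (finrank (ZMod 3) V) → N → Prop := fun i x => ρ (x : G) (v i) = v i
  have key : ∀ g i j, v.repr (ρ g (v i)) j ≠ 0 → w j = conjW N g (w i) := by
    intro g i j hne
    funext x
    apply propext
    show ρ (x : G) (v j) = v j ↔ ρ (g⁻¹ * x * g) (v i) = v i
    have hy : g⁻¹ * (x : G) * g ∈ N := by simpa using hNn.conj_mem _ x.2 g⁻¹
    have e : ρ (x : G) (ρ g (v i)) = ρ g (ρ (g⁻¹ * x * g) (v i)) := by
      rw [← rho_mul_apply, ← rho_mul_apply]
      congr 2
      group
    have e' := repr_diag v (ρ (x : G)) (hsign _ x.2) (ρ g (v i)) j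
    rw [e] at e'
    rcases hsign _ hy i with hi | hi
    · rw [hi] at e'
      refine iff_of_true ?_ hi
      by_contra hj
      rw [if_neg hj, neg_one_mul] at e'
      exact hne (eq_zero_of_neg_eq e'.symm)
    · rw [hi, map_neg, map_neg, Finsupp.neg_apply] at e'
      refine iff_of_false ?_ fun e2 => hvne i (eq_zero_of_neg_eq (hi.symm.trans e2))
      intro hj
      rw [if_pos hj, one_mul] at e'
      exact hne (eq_zero_of_neg_eq e')
  -- two indices in the same line
  have pair_false : ∀ i j, i ≠ j →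
      (∀ k ∈ ({i, j} : Set _), ∀ l ∈ ({i, j} : Set _), w l ≠ conjW N b (w k) ∧ w l ≠ conjW N b (conjW N b (w k))) →
      False := by
    intro i j hij hd
    let W : Submodule (ZMod 3) V := Submodule.span (ZMod 3) (Set.range ![v i, v j])
    let P : Module.End (ZMod 3) V := (v.coord i).smulRight (v i) + (v.coord j).smulRight (v j)
    have hW : finrank (ZMod 3) W = 2 := by
      have hli : LinearIndependent (ZMod 3) ![v i, v j] := by
        have := v.linearIndependent.comp ![i, j] (by
          intro a c e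
          fin_cases a <;> fin_cases c <;> simp_all)
        convert this using 1
        funext a
        fin_cases a <;> rfl
      exact (finrank_span_eq_card hli).trans (Fintype.card_fin 2)
    have hon : ∀ (f f' : Module.End (ZMod 3) V), f (v i) = f' (v i) → f (v j) = f' (v j) →
        ∀ u ∈ W, f u = f' u := fun f f' h1 h2 u hu =>
      LinearMap.eqOn_span (s := Set.range ![v i, v j]) (by
        rintro _ ⟨a, rfl⟩
        fin_cases a <;> assumption) hu
    have hP : ∀ u ∈ W, P u = u := hon P 1 (by simp [P, Finsupp.single_eq_of_ne hij.symm])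
      (by simp [P, Finsupp.single_eq_of_ne hij])
    have hz : ∀ g k, (∀ l ∈ ({i, j} : Set _), w l ≠ conjW N g (w k)) → P (ρ g (v k)) = 0 := by
      intro g k hl
      have h1 : v.repr (ρ g (v k)) i = 0 := by
        by_contra e; exact hl i (Or.inl rfl) (key g k i e)
      have h2 : v.repr (ρ g (v k)) j = 0 := by
        by_contra e; exact hl j (Or.inr rfl) (key g k j e)
      simp [P, h1, h2]
    have hP1 : ∀ u ∈ W, P (ρ b u) = 0 := hon (P * ρ b) 0
      (hz b i fun l hl => (hd i (Or.inl rfl) l hl).1)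
      (hz b j fun l hl => (hd j (Or.inr rfl) l hl).1)
    have hP2 : ∀ u ∈ W, P (ρ b (ρ b u)) = 0 := hon (P * ρ b * ρ b) 0
      (by
        have := hz (b * b) i fun l hl => by rw [← conjW_mul N]; exact (hd i (Or.inl rfl) l hl).2
        rwa [rho_mul_apply] at this)
      (by
        have := hz (b * b) j fun l hl => by rw [← conjW_mul N]; exact (hd j (Or.inr rfl) l hl).2
        rwa [rho_mul_apply] at this)
    have h1 := two_mul_finrank_le (ρ b) (rho_injective_apply ρ b) W P hP hP1 hP2
    have h2 := h.cfg.rank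
    omega
  have w3 : ∀ f, conjW N b (conjW N b (conjW N b f)) = f := fun f => by
    rw [conjW_mul N, conjW_mul N, ← pow_two, ← pow_succ, h.cfg.cube, conjW_one N]
  -- a moved weight
  obtain ⟨i₀, hi₀⟩ : ∃ i, w i ≠ conjW N b (w i) := by
    by_contra hall
    push Not at hall
    obtain ⟨x, hx, hbx⟩ := hmove
    apply hbx
    have hy : b⁻¹ * x * b ∈ N := by simpa using hNn.conj_mem _ hx b⁻¹
    have e : ρ (b⁻¹ * x * b) = ρ x := Known.signs_injective v (hsign _ hy) (hsign _ hx) fun i =>
      Iff.of_eq (congrFun (hall i) ⟨x, hx⟩).symm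
    have e' := h.cfg.inj e
    calc b * x = b * (b⁻¹ * x * b) := by rw [e']
      _ = x * b := by group
  have two : ∀ {i}, w i ≠ conjW N b (w i) → w i ≠ conjW N b (conjW N b (w i)) := fun {i} hi e => hi (by
    have := congrArg (conjW N b) e
    rw [w3] at this
    exact this.symm)
  have moved : ∀ {i j}, w i ≠ conjW N b (w i) → w j ≠ conjW N b (w j) → j ≠ i →
      w j = conjW N b (w i) ∨ w j = conjW N b (conjW N b (w i)) := by
    intro i j hi hj hne
    by_contra hno
    push Not at hno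
    refine pair_false i j hne.symm ?_
    intro k hk l hl
    rcases hk with hk | hk <;> rcases hl with hl | hl <;> subst k <;> subst l
    · exact ⟨hi, two hi⟩
    · exact hno
    · refine ⟨fun e => hno.2 ?_, fun e => hno.1 ?_⟩
      · rw [e, w3]
      · rw [e, w3]
    · exact ⟨hj, two hj⟩
  have class0 : ∀ j, w j = w i₀ → j = i₀ := by
    intro j hj
    by_contra hne
    rcases moved hi₀ (by rw [hj]; exact hi₀) hne with e | e
    · exact hi₀ (hj.symm.trans e)
    · exact two hi₀ (hj.symm.trans e)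
  -- transitivity
  have hex : ∀ g i, ∃ j, v.repr (ρ g (v i)) j ≠ 0 := by
    intro g i
    by_contra hall
    push Not at hall
    exact hvne i (rho_injective_apply ρ g ((v.ext_elem fun j => by simp [hall j]).trans
      (map_zero (ρ g)).symm))
  let U : Submodule (ZMod 3) V := Submodule.span (ZMod 3) (v '' {j | ∃ g, w j = conjW N g (w i₀)})
  have hU : U = ⊤ := by
    refine h.irr U (fun g u hu => ?_) ((Submodule.ne_bot_iff U).2
      ⟨v i₀, Submodule.subset_span ⟨i₀, ⟨1, (conjW_one N _).symm⟩, rfl⟩, hvne i₀⟩)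
    have hle : U ≤ U.comap (ρ g) := by
      refine Submodule.span_le.2 ?_
      rintro _ ⟨k, ⟨g', hk⟩, rfl⟩
      show ρ g (v k) ∈ U
      rw [v.mem_span_image]
      intro j hj
      rw [Finset.mem_coe, Finsupp.mem_support_iff] at hj
      exact ⟨g * g', by rw [key g k j hj, hk, conjW_mul N]⟩
    exact hle hu
  have htr : ∀ k, ∃ g, w k = conjW N g (w i₀) := by
    intro k
    have hk : v k ∈ U := hU ▸ Submodule.mem_top
    rw [v.mem_span_image, v.repr_self, Finsupp.support_single_ne_zero k one_ne_zero] at hk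
    exact hk (Finset.mem_singleton_self k)
  have winj : ∀ k l, w k = w l → k = l := by
    intro k l hkl
    by_contra hne
    obtain ⟨g, hg⟩ := htr k
    have hback : ∀ m, w m = w k → ρ g⁻¹ (v m) = v.repr (ρ g⁻¹ (v m)) i₀ • v i₀ := by
      intro m hm
      refine v.ext_elem fun j => ?_
      rw [map_smul, v.repr_self, Finsupp.smul_single, smul_eq_mul, mul_one]
      by_cases hj : j = i₀
      · rw [hj, Finsupp.single_eq_same]
      · rw [Finsupp.single_eq_of_ne hj]
        by_contra e
        apply hj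
        refine class0 j ?_
        rw [key _ m j e, hm, hg, conjW_mul N, inv_mul_cancel, conjW_one N]
    set a := v.repr (ρ g⁻¹ (v k)) i₀ with ha
    set a' := v.repr (ρ g⁻¹ (v l)) i₀ with ha'
    have e : a' • v k = a • v l := rho_injective_apply ρ g⁻¹ (by
      rw [map_smul, map_smul, hback k rfl, hback l hkl.symm, smul_smul, smul_smul, mul_comm])
    have hane : a ≠ 0 := fun ha0 => hvne k (rho_injective_apply ρ g⁻¹ (by
      rw [hback k rfl, ← ha, ha0, zero_smul, map_zero]))
    have := congrArg (fun u => v.repr u l) e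
    simp only [map_smul, v.repr_self, Finsupp.smul_apply, Finsupp.single_eq_same,
      Finsupp.single_eq_of_ne (Ne.symm hne), smul_zero, smul_eq_mul, mul_one] at this
    exact hane this.symm
  choose π hπ' using hex
  have hπ : ∀ g i, w (π g i) = conjW N g (w i) := fun g i => key g i _ (hπ' g i)
  have πmul : ∀ g g' i, π (g * g') i = π g (π g' i) := fun g g' i => winj _ _ (by
    rw [hπ, hπ, hπ, conjW_mul N])
  have πone : ∀ i, π 1 i = i := fun i => winj _ _ (by rw [hπ, conjW_one N])
  let ψ : G →* Equiv.Perm (Fin (finrank (ZMod 3) V)) :=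
    { toFun := fun g => ⟨π g, π g⁻¹, fun i => by rw [← πmul, inv_mul_cancel, πone],
        fun i => by rw [← πmul, mul_inv_cancel, πone]⟩
      map_one' := Equiv.ext πone
      map_mul' := fun g g' => Equiv.ext (πmul g g') }
  refine ⟨_, v, ψ, i₀, ?_, ?_, ?_, ?_, ?_, ?_, ?_⟩
  · intro g i
    have e : ρ g (v i) = v.repr (ρ g (v i)) (π g i) • v (π g i) := by
      refine v.ext_elem fun j => ?_
      rw [map_smul, v.repr_self, Finsupp.smul_single, smul_eq_mul, mul_one]
      by_cases hj : j = π g i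
      · rw [hj, Finsupp.single_eq_same]
      · rw [Finsupp.single_eq_of_ne hj]
        by_contra e
        exact hj (winj _ _ ((key g i j e).trans (hπ g i).symm))
    refine ⟨_, ?_, e⟩
    exact (zmod3_cases _).resolve_left (hπ' g i)
  · intro x hx
    refine Equiv.ext fun i => winj _ _ ?_
    show w (π x i) = w i
    rw [hπ]
    funext y
    show w i _ = w i y
    congr 1
    ext
    show x⁻¹ * (y : G) * x = y
    rw [mul_assoc, hcomm _ y.2 _ hx, inv_mul_cancel_left]
  · exact fun i j hij => winj i j (funext fun x => propext (hij x x.2))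
  · intro i
    obtain ⟨g, hg⟩ := htr i
    exact ⟨g, winj _ _ ((hπ g i₀).trans hg.symm)⟩
  · intro e
    have e1 := hπ b i₀
    change π b i₀ = i₀ at e
    rw [e] at e1
    exact hi₀ e1
  · intro e
    have e1 := hπ b (π b i₀)
    change π b (π b i₀) = i₀ at e
    rw [e, hπ] at e1
    exact two hi₀ e1
  · intro k hk hk1 hk2
    by_contra hfix
    have hmk : w k ≠ conjW N b (w k) := fun e => hfix (winj _ _ ((hπ b k).trans e.symm))
    rcases moved hi₀ hmk hk with e | e
    · exact hk1 (winj _ _ (e.trans (hπ b i₀).symm))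
    · refine hk2 (winj _ _ (e.trans ?_))
      show _ = w (π b (π b i₀))
      rw [hπ, hπ]

section Diagonal

variable {n : ℕ} {v : Basis (Fin n) (ZMod 3) V}

theorem diag_sq {x : G} (hinj : Function.Injective ρ)
    (hx : ∀ i, ρ x (v i) = v i ∨ ρ x (v i) = -v i) : x * x = 1 :=
  hinj (v.ext fun i => by
    rw [map_one, rho_mul_apply, Module.End.one_apply]
    rcases hx i with e | e <;> simp only [e, map_neg, neg_neg])

theorem diag_comm {x y : G} (hinj : Function.Injective ρ)
    (hx : ∀ i, ρ x (v i) = v i ∨ ρ x (v i) = -v i)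
    (hy : ∀ i, ρ y (v i) = v i ∨ ρ y (v i) = -v i) : x * y = y * x :=
  hinj (v.ext fun i => by
    rw [rho_mul_apply, rho_mul_apply]
    rcases hx i with e | e <;> rcases hy i with e' | e' <;> simp only [e, e', map_neg])

theorem det_monomial (f : Module.End (ZMod 3) V) (π : Equiv.Perm (Fin n)) (c : Fin n → ZMod 3)
    (hf : ∀ i, f (v i) = c i • v (π i)) :
    LinearMap.det f = (Equiv.Perm.sign π⁻¹ : ZMod 3) * ∏ i, c i := by
  rw [← LinearMap.det_toMatrix v]
  have : LinearMap.toMatrix v v f = (Matrix.diagonal c).submatrix ⇑π⁻¹ id := by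
    ext k l
    rw [LinearMap.toMatrix_apply, hf, map_smul, v.repr_self, Finsupp.smul_single, smul_eq_mul,
      mul_one, Finsupp.single_apply, Matrix.submatrix_apply, id, Matrix.diagonal_apply]
    by_cases hk : π l = k
    · subst hk; simp
    · rw [if_neg hk, if_neg]
      intro e
      exact hk (by rw [← e]; simp)
  rw [this, Matrix.det_permute, Matrix.det_diagonal]

end Diagonal

/-- The monomial case. -/
theorem Setup.monomial (h : Setup ρ b Q R) {N : Subgroup G} [N.Normal] (hNR : N ≤ R)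
    (hN : IsElementaryAbelian 2 N) (hmove : ∃ x ∈ N, b * x ≠ x * b) :
    (IsElementaryAbelian 2 R ∧ Nat.card R = 4) ∨
      (IsExtraspecial 2 R ∧ Nat.card R = 32 ∧
        ∃ A : Subgroup G, A ≤ R ∧ IsElementaryAbelian 2 A ∧ Nat.card A = 8) := by
  classical
  haveI := h.normal
  obtain ⟨n, v, ψ, i₀, hmon, hNker, hwinj, htr, hm1, hm2, hfix⟩ := h.exists_monomial hN hmove
  have hfin : finrank (ZMod 3) V = n := by rw [finrank_eq_card_basis v, Fintype.card_fin]
  set σ := ψ b with hσ
  set i₁ := σ i₀ with hi₁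
  set i₂ := σ i₁ with hi₂
  have hσ3 : σ ^ 3 = 1 := by rw [hσ, ← map_pow, h.cfg.cube, map_one]
  have h3a : ∀ k, σ (σ (σ k)) = k := fun k => by
    have := Equiv.Perm.ext_iff.1 hσ3 k
    simpa [pow_succ] using this
  let S : Finset (Fin n) := {i₀, i₁, i₂}
  have hS : ∀ k, k ∈ S ↔ k = i₀ ∨ k = i₁ ∨ k = i₂ := fun k => by simp [S]
  have hne12 : i₂ ≠ i₁ := fun e => hm1 (σ.injective e)
  have hScard : S.card = 3 := by
    simp only [S]
    rw [Finset.card_insert_of_notMem (by simp [Ne.symm hm1, Ne.symm hm2]),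
      Finset.card_pair hne12.symm]
  have hσfix : ∀ k, k ∉ S → σ k = k := fun k hk => by
    rw [hS] at hk
    push Not at hk
    exact hfix k hk.1 hk.2.1 hk.2.2
  have hcyc : ∀ k ∈ S, σ k ∈ S ∧ σ k ≠ k ∧ σ (σ k) ≠ k ∧ σ (σ (σ k)) = k := by
    intro k hk
    rw [hS] at hk
    rcases hk with rfl | rfl | rfl
    · exact ⟨(hS _).2 (Or.inr (Or.inl rfl)), hm1, hm2, h3a _⟩
    · exact ⟨(hS _).2 (Or.inr (Or.inr rfl)), hne12,
        fun e => hm2 (σ.injective e), h3a _⟩
    · exact ⟨(hS _).2 (Or.inl (h3a i₀)), fun e => hne12 (σ.injective e),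
        fun e => hne12 (e.symm.trans (congrArg σ (h3a i₀))), h3a _⟩
  let φ : R →* Equiv.Perm (Fin n) := ψ.comp R.subtype
  let H := φ.range
  have hH : ∀ {p}, p ∈ H ↔ ∃ r ∈ R, ψ r = p := fun {p} =>
    ⟨fun ⟨r, hr⟩ => ⟨r, r.2, hr⟩, fun ⟨r, hr, e⟩ => ⟨⟨r, hr⟩, e⟩⟩
  have hnorm : ∀ p ∈ H, σ * p * σ⁻¹ ∈ H := by
    intro p hp
    obtain ⟨r, hr, rfl⟩ := hH.1 hp
    exact hH.2 ⟨b * r * b⁻¹, h.normal.conj_mem r hr b, by rw [map_mul, map_mul, map_inv]⟩
  have hnorm' : ∀ p ∈ H, σ⁻¹ * p * σ ∈ H := by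
    intro p hp
    obtain ⟨r, hr, rfl⟩ := hH.1 hp
    exact hH.2 ⟨b⁻¹ * r * b, by simpa using h.normal.conj_mem r hr b⁻¹,
      by rw [map_mul, map_mul, map_inv]⟩
  have hno : ∀ p ∈ H, p ^ 3 = 1 → p = 1 := by
    intro p hp hp3
    exact orderOf_eq_one_iff.1 (Nat.eq_one_of_dvd_coprimes h.coprime
      ((H.orderOf_dvd_natCard hp).trans (Subgroup.card_range_dvd φ)) (orderOf_dvd_of_pow_eq_one hp3))
  have hpow : ∀ m : ℕ, ψ (b ^ m) i₀ ∈ S := by
    intro m
    induction m with
    | zero => rw [pow_zero, map_one]; exact (hS _).2 (Or.inl rfl)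
    | succ m ih => rw [pow_succ', map_mul]; exact (hcyc _ ih).1
  have hcov : ∀ k, ∃ p ∈ H, ∃ y ∈ S, p y = k := by
    intro k
    obtain ⟨g, hg⟩ := htr k
    obtain ⟨r, hr, z, hz, rfl⟩ := Subgroup.mem_sup_of_normal_left.1 (h.gen.ge (Subgroup.mem_top g))
    refine ⟨ψ r, hH.2 ⟨r, hr, rfl⟩, ψ z i₀, ?_, by rw [← hg, map_mul]; rfl⟩
    obtain ⟨m, rfl⟩ := mem_powers_iff_mem_zpowers.2 hz
    exact hpow m
  have hn4 : n ≤ 4 := by
    simpa using card_le_four H σ hnorm hno hScard hσfix hcyc hcov
  have hn3 : 3 ≤ n := by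
    have := Finset.card_le_univ S
    rw [hScard, Fintype.card_fin] at this
    exact this
  let D : Subgroup G := φ.ker.map R.subtype
  have hD : ∀ {x}, x ∈ D ↔ x ∈ R ∧ ψ x = 1 := fun {x} =>
    ⟨fun ⟨r, hr, e⟩ => e ▸ ⟨r.2, hr⟩, fun ⟨hx, e⟩ => ⟨⟨x, hx⟩, e, rfl⟩⟩
  have hdiag : ∀ {x}, ψ x = 1 → ∀ i, ρ x (v i) = v i ∨ ρ x (v i) = -v i := by
    intro x hx i
    obtain ⟨c, hc, e⟩ := hmon x i
    rw [hx, Equiv.Perm.one_apply] at e
    rcases hc with rfl | rfl
    · exact Or.inl (e.trans (one_smul _ _))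
    · exact Or.inr (e.trans (neg_one_smul _ _))
  have hDsq : ∀ x ∈ D, x * x = 1 := fun x hx => diag_sq h.cfg.inj (hdiag (hD.1 hx).2)
  have hDel : IsElementaryAbelian 2 D :=
    ⟨⟨⟨fun x y => Subtype.ext (diag_comm h.cfg.inj (hdiag (hD.1 x.2).2) (hdiag (hD.1 y.2).2))⟩⟩,
      fun x hx => by rw [pow_two]; exact hDsq x hx⟩
  have hDcard : Nat.card D ≤ 2 ^ (n - 1) := by
    have := Known.card_le_of_det_one (F := ZMod 3) (V := V) (by decide)
      (by omega : 1 ≤ finrank (ZMod 3) V) (fun x : D => ρ (x : G))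
      (fun x y e => Subtype.ext (h.cfg.inj e))
      (fun x y u => by
        rw [← rho_mul_apply, ← rho_mul_apply,
          diag_comm h.cfg.inj (hdiag (hD.1 x.2).2) (hdiag (hD.1 y.2).2)])
      (fun x u => by rw [← rho_mul_apply, hDsq x x.2, map_one]; rfl)
      (fun x => h.det_one (hD.1 x.2).1)
    rwa [hfin] at this
  have hRcard : Nat.card R = Nat.card D * Nat.card H := by
    rw [Subgroup.card_map_of_injective R.subtype_injective, ← Subgroup.index_ker,
      Subgroup.card_mul_index]
  obtain rfl | rfl : n = 3 ∨ n = 4 := by omega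
  · left
    have hH1 : ∀ p ∈ H, p = 1 := by
      intro p hp
      by_contra hne
      have hσ1 : σ ≠ 1 := fun e => hm1 (by rw [hi₁, e]; rfl)
      rcases three_word σ p hσ3 hσ1 hne with e | ⟨e, e'⟩
      · exact hne (hno p hp e)
      · exact e' (hno _ (H.mul_mem hp (hnorm p hp)) e)
    have hRD : D = R := le_antisymm (Subgroup.map_subtype_le _) fun r hr =>
      hD.2 ⟨hr, hH1 _ (hH.2 ⟨r, hr, rfl⟩)⟩
    rw [hRD] at hDel hDcard
    refine ⟨hDel, le_antisymm (by simpa using hDcard) ?_⟩
    rw [← h.cfg.card]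
    exact Subgroup.card_le_of_le h.le
  right
  have hσ1 : σ ≠ 1 := fun e => hm1 (by rw [hi₁, e]; rfl)
  have hV4 : ∀ p ∈ H, p ≠ 1 → p * p = 1 ∧ ∀ x, p x ≠ x := by
    intro p hp hne
    rcases four_word σ p hσ3 hσ1 hne with e | e | ⟨e, e'⟩ | ⟨e, e'⟩ | ⟨e, e'⟩
    · exact e
    · exact absurd (hno p hp e) hne
    · exact absurd (hno _ (H.mul_mem hp (hnorm p hp)) e) e'
    · exact absurd (hno _ (H.mul_mem (H.mul_mem hp hp) (hnorm p hp)) e) e'
    · exact absurd (hno _ (H.mul_mem hp (hnorm' p hp)) e) e'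
  have hHsq : ∀ p ∈ H, p * p = 1 := fun p hp => by
    by_cases e : p = 1
    · rw [e, one_mul]
    · exact (hV4 p hp e).1
  have hinjd : ∀ d, Function.Injective fun p : H => (p : Equiv.Perm (Fin 4)) d := by
    intro d p p' e
    by_contra hne
    have hne' : (p : Equiv.Perm (Fin 4))⁻¹ * p' ≠ 1 := fun e' =>
      hne (Subtype.ext (inv_mul_eq_one.1 e'))
    refine (hV4 _ (H.mul_mem (H.inv_mem p.2) p'.2) hne').2 d ?_
    simp only at e
    rw [Equiv.Perm.mul_apply, ← e]
    simp
  obtain ⟨d, hd⟩ : ∃ d, d ∉ S := by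
    by_contra hall
    push Not at hall
    have := Finset.card_le_card (fun x _ => hall x : (Finset.univ : Finset (Fin 4)) ⊆ S)
    simp [hScard] at this
  have hHtr : ∀ k, ∃ p ∈ H, p d = k := by
    obtain ⟨p, hp, y, hy, hpy⟩ := hcov d
    have hp' : p d = y := by
      have e := Equiv.Perm.ext_iff.1 (hHsq p hp) y
      rwa [Equiv.Perm.mul_apply, hpy, Equiv.Perm.one_apply] at e
    have hconj : ∀ q ∈ H, (σ * q * σ⁻¹) d = σ (q d) := fun q hq => by
      have : σ⁻¹ d = d := by rw [Equiv.Perm.inv_eq_iff_eq, hσfix d hd]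
      rw [Equiv.Perm.mul_apply, Equiv.Perm.mul_apply, this]
    intro k
    by_cases hk : k ∈ S
    · have hall : k = y ∨ k = σ y ∨ k = σ (σ y) := by
        rw [hS] at hk hy
        rcases hy with rfl | rfl | rfl <;> rcases hk with rfl | rfl | rfl <;>
          simp [hi₁, hi₂, h3a]
      rcases hall with rfl | rfl | rfl
      · exact ⟨p, hp, hp'⟩
      · exact ⟨_, hnorm p hp, by rw [hconj p hp, hp']⟩
      · exact ⟨_, hnorm _ (hnorm p hp), by rw [hconj _ (hnorm p hp), hconj p hp, hp']⟩
    · refine ⟨1, H.one_mem, ?_⟩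
      by_contra hne
      have h5 : ({d, k} : Finset (Fin 4)) ∪ S ⊆ Finset.univ := Finset.subset_univ _
      have := Finset.card_le_card h5
      rw [Finset.card_union_of_disjoint (by simp [hd, hk]), Finset.card_pair (by simpa using hne),
        hScard] at this
      simp at this
  have hHcard : Nat.card H = 4 := by
    rw [Nat.card_eq_of_bijective (fun p : H => (p : Equiv.Perm (Fin 4)) d)
      ⟨hinjd d, fun k => by obtain ⟨p, hp, e⟩ := hHtr k; exact ⟨⟨p, hp⟩, e⟩⟩, Nat.card_fin]
  have hND : N ≤ D := fun x hx => hD.2 ⟨hNR hx, hNker x hx⟩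
  haveI hDn : D.Normal := by
    have : D = R ⊓ ψ.ker := by
      ext x
      rw [hD, Subgroup.mem_inf, MonoidHom.mem_ker]
    rw [this]
    infer_instance
  -- an element of `D` moved by `b` and negating `v d`
  obtain ⟨x, hxD, hxb, hxd⟩ : ∃ x ∈ D, b * x ≠ x * b ∧ ρ x (v d) = -v d := by
    obtain ⟨x₁, hx₁, hx₁b⟩ := hmove
    rcases hdiag (hNker x₁ hx₁) d with e | e
    swap
    · exact ⟨x₁, hND hx₁, hx₁b, e⟩
    obtain ⟨x₂, hx₂, hx₂d⟩ : ∃ x ∈ N, ρ x (v d) = -v d := by
      by_contra hall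
      push Not at hall
      have hone : ∀ x ∈ N, ρ x (v d) = v d := fun x hx =>
        (hdiag (hNker x hx) d).resolve_right (hall x hx)
      have hevery : ∀ i, ∀ x ∈ N, ρ x (v i) = v i := by
        intro i x hx
        obtain ⟨p, hp, hpd⟩ := hHtr i
        obtain ⟨r, -, rfl⟩ := hH.1 hp
        obtain ⟨c, hc, e⟩ := hmon r d
        rw [hpd] at e
        have e2 : ρ x (ρ r (v d)) = ρ r (v d) := by
          have := congrArg (ρ r) (hone _ (by simpa using
            (inferInstance : N.Normal).conj_mem x hx r⁻¹ : r⁻¹ * x * r ∈ N))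
          rwa [← rho_mul_apply, show r * (r⁻¹ * x * r) = x * r by group, rho_mul_apply] at this
        rw [e, map_smul] at e2
        rcases hc with rfl | rfl
        · simpa using e2
        · simpa using e2
      exact hd ((hS d).2 (Or.inl (hwinj d i₀ fun x hx =>
        iff_of_true (hevery d x hx) (hevery i₀ x hx))))
    by_cases hb2 : b * x₂ = x₂ * b
    · refine ⟨x₂ * x₁, D.mul_mem (hND hx₂) (hND hx₁), fun e' => hx₁b ?_, ?_⟩
      · have : x₂ * (b * x₁) = x₂ * (x₁ * b) := by
          rw [← mul_assoc, ← hb2, mul_assoc, e', mul_assoc]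
        exact mul_left_cancel this
      · rw [rho_mul_apply, e, hx₂d]
    · exact ⟨x₂, hND hx₂, hb2, hx₂d⟩
  have hD8 : Nat.card D = 8 := by
    set x' := b * x * b⁻¹ with hx'
    set x'' := b * x' * b⁻¹ with hx''
    have hx'D : x' ∈ D := hDn.conj_mem x hxD b
    have hx''D : x'' ∈ D := hDn.conj_mem x' hx'D b
    have hconjd : ∀ y, ψ y = 1 → ρ y (v d) = -v d → ρ (b * y * b⁻¹) (v d) = -v d := by
      intro y hy hyd
      obtain ⟨c, hc, e⟩ := hmon b⁻¹ d
      have : ψ b⁻¹ d = d := by rw [map_inv, Equiv.Perm.inv_eq_iff_eq]; exact (hσfix d hd).symm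
      rw [this] at e
      rw [rho_mul_apply, rho_mul_apply, e, map_smul, hyd, map_smul, map_neg]
      have hb := congrArg (ρ b) e
      rw [rho_apply_inv, map_smul] at hb
      rw [smul_neg, ← hb]
    have hx'd := hconjd x (hD.1 hxD).2 hxd
    have hx''d := hconjd x' (hD.1 hx'D).2 hx'd
    have hyd : ρ (x * x') (v d) = v d := by rw [rho_mul_apply, hx'd, map_neg, hxd, neg_neg]
    have hxne : x' ≠ x := fun e => hxb (mul_inv_eq_iff_eq_mul.1 e)
    have hb3 : b * b * b = 1 := by rw [← h.cfg.cube, pow_succ, pow_two]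
    have hx2ne : x'' ≠ x := fun e => hxne (by
      have e' : b * x'' * b⁻¹ = x' := by rw [e]
      rw [← e', hx'', hx', show b * (b * (b * x * b⁻¹) * b⁻¹) * b⁻¹ =
        (b * b * b) * x * (b * b * b)⁻¹ by group, hb3]
      group)
    have hx12 : x'' ≠ x' := fun e => hxne (mul_left_cancel (mul_right_cancel e))
    have hd0 : v d ≠ 0 := v.ne_zero d
    have hsep : ∀ u, ρ u (v d) = -v d → ∀ u', ρ u' (v d) = v d → u ≠ u' := fun u hu u' hu' e =>
      hd0 (eq_zero_of_neg_eq (hu.symm.trans (e ▸ hu')))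
    have h1d : ρ (1 : G) (v d) = v d := by rw [map_one]; rfl
    have hy1 : x * x' ≠ 1 := fun e => hxne (by
      rw [← inv_eq_of_mul_eq_one_right e, inv_eq_of_mul_eq_one_right (hDsq x hxD)])
    let f : Fin 5 → D := ![1, ⟨x, hxD⟩, ⟨x', hx'D⟩, ⟨x'', hx''D⟩, ⟨x * x', D.mul_mem hxD hx'D⟩]
    have hf : Function.Injective f := by
      intro i j e
      have e' : (f i : G) = f j := congrArg Subtype.val e
      fin_cases i <;> fin_cases j <;> simp [f] at e' ⊢ <;>
        first
          | exact absurd e' hxne | exact absurd e'.symm hxne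
          | exact absurd e' hx2ne | exact absurd e'.symm hx2ne
          | exact absurd e' hx12 | exact absurd e'.symm hx12
          | exact absurd e' hy1 | exact absurd e'.symm hy1
          | exact absurd e' (hsep _ hxd _ h1d) | exact absurd e'.symm (hsep _ hxd _ h1d)
          | exact absurd e' (hsep _ hx'd _ h1d) | exact absurd e'.symm (hsep _ hx'd _ h1d)
          | exact absurd e' (hsep _ hx''d _ h1d) | exact absurd e'.symm (hsep _ hx''d _ h1d)
          | exact absurd e' (hsep _ hxd _ hyd) | exact absurd e'.symm (hsep _ hxd _ hyd)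
          | exact absurd e' (hsep _ hx'd _ hyd) | exact absurd e'.symm (hsep _ hx'd _ hyd)
          | exact absurd e' (hsep _ hx''d _ hyd) | exact absurd e'.symm (hsep _ hx''d _ hyd)
    have h5 := Nat.card_le_card_of_injective f hf
    rw [Nat.card_fin] at h5
    have hp : IsPGroup 2 D := fun a => ⟨1, Subtype.ext (by simpa [pow_two] using hDsq a a.2)⟩
    obtain ⟨k, hk⟩ := IsPGroup.iff_card.1 hp
    rw [hk] at h5 hDcard ⊢
    norm_num at hDcard
    have : k ≤ 3 := by
      by_contra hk'
      have := Nat.pow_le_pow_right (by norm_num : 0 < 2) (by omega : 4 ≤ k)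
      omega
    interval_cases k <;> omega
  have hR32 : Nat.card R = 32 := by rw [hRcard, hD8, hHcard]
  refine ⟨?_, hR32, D, Subgroup.map_subtype_le _, hDel, hD8⟩
  have hp : IsPGroup 2 R := IsPGroup.of_card (n := 5) hR32
  have hscalar_center : ∀ r : R, (ρ (r : G) = 1 ∨ ρ (r : G) = -1) → r ∈ Subgroup.center R := by
    intro r hr
    refine Subgroup.mem_center_iff.2 fun s => Subtype.ext (h.cfg.inj ?_)
    show ρ ((s : G) * r) = ρ ((r : G) * s)
    rw [map_mul, map_mul]
    rcases hr with e | e <;> rw [e] <;> simp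
  have hcenter : ∀ z ∈ Subgroup.center R, ρ (z : G) = 1 ∨ ρ (z : G) = -1 := by
    intro z hz
    have hzc : ∀ y ∈ R, y * (z : G) = z * y := fun y hy =>
      congrArg Subtype.val (Subgroup.mem_center_iff.1 hz ⟨y, hy⟩)
    have hψz : ψ (z : G) = 1 := Equiv.ext fun i => by
      refine hwinj _ _ fun y hy => ?_
      obtain ⟨c, hc, e⟩ := hmon (z : G) i
      have e1 : ρ y (ρ (z : G) (v i)) = ρ (z : G) (ρ y (v i)) := by
        rw [← rho_mul_apply, ← rho_mul_apply, hzc y (hNR hy)]
      rw [Equiv.Perm.one_apply]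
      have hc0 : c ≠ 0 := by rcases hc with rfl | rfl <;> decide
      rcases hdiag (hNker y hy) i with hy' | hy'
      · rw [hy', e, map_smul] at e1
        exact iff_of_true (smul_right_injective V hc0 e1) hy'
      · rw [hy', map_neg, e, map_smul, ← smul_neg] at e1
        have e2 := smul_right_injective V hc0 e1
        exact iff_of_false (fun e3 => v.ne_zero _ (eq_zero_of_neg_eq (e2.symm.trans e3)))
          (fun e3 => v.ne_zero _ (eq_zero_of_neg_eq (hy'.symm.trans e3)))
    obtain ⟨c, hc, e⟩ := hmon (z : G) d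
    rw [hψz, Equiv.Perm.one_apply] at e
    have hall : ρ (z : G) = c • 1 := v.ext fun i => by
      obtain ⟨p, hp, hpd⟩ := hHtr i
      obtain ⟨r, hr, rfl⟩ := hH.1 hp
      obtain ⟨c', hc', e'⟩ := hmon r d
      rw [hpd] at e'
      have hc0 : c' ≠ 0 := by rcases hc' with rfl | rfl <;> decide
      refine smul_right_injective V hc0 ?_
      show c' • ρ (z : G) (v i) = c' • (c • v i)
      rw [← map_smul, ← e', ← rho_mul_apply, ← hzc r hr, rho_mul_apply, e, map_smul, e',
        smul_comm]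
    rcases hc with rfl | rfl
    · exact Or.inl (by rw [hall, one_smul])
    · exact Or.inr (by rw [hall, neg_one_smul])
  have hcard : Nat.card (Subgroup.center R) = 2 := by
    refine le_antisymm ?_ ?_
    · let f : Subgroup.center R → Bool := fun z => decide (ρ ((z : R) : G) = 1)
      have hf : Function.Injective f := by
        intro z z' e
        simp only [f, decide_eq_decide] at e
        refine Subtype.ext (Subtype.ext (h.cfg.inj ?_))
        rcases hcenter _ z.2 with e1 | e1
        · rw [e1, e.1 e1]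
        · rcases hcenter _ z'.2 with e2 | e2
          · rw [e2, e.2 e2]
          · rw [e1, e2]
      simpa using Nat.card_le_card_of_injective f hf
    · haveI : Nontrivial R := Finite.one_lt_card_iff_nontrivial.1 (by rw [hR32]; norm_num)
      haveI := hp.center_nontrivial
      exact Finite.one_lt_card
  have hsq : ∀ r : R, r ^ 2 ∈ Subgroup.center R := by
    intro r
    refine hscalar_center _ ?_
    rw [SubmonoidClass.coe_pow, pow_two]
    by_cases hψr : ψ (r : G) = 1
    · rw [hDsq _ (hD.2 ⟨r.2, hψr⟩), map_one]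
      exact Or.inl rfl
    obtain ⟨hπ2, hπf⟩ := hV4 _ (hH.2 ⟨r, r.2, rfl⟩) hψr
    set π := ψ (r : G) with hπ
    choose c hc hce using fun i => hmon (r : G) i
    have hdet := det_monomial (ρ (r : G)) π c hce
    rw [h.det_one r.2, Equiv.Perm.sign_inv, four_sign π hπ2 hπf] at hdet
    have hππ : ∀ i, π (π i) = i := fun i => by
      rw [← Equiv.Perm.mul_apply, hπ2, Equiv.Perm.one_apply]
    have hval : ∀ i, ρ ((r : G) * r) (v i) = (c i * c (π i)) • v i := fun i => by
      rw [rho_mul_apply, hce i, map_smul, hce (π i), ← hπ, hππ, smul_smul]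
    have hconst : ∀ i, c i * c (π i) = c d * c (π d) := by
      intro i
      by_cases h1 : i = d
      · rw [h1]
      by_cases h2 : i = π d
      · rw [h2, hππ, mul_comm]
      have hπd : π i ≠ d := fun e => h2 (by rw [← e, hππ])
      have hπi : π i ≠ π d := fun e => h1 (π.injective e)
      rw [four_univ π hπ2 hπf d i h1 h2, Finset.prod_insert (by
          simp [Ne.symm (hπf d), Ne.symm h1, Ne.symm hπd]),
        Finset.prod_insert (by simp [Ne.symm h2, Ne.symm hπi]),
        Finset.prod_pair (hπf i).symm] at hdet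
      have hone : ∀ a a' : ZMod 3, (a = 1 ∨ a = -1) → (a' = 1 ∨ a' = -1) →
          (1 : ZMod 3) = a * a' → a' = a := by decide
      have hu : ∀ k, c k * c (π k) = 1 ∨ c k * c (π k) = -1 := fun k => by
        rcases hc k with e | e <;> rcases hc (π k) with e' | e' <;> rw [e, e'] <;> decide
      refine hone _ _ (hu d) (hu i) ?_
      rw [hdet, Units.val_one, Int.cast_one]
      ring
    rcases hc d with e | e <;> rcases hc (π d) with e' | e'
    · exact Or.inl (v.ext fun i => by rw [hval, hconst, e, e', mul_one, one_smul]; rfl)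
    · exact Or.inr (v.ext fun i => by rw [hval, hconst, e, e', one_mul, neg_one_smul]; rfl)
    · exact Or.inr (v.ext fun i => by rw [hval, hconst, e, e', mul_one, neg_one_smul]; rfl)
    · exact Or.inl (v.ext fun i => by rw [hval, hconst, e, e', neg_one_mul, neg_neg, one_smul]; rfl)
  refine PGroup.isExtraspecial_of_center hp hcard (fun hc => ?_) ?_ hsq
  · have h1 : Subgroup.center R = ⊤ := eq_top_iff.2 fun z _ =>
      Subgroup.mem_center_iff.2 fun g => hc.is_comm.comm g z
    rw [h1, Subgroup.card_top, hR32] at hcard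
    omega
  · rw [_root_.commutator_def, Subgroup.commutator_le]
    intro r _ s _
    rw [show ⁅r, s⁆ = r ^ 2 * (r⁻¹ * s) ^ 2 * (s⁻¹) ^ 2 by
      simp only [commutatorElement_def, pow_two]; group]
    exact mul_mem (mul_mem (hsq r) (hsq _)) (hsq _)

end Cfsg.Agent.ThreeBlock
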