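import Mathlib.LinearAlgebra.Dimension.Constructions
import Mathlib.LinearAlgebra.FiniteDimensional.Lemmas
import Mathlib.Algebra.Field.ZMod
import Mathlib.Algebra.Module.ZMod
import Mathlib.LinearAlgebra.Matrix.GeneralLinearGroup.Card

/-!
A four-group normalized by an element of order three whose displacement has rank at most two, over
the field with three elements.
-/

set_option autoImplicit false

namespace Cfsg.Agent.ThreeBlock

local instance : Fact (Nat.Prime 3) := ⟨Nat.prime_three⟩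

variable {G : Type*} [Group G]
variable {V : Type*} [AddCommGroup V] [Module (ZMod 3) V]

open Module

theorem neg_two_eq : (2 : ZMod 3) = -1 := by decide

theorem add_self_eq (v : V) : v + v = -v := by
  rw [← two_smul (ZMod 3) v, neg_two_eq, neg_one_smul]

theorem eq_zero_of_neg_eq {v : V} (h : -v = v) : v = 0 := by
  have h2 : v + v = 0 := by
    nth_rewrite 1 [← h]
    exact neg_add_cancel v
  rw [add_self_eq] at h2
  exact neg_eq_zero.1 h2

theorem rho_mul_apply (ρ : G →* Module.End (ZMod 3) V) (g h : G) (v : V) :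
    ρ (g * h) v = ρ g (ρ h v) := by rw [map_mul]; rfl

theorem rho_inv_apply (ρ : G →* Module.End (ZMod 3) V) (g : G) (v : V) :
    ρ g⁻¹ (ρ g v) = v := by rw [← rho_mul_apply, inv_mul_cancel, map_one]; rfl

theorem rho_apply_inv (ρ : G →* Module.End (ZMod 3) V) (g : G) (v : V) :
    ρ g (ρ g⁻¹ v) = v := by rw [← rho_mul_apply, mul_inv_cancel, map_one]; rfl

theorem rho_injective_apply (ρ : G →* Module.End (ZMod 3) V) (g : G) :
    Function.Injective (ρ g) := Function.LeftInverse.injective (rho_inv_apply ρ g)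

/-- A subspace `W` with `W`, `b W`, `b² W` separated by a projection has twice the dimension at
most the rank of `b - 1`. -/
theorem two_mul_finrank_le [Module.Finite (ZMod 3) V] (B : Module.End (ZMod 3) V)
    (hB : Function.Injective B) (W : Submodule (ZMod 3) V) (P : Module.End (ZMod 3) V)
    (hP : ∀ x ∈ W, P x = x) (hP1 : ∀ x ∈ W, P (B x) = 0) (hP2 : ∀ x ∈ W, P (B (B x)) = 0) :
    2 * finrank (ZMod 3) W ≤ finrank (ZMod 3) (LinearMap.range (B - 1)) := by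
  let φ : (W × W) →ₗ[ZMod 3] LinearMap.range (B - 1) :=
    ((B - 1).rangeRestrict).comp (W.subtype.comp (LinearMap.fst _ _ _) +
      (B.comp W.subtype).comp (LinearMap.snd _ _ _))
  have hval : ∀ z : W × W,
      (φ z : V) = B (z.1 : V) + B (B (z.2 : V)) - ((z.1 : V) + B (z.2 : V)) := fun z => by
    simp [φ, LinearMap.rangeRestrict]
  have hinj : Function.Injective φ := by
    rw [injective_iff_map_eq_zero]
    rintro ⟨x, y⟩ h
    have e : B (x : V) + B (B (y : V)) - ((x : V) + B (y : V)) = 0 := by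
      rw [← hval (x, y), h]; rfl
    have e1 := congrArg P e
    rw [map_sub, map_add, map_add, map_zero, hP _ x.2, hP1 _ x.2, hP1 _ y.2, hP2 _ y.2] at e1
    simp only [add_zero, zero_sub, neg_eq_zero] at e1
    rw [e1, map_zero, zero_add, zero_add] at e
    have e2 : B (y : V) = y := hB (sub_eq_zero.1 e)
    have e3 := hP1 _ y.2
    rw [e2, hP _ y.2] at e3
    exact Prod.ext (Subtype.ext e1) (Subtype.ext e3)
  have := LinearMap.finrank_le_finrank_of_injective hinj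
  rw [Module.finrank_prod] at this
  omega

/-- The configuration: a four-group moved by an element of order three of small displacement. -/
structure Config (ρ : G →* Module.End (ZMod 3) V) (b : G) (Q : Subgroup G) : Prop where
  inj : Function.Injective ρ
  cube : b ^ 3 = 1
  sq : ∀ q ∈ Q, q * q = 1
  card : Nat.card Q = 4
  norm : b ∈ Subgroup.normalizer (Q : Set G)
  fpf : ∀ q ∈ Q, b * q * b⁻¹ = q → q = 1
  rank : finrank (ZMod 3) (LinearMap.range (ρ b - 1)) ≤ 2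

/-- The three weight lines. -/
structure Lines (ρ : G →* Module.End (ZMod 3) V) (b : G) (Q : Subgroup G) (t₁ t₂ t₃ : G)
    (e₁ e₂ e₃ : V) : Prop where
  m1 : t₁ ∈ Q
  m2 : t₂ ∈ Q
  m3 : t₃ ∈ Q
  ne : t₁ ≠ 1
  all : ∀ q ∈ Q, q = 1 ∨ q = t₁ ∨ q = t₂ ∨ q = t₃
  e1ne : e₁ ≠ 0
  b1 : ρ b e₁ = e₂
  b2 : ρ b e₂ = e₃
  b3 : ρ b e₃ = e₁
  s11 : ρ t₁ e₁ = e₁
  s12 : ρ t₁ e₂ = -e₂
  s13 : ρ t₁ e₃ = -e₃
  s21 : ρ t₂ e₁ = -e₁
  s22 : ρ t₂ e₂ = e₂
  s23 : ρ t₂ e₃ = -e₃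
  s31 : ρ t₃ e₁ = -e₁
  s32 : ρ t₃ e₂ = -e₂
  s33 : ρ t₃ e₃ = e₃
  line : ∀ v : V, ρ t₁ v = v → ρ t₂ v = -v → ∃ c : ZMod 3, v = c • e₁
  fix : ∀ v : V, (∀ q ∈ Q, ρ q v = v) → ρ b v = v
  decomp : ∀ v : V, ∃ (α β γ : ZMod 3) (c : V), (∀ q ∈ Q, ρ q c = c) ∧
    v = α • e₁ + β • e₂ + γ • e₃ + c

theorem Config.exists_lines [Finite V] [Module.Finite (ZMod 3) V]
    {ρ : G →* Module.End (ZMod 3) V} {b : G} {Q : Subgroup G} (h : Config ρ b Q) :
    ∃ t₁ t₂ t₃ : G, ∃ e₁ e₂ e₃ : V, Lines ρ b Q t₁ t₂ t₃ e₁ e₂ e₃ := by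
  classical
  haveI : Finite Q := Nat.finite_of_card_ne_zero (by rw [h.card]; norm_num)
  obtain ⟨⟨t₁, ht1Q⟩, ht1⟩ : ∃ q : Q, q ≠ 1 := by
    haveI : Nontrivial Q := Finite.one_lt_card_iff_nontrivial.1 (by rw [h.card]; norm_num)
    exact exists_ne 1
  have ht1ne : t₁ ≠ 1 := fun e => ht1 (Subtype.ext e)
  have hconj : ∀ q ∈ Q, b * q * b⁻¹ ∈ Q := fun q hq => (Subgroup.mem_normalizer_iff.1 h.norm q).1 hq
  have hconjne : ∀ q ∈ Q, q ≠ 1 → b * q * b⁻¹ ≠ q ∧ b * q * b⁻¹ ≠ 1 := fun q hq hne =>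
    ⟨fun e => hne (h.fpf q hq e), fun e => hne (conj_eq_one_iff.1 e)⟩
  set t₂ := b * t₁ * b⁻¹ with ht2
  set t₃ := b * t₂ * b⁻¹ with ht3
  have ht2Q : t₂ ∈ Q := hconj _ ht1Q
  have ht3Q : t₃ ∈ Q := hconj _ ht2Q
  have h21 := hconjne _ ht1Q ht1ne
  have h32 := hconjne _ ht2Q h21.2
  have hb3 : b * b * b = 1 := by rw [← h.cube, pow_succ, pow_two]
  have h31 : b * t₃ * b⁻¹ = t₁ := by
    rw [ht3, ht2, show b * (b * (b * t₁ * b⁻¹) * b⁻¹) * b⁻¹ = (b * b * b) * t₁ * (b * b * b)⁻¹ by group,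
      hb3]
    group
  have h3ne1 : t₃ ≠ t₁ := by
    intro e
    have e' := h31
    rw [e] at e'
    exact ht1ne (h.fpf _ ht1Q e')
  have hall : ∀ q ∈ Q, q = 1 ∨ q = t₁ ∨ q = t₂ ∨ q = t₃ := by
    intro q hq
    by_contra hno
    push_neg at hno
    let g : Fin 5 → Q := ![1, ⟨t₁, ht1Q⟩, ⟨t₂, ht2Q⟩, ⟨t₃, ht3Q⟩, ⟨q, hq⟩]
    have hg : Function.Injective g := by
      intro i j e
      have e' := congrArg Subtype.val e
      fin_cases i <;> fin_cases j <;> simp [g] at e' ⊢ <;>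
        first
          | exact absurd e' ht1ne | exact absurd e'.symm ht1ne | exact absurd e' h21.2
          | exact absurd e'.symm h21.2 | exact absurd e' h32.2 | exact absurd e'.symm h32.2
          | exact absurd e' h21.1 | exact absurd e'.symm h21.1 | exact absurd e' h32.1
          | exact absurd e'.symm h32.1 | exact absurd e' h3ne1 | exact absurd e'.symm h3ne1
          | exact absurd e' hno.1 | exact absurd e'.symm hno.1 | exact absurd e' hno.2.1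
          | exact absurd e'.symm hno.2.1 | exact absurd e' hno.2.2.1
          | exact absurd e'.symm hno.2.2.1 | exact absurd e' hno.2.2.2
          | exact absurd e'.symm hno.2.2.2
    have := Nat.card_le_card_of_injective g hg
    rw [h.card] at this
    simp at this
  -- the multiplication table
  have hprod : ∀ x ∈ Q, ∀ y ∈ Q, x ≠ 1 → y ≠ 1 → x ≠ y → x * y ≠ 1 ∧ x * y ≠ x ∧ x * y ≠ y := by
    intro x hx y hy hx1 hy1 hxy
    refine ⟨fun e => hxy ?_, fun e => hy1 (by simpa using e), fun e => hx1 (by simpa using e)⟩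
    rw [eq_inv_of_mul_eq_one_left e, inv_eq_of_mul_eq_one_right (h.sq y hy)]
  have h12 : t₁ * t₂ = t₃ ∧ t₂ * t₁ = t₃ := by
    obtain ⟨a1, a2, a3⟩ := hprod _ ht1Q _ ht2Q ht1ne h21.2 h21.1.symm
    obtain ⟨c1, c2, c3⟩ := hprod _ ht2Q _ ht1Q h21.2 ht1ne h21.1
    refine ⟨?_, ?_⟩
    · rcases hall _ (Q.mul_mem ht1Q ht2Q) with e | e | e | e
      exacts [absurd e a1, absurd e a2, absurd e a3, e]
    · rcases hall _ (Q.mul_mem ht2Q ht1Q) with e | e | e | e
      exacts [absurd e c1, absurd e c3, absurd e c2, e]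
  have hsqv : ∀ q ∈ Q, ∀ v, ρ q (ρ q v) = v := fun q hq v => by
    rw [← rho_mul_apply, h.sq q hq, map_one]; rfl
  have hcomm : ∀ v, ρ t₁ (ρ t₂ v) = ρ t₂ (ρ t₁ v) := fun v => by
    rw [← rho_mul_apply, ← rho_mul_apply, h12.1, h12.2]
  have h13 : t₁ * t₃ = t₂ ∧ t₂ * t₃ = t₁ ∧ t₃ * t₁ = t₂ ∧ t₃ * t₂ = t₁ := by
    refine ⟨?_, ?_, ?_, ?_⟩
    · rw [← h12.1, ← mul_assoc, h.sq _ ht1Q, one_mul]
    · rw [← h12.2, ← mul_assoc, h.sq _ ht2Q, one_mul]
    · rw [← h12.2, mul_assoc, h.sq _ ht1Q, mul_one]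
    · rw [← h12.1, mul_assoc, h.sq _ ht2Q, mul_one]
  -- weight spaces
  let L₁ : Submodule (ZMod 3) V := LinearMap.ker (ρ t₁ - 1) ⊓ LinearMap.ker (ρ t₂ + 1)
  have mL : ∀ v, v ∈ L₁ ↔ ρ t₁ v = v ∧ ρ t₂ v = -v := fun v => by
    simp [L₁, sub_eq_zero, add_eq_zero_iff_eq_neg]
  have hbb : ∀ q q' v, b * q * b⁻¹ = q' → ρ q' (ρ b v) = ρ b (ρ q v) := fun q q' v e => by
    rw [← rho_mul_apply, ← rho_mul_apply, ← e, inv_mul_cancel_right]
  have hL3 : ∀ v ∈ L₁, ρ t₃ v = -v := fun v hv => by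
    rw [mL] at hv
    rw [← h12.1, rho_mul_apply, hv.2, map_neg, hv.1]
  have hL2 : ∀ v ∈ L₁, ρ t₁ (ρ b v) = -ρ b v ∧ ρ t₂ (ρ b v) = ρ b v ∧ ρ t₃ (ρ b v) = -ρ b v := by
    intro v hv
    have h' := hL3 v hv
    rw [mL] at hv
    refine ⟨?_, ?_, ?_⟩
    · rw [hbb t₃ t₁ v h31, h', map_neg]
    · rw [hbb t₁ t₂ v rfl, hv.1]
    · rw [hbb t₂ t₃ v rfl, hv.2, map_neg]
  have hL3' : ∀ v ∈ L₁, ρ t₁ (ρ b (ρ b v)) = -ρ b (ρ b v) ∧ ρ t₂ (ρ b (ρ b v)) = -ρ b (ρ b v) ∧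
      ρ t₃ (ρ b (ρ b v)) = ρ b (ρ b v) := by
    intro v hv
    obtain ⟨a, c, d⟩ := hL2 v hv
    refine ⟨?_, ?_, ?_⟩
    · rw [hbb t₃ t₁ _ h31, d, map_neg]
    · rw [hbb t₁ t₂ _ rfl, a, map_neg]
    · rw [hbb t₂ t₃ _ rfl, c]
  have hb3v : ∀ v, ρ b (ρ b (ρ b v)) = v := fun v => by
    rw [← rho_mul_apply, ← rho_mul_apply, hb3, map_one]; rfl
  -- the projections
  let P₁ : Module.End (ZMod 3) V := 1 + ρ t₁ - ρ t₂ - ρ t₃
  let P₂ : Module.End (ZMod 3) V := 1 - ρ t₁ + ρ t₂ - ρ t₃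
  let P₃ : Module.End (ZMod 3) V := 1 - ρ t₁ - ρ t₂ + ρ t₃
  let P₀ : Module.End (ZMod 3) V := 1 + ρ t₁ + ρ t₂ + ρ t₃
  have hfour : ∀ v : V, v + v + v + v = v := fun v => by
    rw [add_self_eq, neg_add_cancel, zero_add]
  have hP1mem : ∀ v, P₁ v ∈ L₁ := fun v => by
    rw [mL]
    constructor <;>
      · simp only [P₁, LinearMap.sub_apply, LinearMap.add_apply, Module.End.one_apply, map_sub,
          map_add, ← rho_mul_apply, h.sq _ ht1Q, h.sq _ ht2Q, h12.1, h12.2, h13.1, h13.2.1, map_one]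
        abel
  have hP2mem : ∀ v, ∃ x ∈ L₁, P₂ v = ρ b x := fun v => by
    refine ⟨P₁ (ρ b (ρ b v)), hP1mem _, ?_⟩
    simp only [P₁, P₂, LinearMap.sub_apply, LinearMap.add_apply, Module.End.one_apply, map_sub,
      map_add]
    rw [← hbb t₁ t₂ _ rfl, ← hbb t₂ t₃ _ rfl, ← hbb t₃ t₁ _ h31, hb3v]
    abel
  have hP3mem : ∀ v, ∃ x ∈ L₁, P₃ v = ρ b (ρ b x) := fun v => by
    refine ⟨P₁ (ρ b v), hP1mem _, ?_⟩
    simp only [P₁, P₃, LinearMap.sub_apply, LinearMap.add_apply, Module.End.one_apply, map_sub,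
      map_add]
    rw [← hbb t₁ t₂ _ rfl, ← hbb t₂ t₃ _ rfl, ← hbb t₃ t₁ _ h31, ← hbb t₂ t₃ _ rfl,
      ← hbb t₃ t₁ _ h31, ← hbb t₁ t₂ _ rfl, hb3v]
    abel
  have hP0fix : ∀ v, ∀ q ∈ Q, ρ q (P₀ v) = P₀ v := fun v q hq => by
    rcases hall q hq with rfl | rfl | rfl | rfl
    · rw [map_one]; rfl
    all_goals
      simp only [P₀, LinearMap.add_apply, Module.End.one_apply, map_add, ← rho_mul_apply,
        h.sq _ ht1Q, h.sq _ ht2Q, h.sq _ ht3Q, h12.1, h12.2, h13.1, h13.2.1, h13.2.2.1, h13.2.2.2,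
        map_one]
      abel
  have hsum : ∀ v, v = P₁ v + P₂ v + P₃ v + P₀ v := fun v => by
    conv_lhs => rw [← hfour v]
    simp only [P₀, P₁, P₂, P₃, LinearMap.sub_apply, LinearMap.add_apply, Module.End.one_apply]
    abel
  -- dimension one
  have hP : ∀ x ∈ L₁, P₁ x = x := fun x hx => by
    have := hL3 x hx
    rw [mL] at hx
    simp only [P₁, LinearMap.sub_apply, LinearMap.add_apply, Module.End.one_apply, hx.1, hx.2, this]
    rw [sub_neg_eq_add, sub_neg_eq_add]; exact hfour x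
  have hP1 : ∀ x ∈ L₁, P₁ (ρ b x) = 0 := fun x hx => by
    obtain ⟨a, c, d⟩ := hL2 x hx
    simp only [P₁, LinearMap.sub_apply, LinearMap.add_apply, Module.End.one_apply, a, c, d]
    abel
  have hP2 : ∀ x ∈ L₁, P₁ (ρ b (ρ b x)) = 0 := fun x hx => by
    obtain ⟨a, c, d⟩ := hL3' x hx
    simp only [P₁, LinearMap.sub_apply, LinearMap.add_apply, Module.End.one_apply, a, c, d]
    abel
  have hdim : finrank (ZMod 3) L₁ ≤ 1 := by
    have h1 := two_mul_finrank_le (ρ b) (rho_injective_apply ρ b) L₁ P₁ hP hP1 hP2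
    have h2 := h.rank
    omega
  have hL1ne : L₁ ≠ ⊥ := by
    intro hb
    refine ht1ne (h.inj ?_)
    rw [map_one]
    refine LinearMap.ext fun v => ?_
    have e1 : P₁ v = 0 := (Submodule.mem_bot _).1 (hb ▸ hP1mem v)
    obtain ⟨x, hx, e2⟩ := hP2mem v
    obtain ⟨y, hy, e3⟩ := hP3mem v
    have hx' : x = 0 := by rw [hb] at hx; exact (Submodule.mem_bot _).1 hx
    have hy' : y = 0 := by rw [hb] at hy; exact (Submodule.mem_bot _).1 hy
    rw [hx', map_zero] at e2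
    rw [hy', map_zero, map_zero] at e3
    have e0 : v = P₀ v := by
      have := hsum v
      rwa [e1, e2, e3, zero_add, zero_add, zero_add] at this
    rw [Module.End.one_apply, e0]
    exact hP0fix v _ ht1Q
  obtain ⟨e₁, he₁, he₁ne⟩ := (Submodule.ne_bot_iff L₁).1 hL1ne
  have hspan : ∀ x ∈ L₁, ∃ c : ZMod 3, x = c • e₁ := by
    intro x hx
    have hle : Submodule.span (ZMod 3) {e₁} ≤ L₁ := (Submodule.span_singleton_le_iff_mem _ _).2 he₁
    have heq : Submodule.span (ZMod 3) {e₁} = L₁ := Submodule.eq_of_le_of_finrank_le hle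
      (by rw [finrank_span_singleton he₁ne]; exact hdim)
    obtain ⟨c, hc⟩ := Submodule.mem_span_singleton.1 (heq.ge hx)
    exact ⟨c, hc.symm⟩
  obtain ⟨a1, a2, a3⟩ := hL2 e₁ he₁
  obtain ⟨c1, c2, c3⟩ := hL3' e₁ he₁
  have ht3e : ρ t₃ e₁ = -e₁ := hL3 e₁ he₁
  rw [mL] at he₁
  refine ⟨t₁, t₂, t₃, e₁, ρ b e₁, ρ b (ρ b e₁), ht1Q, ht2Q, ht3Q, ht1ne, hall, he₁ne, rfl, rfl,
    hb3v e₁, he₁.1, a1, c1, he₁.2, a2, c2, ht3e, a3, c3,
    fun v h1 h2 => hspan v ((mL v).2 ⟨h1, h2⟩), ?_, ?_⟩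
  · -- `b` fixes what `Q` fixes
    intro v hv
    let S : Submodule (ZMod 3) V := LinearMap.range (ρ b - 1) ⊓ LinearMap.ker P₀
    have hP0 : ∀ x ∈ L₁, P₀ x = 0 ∧ P₀ (ρ b x) = 0 ∧ P₀ (ρ b (ρ b x)) = 0 := fun x hx => by
      obtain ⟨p, q, r⟩ := hL2 x hx
      obtain ⟨p', q', r'⟩ := hL3' x hx
      have t := hL3 x hx
      rw [mL] at hx
      refine ⟨?_, ?_, ?_⟩ <;>
        · simp only [P₀, LinearMap.add_apply, Module.End.one_apply, hx.1, hx.2, t, p, q, r, p', q',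
            r']
          abel
    have he₁' : e₁ ∈ L₁ := (mL e₁).2 he₁
    let φ : (ZMod 3 × ZMod 3) →ₗ[ZMod 3] S :=
      LinearMap.codRestrict S
        ((LinearMap.toSpanSingleton (ZMod 3) V ((ρ b - 1) e₁)).comp (LinearMap.fst _ _ _) +
          (LinearMap.toSpanSingleton (ZMod 3) V ((ρ b - 1) (ρ b e₁))).comp (LinearMap.snd _ _ _))
        (fun z => by
          obtain ⟨p, q, r⟩ := hP0 e₁ he₁'
          refine ⟨⟨z.1 • e₁ + z.2 • ρ b e₁, by simp [map_add, map_smul]⟩, ?_⟩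
          simp [map_add, map_smul, map_sub, p, q, r])
    have hφ : Function.Injective φ := by
      rw [injective_iff_map_eq_zero]
      rintro ⟨x, y⟩ hz
      have e : x • (ρ b e₁ - e₁) + y • (ρ b (ρ b e₁) - ρ b e₁) = 0 := by
        have := congrArg Subtype.val hz
        simpa [φ] using this
      have e' := congrArg P₁ e
      rw [map_add, map_smul, map_smul, map_sub, map_sub, hP _ he₁', hP1 _ he₁', hP2 _ he₁',
        map_zero, zero_sub, sub_zero, smul_zero, add_zero, smul_neg, neg_eq_zero,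
        smul_eq_zero] at e'
      have hx0 := e'.resolve_right he₁ne
      rw [hx0, zero_smul, zero_add, smul_eq_zero] at e
      rcases e with e | e
      · rw [hx0, e]; rfl
      · exfalso
        have e'' := congrArg P₁ (rho_injective_apply ρ b (sub_eq_zero.1 e))
        rw [hP _ he₁', hP1 _ he₁'] at e''
        exact he₁ne e''.symm
    have h1 := LinearMap.finrank_le_finrank_of_injective hφ
    rw [Module.finrank_prod, Module.finrank_self] at h1
    have h3 : S = LinearMap.range (ρ b - 1) :=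
      Submodule.eq_of_le_of_finrank_le inf_le_left (h.rank.trans h1)
    have h4 : (ρ b - 1) v ∈ LinearMap.ker P₀ :=
      (h3.ge (LinearMap.mem_range_self _ v)).2
    rw [LinearMap.mem_ker] at h4
    have h5 : ∀ q ∈ Q, ρ q ((ρ b - 1) v) = (ρ b - 1) v := by
      intro q hq
      have hq' : b⁻¹ * q * b ∈ Q := by
        have := (Subgroup.mem_normalizer_iff.1 (inv_mem h.norm) q).1 hq
        simpa using this
      simp only [LinearMap.sub_apply, Module.End.one_apply, map_sub, hv q hq]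
      rw [hbb (b⁻¹ * q * b) q v (by group), hv _ hq']
    simp only [P₀, LinearMap.add_apply, Module.End.one_apply] at h4
    rw [h5 _ ht1Q, h5 _ ht2Q, h5 _ ht3Q, hfour] at h4
    simpa [sub_eq_zero] using h4
  · intro v
    obtain ⟨x, hx, e2⟩ := hP2mem v
    obtain ⟨y, hy, e3⟩ := hP3mem v
    obtain ⟨α, hα⟩ := hspan _ (hP1mem v)
    obtain ⟨β, hβ⟩ := hspan x hx
    obtain ⟨γ, hγ⟩ := hspan y hy
    refine ⟨α, β, γ, P₀ v, hP0fix v, ?_⟩
    conv_lhs => rw [hsum v, hα, e2, e3, hβ, hγ]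
    simp only [map_smul]

end Cfsg.Agent.ThreeBlock
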